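import Cfsg.Agent.Lib.Helper78.DFZ.Defs

set_option autoImplicit false

namespace Cfsg.Agent.Lib.Helper78.DFZ

variable {k G W : Type*} [Field k] [Group G] [Fintype G] [AddCommGroup W] [Module k W]
  {I F : Type*} [Field F] [Fintype F] [DecidableEq F] {p : ℕ} [Fact p.Prime] [CharP k p] [CharP F p]

/-- `G = ⊔ t R` as a bijection. -/
noncomputable def L1_equiv (R : Subgroup G) : (G ⧸ R) × R ≃ G where
  toFun x := x.1.out * x.2
  invFun g := ((g : G ⧸ R), ⟨(g : G ⧸ R).out⁻¹ * g, by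
      rw [← QuotientGroup.eq]; exact QuotientGroup.out_eq' _⟩)
  left_inv := by
    rintro ⟨q, r⟩
    have : ((q.out * r : G) : G ⧸ R) = q := by
      rw [QuotientGroup.mk_mul_of_mem _ r.2]; exact QuotientGroup.out_eq' q
    ext
    · simp [this]
    · simp [this]
  right_inv := by intro g; simp

theorem L1_sg_apply (ρ : Representation k G W) (R : Subgroup G) [Fintype R] (w : W) :
    sg ρ R w = ∑ r : R, ρ (r : G) w := by
  classical
  unfold sg
  rw [LinearMap.sum_apply]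
  exact Finset.sum_subtype _ (by simp) _

theorem fix_eq (ρ : Representation k G W) (h : HasTr ρ) (R : Subgroup G) (w : W) (hw : Fx ρ R w) :
    ∃ w', w = sg ρ R w' := by
  classical
  obtain ⟨f, hf⟩ := h
  refine ⟨∑ q : G ⧸ R, ρ (q.out)⁻¹ (f (ρ q.out w)), ?_⟩
  have h1 : w = ∑ g : G, ρ g (f (ρ g⁻¹ w)) := by
    have := congrArg (fun L : W →ₗ[k] W => L w) hf
    simp only [LinearMap.sum_apply, LinearMap.comp_apply, LinearMap.id_apply] at this
    exact this.symm
  have h2 : ∑ g : G, ρ g (f (ρ g⁻¹ w)) = ∑ g : G, ρ g⁻¹ (f (ρ g w)) := by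
    apply Fintype.sum_equiv (Equiv.inv G)
    intro g
    simp
  have h3 : ∑ g : G, ρ g⁻¹ (f (ρ g w)) =
      ∑ x : (G ⧸ R) × R, ρ (x.2 : G)⁻¹ (ρ (x.1.out)⁻¹ (f (ρ x.1.out w))) := by
    symm
    apply Fintype.sum_equiv (L1_equiv R)
    rintro ⟨q, r⟩
    change _ = ρ (q.out * r)⁻¹ (f (ρ (q.out * r) w))
    rw [mul_inv_rev, map_mul, map_mul, Module.End.mul_apply, Module.End.mul_apply, hw r r.2]
  rw [L1_sg_apply]
  conv_lhs => rw [h1, h2, h3, Fintype.sum_prod_type_right]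
  have h4 : ∀ w' : W, ∑ r : R, ρ (r : G) w' = ∑ r : R, ρ (r : G)⁻¹ w' := by
    intro w'
    apply Fintype.sum_equiv (Equiv.inv R)
    intro r
    simp
  rw [h4]
  apply Finset.sum_congr rfl
  intro r _
  rw [map_sum]

end Cfsg.Agent.Lib.Helper78.DFZ
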