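import Cfsg.Agent.Lib.Helper78.DFZ.Defs

/-! Ladder DFZ, rung SG (helper98): API of `sg`. -/

set_option autoImplicit false

namespace Cfsg.Agent.Lib.Helper78.DFZ

variable {k G W : Type*} [Field k] [Group G] [Fintype G] [AddCommGroup W] [Module k W]
  {I F : Type*} [Field F] [Fintype F] [DecidableEq F] {p : ℕ} [Fact p.Prime] [CharP k p] [CharP F p]

theorem sg_eq_sum (ρ : Representation k G W) (R : Subgroup G) [Fintype R] :
    sg ρ R = ∑ r : R, ρ (r : G) := by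
  classical
  unfold sg
  exact Finset.sum_subtype _ (fun x => by simp) _

theorem sg_iff_of_norm (R : Subgroup G) (g : G) (h : ∀ u ∈ R, g * u * g⁻¹ ∈ R) :
    ∀ u, u ∈ R ↔ g * u * g⁻¹ ∈ R := by
  intro u
  refine ⟨h u, fun hu => ?_⟩
  have hinj : Function.Injective (fun x : R => (⟨g * x * g⁻¹, h x x.2⟩ : R)) := by
    intro x y hxy
    have : g * (x : G) * g⁻¹ = g * (y : G) * g⁻¹ := congrArg Subtype.val hxy
    exact Subtype.ext (mul_left_cancel (mul_right_cancel this))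
  obtain ⟨x, hx⟩ := (Finite.injective_iff_surjective.mp hinj) ⟨_, hu⟩
  have : g * (x : G) * g⁻¹ = g * u * g⁻¹ := congrArg Subtype.val hx
  have hxu : (x : G) = u := mul_left_cancel (mul_right_cancel this)
  exact hxu ▸ x.2

theorem sg_apply_fx (ρ : Representation k G W) (R : Subgroup G) (w : W) : Fx ρ R (sg ρ R w) := by
  classical
  intro r hr
  rw [sg_eq_sum, LinearMap.sum_apply, map_sum]
  refine Fintype.sum_equiv (Equiv.mulLeft (⟨r, hr⟩ : R)) _ _ (fun x => ?_)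
  simp only [Equiv.coe_mulLeft, Subgroup.coe_mul, map_mul]
  rfl

theorem sg_conj (ρ : Representation k G W) (R R' : Subgroup G) (g : G)
    (h : ∀ u, u ∈ R ↔ g * u * g⁻¹ ∈ R') : ρ g ∘ₗ sg ρ R = sg ρ R' ∘ₗ ρ g := by
  classical
  let e : R ≃ R' :=
    { toFun := fun u => ⟨g * u * g⁻¹, (h u).1 u.2⟩
      invFun := fun u => ⟨g⁻¹ * u * g, (h _).2 (by
        have : g * (g⁻¹ * (u : G) * g) * g⁻¹ = u := by group
        rw [this]; exact u.2)⟩
      left_inv := fun u => Subtype.ext (by simp only []; group)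
      right_inv := fun u => Subtype.ext (by simp only []; group) }
  rw [sg_eq_sum, sg_eq_sum, ← Module.End.mul_eq_comp, ← Module.End.mul_eq_comp, Finset.mul_sum,
    Finset.sum_mul]
  refine Fintype.sum_equiv e _ _ (fun u => ?_)
  change ρ g * ρ (u : G) = ρ (g * (u : G) * g⁻¹) * ρ g
  rw [← map_mul, ← map_mul]
  congr 1
  group

theorem sg_norm (ρ : Representation k G W) (R : Subgroup G) (g : G)
    (h : ∀ u ∈ R, g * u * g⁻¹ ∈ R) : ρ g ∘ₗ sg ρ R = sg ρ R ∘ₗ ρ g :=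
  sg_conj ρ R R g (sg_iff_of_norm R g h)

theorem sg_norm' (ρ : Representation k G W) (R : Subgroup G) (g : G)
    (h : ∀ u ∈ R, g⁻¹ * u * g ∈ R) : ρ g ∘ₗ sg ρ R = sg ρ R ∘ₗ ρ g := by
  apply sg_conj
  intro u
  have h1 := sg_iff_of_norm R g⁻¹ (fun u hu => by rw [inv_inv]; exact h u hu) (g * u * g⁻¹)
  rw [h1]
  have : g⁻¹ * (g * u * g⁻¹) * g⁻¹⁻¹ = u := by group
  rw [this]

theorem sg_comp_mem (ρ : Representation k G W) (R : Subgroup G) (g : G) (h : g ∈ R) :
    sg ρ R ∘ₗ ρ g = sg ρ R := by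
  classical
  rw [sg_eq_sum, ← Module.End.mul_eq_comp, Finset.sum_mul]
  refine Fintype.sum_equiv (Equiv.mulRight (⟨g, h⟩ : R)) _ _ (fun x => ?_)
  simp only [Equiv.coe_mulRight, Subgroup.coe_mul, map_mul]

theorem sg_U (D : SD G I F) (ρ : Representation k G W) (s : I) :
    sg ρ D.U = (∑ c : F, ρ (D.φ s (up c))) ∘ₗ sg ρ (D.Us s) := by
  classical
  let f : F × D.Us s → D.U := fun cu =>
    ⟨D.φ s (up cu.1) * cu.2, D.U.mul_mem (D.up_mem s cu.1) (D.Us_le s cu.2.2)⟩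
  have hf : Function.Bijective f := by
    constructor
    · intro a b hab
      have hab' : D.φ s (up a.1) * (a.2 : G) = D.φ s (up b.1) * (b.2 : G) :=
        congrArg Subtype.val hab
      obtain ⟨cu, _, huniq⟩ := D.U_fact s _ (f a).2
      have h1 := huniq (a.1, (a.2 : G)) ⟨a.2.2, rfl⟩
      have h2 := huniq (b.1, (b.2 : G)) ⟨b.2.2, hab'⟩
      have h3 : (a.1, (a.2 : G)) = (b.1, (b.2 : G)) := h1.trans h2.symm
      exact Prod.ext (congrArg (fun z : F × G => z.1) h3)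
        (Subtype.ext (congrArg (fun z : F × G => z.2) h3))
    · intro u
      obtain ⟨cu, ⟨h1, h2⟩, _⟩ := D.U_fact s u u.2
      exact ⟨(cu.1, ⟨cu.2, h1⟩), Subtype.ext h2.symm⟩
  rw [sg_eq_sum, sg_eq_sum, ← Module.End.mul_eq_comp, Finset.sum_mul]
  simp only [Finset.mul_sum]
  rw [← Fintype.sum_prod_type' (f := fun (c : F) (u : D.Us s) => ρ (D.φ s (up c)) * ρ (u : G))]
  symm
  refine Fintype.sum_equiv (Equiv.ofBijective f hf) _ _ (fun x => ?_)
  change ρ (D.φ s (up x.1)) * ρ (x.2 : G) = ρ (D.φ s (up x.1) * (x.2 : G))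
  rw [map_mul]

end Cfsg.Agent.Lib.Helper78.DFZ
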