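import Cfsg.Agent.Lib.Helper78.DFZ.Defs
import Cfsg.Agent.Lib.Helper78.DFZ.SG

/-! Ladder DFZ, rung SS (helper98). -/

set_option autoImplicit false

namespace Cfsg.Agent.Lib.Helper78.DFZ

variable {k G W : Type*} [Field k] [Group G] [Fintype G] [AddCommGroup W] [Module k W]
  {I F : Type*} [Field F] [Fintype F] [DecidableEq F] {p : ℕ} [Fact p.Prime] [CharP k p] [CharP F p]

theorem ss_left (ρ : Representation k G W) (R : Subgroup G) (r : G) (hr : r ∈ R) :
    ρ r * sg ρ R = sg ρ R := LinearMap.ext (fun w => sg_apply_fx ρ R w r hr)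

theorem ss_factor (ρ : Representation k G W) (R C : Subgroup G) (hCR : C ≤ R) :
    ∃ X : Module.End k W, sg ρ R = X * sg ρ C := by
  classical
  obtain ⟨S, hS, -⟩ := Subgroup.exists_isComplement_left C 1
  refine ⟨∑ s : S, if (s : G) ∈ R then ρ (s : G) else 0, ?_⟩
  rw [sg_eq_sum ρ C, Finset.sum_mul]
  simp only [Finset.mul_sum]
  rw [← Fintype.sum_prod_type'
    (f := fun (s : S) (c : C) => (if (s : G) ∈ R then ρ (s : G) else 0) * ρ (c : G))]
  unfold sg
  rw [Finset.sum_filter]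
  symm
  refine Fintype.sum_equiv (Equiv.ofBijective _ hS) _ _ (fun x => ?_)
  have hx : (x.1 : G) * (x.2 : G) ∈ R ↔ (x.1 : G) ∈ R := Subgroup.mul_mem_cancel_right R (hCR x.2.2)
  change (if (x.1 : G) ∈ R then ρ (x.1 : G) else 0) * ρ (x.2 : G)
    = if (x.1 : G) * (x.2 : G) ∈ R then ρ ((x.1 : G) * (x.2 : G)) else 0
  by_cases h : (x.1 : G) ∈ R
  · rw [if_pos h, if_pos (hx.mpr h), map_mul]
  · rw [if_neg h, if_neg (fun h' => h (hx.mp h')), zero_mul]

theorem sg_mul_sg_zero (ρ : Representation k G W) (R : Subgroup G) (hR : IsPGroup p R) (g u : G)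
    (hu : u ∈ R) (h1 : u ≠ 1) (h2 : g⁻¹ * u * g ∈ R) : sg ρ R ∘ₗ ρ g ∘ₗ sg ρ R = 0 := by
  classical
  have hp : p.Prime := Fact.out
  have hCR : Subgroup.zpowers u ≤ R := by
    rw [Subgroup.zpowers_le]; exact hu
  obtain ⟨X, hX⟩ := ss_factor ρ R (Subgroup.zpowers u) hCR
  have hconj : ∀ c ∈ Subgroup.zpowers u, g⁻¹ * c * g ∈ R := by
    rintro _ ⟨i, rfl⟩
    have : g⁻¹ * u ^ i * g = (g⁻¹ * u * g) ^ i := by
      have := conj_zpow (a := g⁻¹) (b := u) (i := i)
      rw [inv_inv] at this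
      exact this.symm
    change g⁻¹ * u ^ i * g ∈ R
    rw [this]
    exact R.zpow_mem h2 i
  have hcard : ((Nat.card (Subgroup.zpowers u) : ℕ) : k) = 0 := by
    rw [Nat.card_zpowers, CharP.cast_eq_zero_iff k p]
    obtain ⟨j, hj⟩ := hR ⟨u, hu⟩
    have hj' : u ^ (p ^ j) = 1 := congrArg Subtype.val hj
    obtain ⟨i, _, hi⟩ := (Nat.dvd_prime_pow hp).mp (orderOf_dvd_of_pow_eq_one hj')
    rw [hi]
    apply dvd_pow_self
    rintro rfl
    rw [pow_zero, orderOf_eq_one_iff] at hi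
    exact h1 hi
  have hzero : sg ρ (Subgroup.zpowers u) * (ρ g * sg ρ R) = 0 := by
    rw [sg_eq_sum ρ (Subgroup.zpowers u), Finset.sum_mul]
    have hterm : ∀ c : Subgroup.zpowers u, ρ (c : G) * (ρ g * sg ρ R) = ρ g * sg ρ R := by
      intro c
      have e1 : ρ (c : G) * ρ g = ρ g * ρ (g⁻¹ * (c : G) * g) := by
        rw [← map_mul, ← map_mul]
        congr 1
        group
      rw [← mul_assoc, e1, mul_assoc, ss_left ρ R _ (hconj c c.2)]
    rw [Finset.sum_congr rfl (fun c _ => hterm c), Finset.sum_const, Finset.card_univ,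
      ← Nat.card_eq_fintype_card, ← Nat.cast_smul_eq_nsmul k, hcard, zero_smul]
  change sg ρ R * (ρ g * sg ρ R) = 0
  calc sg ρ R * (ρ g * sg ρ R) = X * sg ρ (Subgroup.zpowers u) * (ρ g * sg ρ R) := by
        exact congrArg (· * (ρ g * sg ρ R)) hX
    _ = 0 := by rw [mul_assoc, hzero, mul_zero]

end Cfsg.Agent.Lib.Helper78.DFZ
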