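import Cfsg.Agent.Lib.Helper78.DFZ.Defs
import Cfsg.Agent.Lib.Helper78.DFZ.SG
import Cfsg.Agent.Lib.Helper78.DFZ.L1
import Cfsg.Agent.Lib.Helper78.DFZ.SS
import Cfsg.Agent.Lib.Helper63.PGroupFixed

/-! Ladder DFZ, rung A (helper98). -/

set_option autoImplicit false

namespace Cfsg.Agent.Lib.Helper78.DFZ

variable {k G W : Type*} [Field k] [Group G] [Fintype G] [AddCommGroup W] [Module k W]
  {I F : Type*} [Field F] [Fintype F] [DecidableEq F] {p : ℕ} [Fact p.Prime] [CharP k p] [CharP F p]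

theorem a_exists_fixed (R : Subgroup G) (hR : IsPGroup p R) (ρ : Representation k G W)
    [Nontrivial W] : ∃ w, w ≠ 0 ∧ Fx ρ R w := by
  obtain ⟨v, _, hv0, hv⟩ := Cfsg.Agent.Lib.Helper63.exists_fixed_vector hR
    (ρ.comp R.subtype : Representation k R W) ⊤ (fun _ _ _ => Submodule.mem_top) top_ne_bot
  exact ⟨v, hv0, fun r hr => hv ⟨r, hr⟩⟩

theorem stepA (D : SD G I F) (hU : IsPGroup p D.U) (ρ : Representation k G W) (hi : Irr ρ)
    (ht : HasTr ρ) : sg ρ D.U ∘ₗ sg ρ D.Um ≠ 0 := by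
  intro hzero
  have hzero' : sg ρ D.U * sg ρ D.Um = 0 := hzero
  obtain ⟨hnt, hirr⟩ := hi
  obtain ⟨w₀, hw₀, hfix⟩ := a_exists_fixed D.U hU ρ
  obtain ⟨w₁, hw₁⟩ := fix_eq ρ ht D.U w₀ hfix
  have hall : ∀ g, sg ρ D.U * (ρ g * sg ρ D.U) = 0 := by
    intro g
    rcases D.opp g with ⟨u, hu, hu1, hug⟩ | ⟨b, b', hb, hb', rfl⟩
    · exact sg_mul_sg_zero ρ D.U hU g u hu hu1 hug
    · have e1 : ρ b * sg ρ D.U = sg ρ D.U * ρ b := sg_norm ρ D.U b hb
      have e2 : ρ b' * sg ρ D.U = sg ρ D.U * ρ b' := sg_norm ρ D.U b' hb'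
      have e3 : ρ D.n0 * sg ρ D.U = sg ρ D.Um * ρ D.n0 := sg_conj ρ D.U D.Um D.n0 D.n0_U
      calc sg ρ D.U * (ρ (b * D.n0 * b') * sg ρ D.U)
          = sg ρ D.U * ρ b * ρ D.n0 * (ρ b' * sg ρ D.U) := by
            rw [map_mul, map_mul]; simp only [mul_assoc]
        _ = ρ b * sg ρ D.U * (ρ D.n0 * sg ρ D.U) * ρ b' := by
            rw [e2, ← e1]; simp only [mul_assoc]
        _ = ρ b * (sg ρ D.U * sg ρ D.Um) * ρ D.n0 * ρ b' := by
            rw [e3]; simp only [mul_assoc]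
        _ = 0 := by rw [hzero']; simp
  set N : Submodule k W := Submodule.span k {x | ∃ g w, x = ρ g (sg ρ D.U w)} with hN
  have hstab : ∀ g, ∀ w ∈ N, ρ g w ∈ N := by
    intro g w hw
    induction hw using Submodule.span_induction with
    | mem x hx =>
      obtain ⟨g', w', rfl⟩ := hx
      apply Submodule.subset_span
      refine ⟨g * g', w', ?_⟩
      rw [map_mul]; rfl
    | zero => rw [map_zero]; exact N.zero_mem
    | add x y _ _ hx hy => rw [map_add]; exact N.add_mem hx hy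
    | smul c x _ hx => rw [map_smul]; exact N.smul_mem c hx
  have hw₀N : w₀ ∈ N := by
    apply Submodule.subset_span
    exact ⟨1, w₁, by rw [map_one]; exact hw₁⟩
  have htop : N = ⊤ := by
    rcases hirr N hstab with h | h
    · exfalso
      rw [h, Submodule.mem_bot] at hw₀N
      exact hw₀ hw₀N
    · exact h
  have hkill : ∀ w ∈ N, sg ρ D.U w = 0 := by
    intro w hw
    induction hw using Submodule.span_induction with
    | mem x hx =>
      obtain ⟨g', w', rfl⟩ := hx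
      exact LinearMap.congr_fun (hall g') w'
    | zero => rw [map_zero]
    | add x y _ _ hx hy => rw [map_add, hx, hy, add_zero]
    | smul c x _ hx => rw [map_smul, hx, smul_zero]
  apply hw₀
  rw [hw₁]
  exact hkill w₁ (htop ▸ Submodule.mem_top)

end Cfsg.Agent.Lib.Helper78.DFZ
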