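import Cfsg.Agent.Lib.Helper78.DFZ.Defs

set_option autoImplicit false

namespace Cfsg.Agent.Lib.Helper78.DFZ

variable {k G W : Type*} [Field k] [Group G] [Fintype G] [AddCommGroup W] [Module k W]
  {I F : Type*} [Field F] [Fintype F] [DecidableEq F] {p : ℕ} [Fact p.Prime] [CharP k p] [CharP F p]

theorem eigB [IsAlgClosed k] [FiniteDimensional k W] (ρ : Representation k G W) (T : Subgroup G)
    (hc : ∀ a ∈ T, ∀ b ∈ T, a * b = b * a) (hT : ((Nat.card T : ℕ) : k) ≠ 0) (Y : Submodule k W)
    (hY : ∀ t ∈ T, ∀ y ∈ Y, ρ t y ∈ Y) :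
    Y ≤ Submodule.span k {y | y ∈ Y ∧ ∃ l : G → k, Eg ρ T l y} := by
  classical
  set S : Submodule k W := Submodule.span k {y | y ∈ Y ∧ ∃ l : G → k, Eg ρ T l y} with hS
  let f : T → Module.End k Y := fun t => (ρ (t : G)).restrict (hY t t.2)
  have hfapp : ∀ (t : T) (y : Y), ((f t y : Y) : W) = ρ (t : G) (y : W) := fun t y => rfl
  have hcomm : Pairwise fun i j : T => Commute (f i) (f j) := by
    intro i j _
    apply LinearMap.ext
    intro y
    apply Subtype.ext
    change ρ (i : G) (ρ (j : G) (y : W)) = ρ (j : G) (ρ (i : G) (y : W))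
    rw [← Module.End.mul_apply, ← Module.End.mul_apply, ← map_mul, ← map_mul, hc i i.2 j j.2]
  have hpow : ∀ (t : T) (n : ℕ) (y : Y), (((f t) ^ n) y : W) = ρ ((t : G) ^ n) (y : W) := by
    intro t n
    induction n with
    | zero => intro y; simp
    | succ n ih =>
      intro y
      rw [pow_succ, Module.End.mul_apply, ih, hfapp, pow_succ, map_mul, Module.End.mul_apply]
  have hss : ∀ t : T, (f t).IsSemisimple := by
    intro t
    apply Module.End.isSemisimple_of_squarefree_aeval_eq_zero
      (p := (Polynomial.X ^ (Nat.card T) - 1 : Polynomial k))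
    · exact ((Polynomial.X_pow_sub_one_separable_iff).2 hT).squarefree
    · simp only [map_sub, map_pow, Polynomial.aeval_X, map_one]
      rw [sub_eq_zero]
      apply LinearMap.ext
      intro y
      apply Subtype.ext
      rw [hpow]
      have : (t : G) ^ Nat.card T = 1 := by
        have := pow_card_eq_one' (x := t)
        exact_mod_cast congrArg Subtype.val this
      rw [this]; simp
  have htop := Module.End.iSup_iInf_maxGenEigenspace_eq_top_of_iSup_maxGenEigenspace_eq_top_of_commute
    f hcomm (fun i => Module.End.iSup_maxGenEigenspace_eq_top (f i))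
  have hle : (⨆ χ : T → k, ⨅ i, (f i).maxGenEigenspace (χ i)) ≤ Submodule.comap Y.subtype S := by
    apply iSup_le
    intro χ z hz
    rw [Submodule.mem_comap]
    apply Submodule.subset_span
    refine ⟨z.2, fun g => if h : g ∈ T then χ ⟨g, h⟩ else 0, ?_⟩
    intro r hr
    have h1 := (Submodule.mem_iInf _).1 hz ⟨r, hr⟩
    rw [(hss ⟨r, hr⟩).isFinitelySemisimple.maxGenEigenspace_eq_eigenspace,
      Module.End.mem_eigenspace_iff] at h1
    have h2 := congrArg Subtype.val h1
    simp only [dif_pos hr]
    exact h2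
  intro y hy
  have : (⟨y, hy⟩ : Y) ∈ Submodule.comap Y.subtype S := hle (htop ▸ Submodule.mem_top)
  exact this

end Cfsg.Agent.Lib.Helper78.DFZ
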