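import Cfsg.Agent.Lib.Helper78.DFZ.SG
import Cfsg.Agent.Lib.Helper78.DFZ.A
import Cfsg.Agent.Lib.Helper78.DFZ.EIG

/-! Ladder DFZ (helper78), rung B (helper86). -/

set_option autoImplicit false

namespace Cfsg.Agent.Lib.Helper78.DFZ

variable {k G W : Type*} [Field k] [Group G] [Fintype G] [AddCommGroup W] [Module k W]
  {I F : Type*} [Field F] [Fintype F] [DecidableEq F] {p : ℕ} [Fact p.Prime] [CharP k p] [CharP F p]

/-- the subspace of vectors fixed by `R`. -/
def B_fixSub (ρ : Representation k G W) (R : Subgroup G) : Submodule k W where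
  carrier := {w | Fx ρ R w}
  add_mem' := by
    intro a b ha hb r hr
    rw [map_add, ha r hr, hb r hr]
  zero_mem' := by
    intro r _
    rw [map_zero]
  smul_mem' := by
    intro c a ha r hr
    rw [map_smul, ha r hr]

theorem stepB [IsAlgClosed k] [FiniteDimensional k W] (D : SD G I F) (hU : IsPGroup p D.U)
    (hT : ((Nat.card D.T : ℕ) : k) ≠ 0) (ρ : Representation k G W) (hi : Irr ρ) (ht : HasTr ρ) :
    ∃ (y : W) (l : G → k), Fx ρ D.Um y ∧ Eg ρ D.T l y ∧ sg ρ D.U y ≠ 0 := by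
  by_contra hcon
  push Not at hcon
  have hA := stepA D hU ρ hi ht
  apply hA
  apply LinearMap.ext
  intro w
  rw [LinearMap.comp_apply, LinearMap.zero_apply]
  have hY : ∀ t ∈ D.T, ∀ y ∈ B_fixSub ρ D.Um, ρ t y ∈ B_fixSub ρ D.Um := by
    intro t ht' y hy u hu
    have h1 : t⁻¹ * u * t ∈ D.Um := by
      have := D.T_Um t⁻¹ (D.T.inv_mem ht') u hu
      rwa [inv_inv] at this
    have h2 : u * t = t * (t⁻¹ * u * t) := by group
    calc ρ u (ρ t y) = ρ (u * t) y := by rw [map_mul]; rfl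
      _ = ρ (t * (t⁻¹ * u * t)) y := by rw [h2]
      _ = ρ t (ρ (t⁻¹ * u * t) y) := by rw [map_mul]; rfl
      _ = ρ t y := by rw [hy _ h1]
  have hspan := eigB ρ D.T D.T_comm hT (B_fixSub ρ D.Um) hY
  have hle : Submodule.span k {y | y ∈ B_fixSub ρ D.Um ∧ ∃ l : G → k, Eg ρ D.T l y}
      ≤ LinearMap.ker (sg ρ D.U) := by
    rw [Submodule.span_le]
    rintro y ⟨hy, l, hl⟩
    exact hcon y l hy hl
  have hmem : sg ρ D.Um w ∈ B_fixSub ρ D.Um := sg_apply_fx ρ D.Um w
  exact hle (hspan hmem)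

end Cfsg.Agent.Lib.Helper78.DFZ
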