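import Cfsg.Agent.Lib.Helper78.DFZ.Defs
import Cfsg.Agent.Lib.Helper80.GABr

/-! Ladder DFZ, rung BR1 (helper98). -/

set_option autoImplicit false

namespace Cfsg.Agent.Lib.Helper78.DFZ

open Cfsg Cfsg.Agent.Lib.Helper80 Cfsg.Agent.Lib.Helper80.GA

universe u v

/-- the submodules considered: nonzero left ideals inside `kG e` -/
def br1P {k : Type u} {G : Type v} [Field k] [Group G] [Fintype G] (e : GA k G)
    (N : Submodule k (GA k G)) : Prop :=
  N ≠ ⊥ ∧ (∀ g : G, ∀ a ∈ N, of g * a ∈ N) ∧ ∀ a ∈ N, a * e = a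

theorem br1_exists_min {k : Type u} {G : Type v} [Field k] [Group G] [Fintype G] (e : GA k G)
    (hee : e * e = e) (h0 : e ≠ 0) :
    ∃ N : Submodule k (GA k G), br1P e N ∧
      ∀ N' : Submodule k (GA k G), br1P e N' → Module.finrank k N ≤ Module.finrank k N' := by
  classical
  let L : Submodule k (GA k G) :=
    { carrier := {a | a * e = a}
      add_mem' := fun {a b} ha hb => by
        change (a + b) * e = a + b
        rw [add_mul, ha, hb]
      zero_mem' := zero_mul e
      smul_mem' := fun c a ha => by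
        change (c • a) * e = c • a
        rw [smul_mul_assoc, ha] }
  have hL : br1P e L := by
    refine ⟨?_, ?_, fun a ha => ha⟩
    · intro hbot
      have : e ∈ L := hee
      rw [hbot, Submodule.mem_bot] at this
      exact h0 this
    · intro g a ha
      change of g * a * e = of g * a
      rw [mul_assoc, ha]
  have hex : ∃ n : ℕ, ∃ N : Submodule k (GA k G), br1P e N ∧ Module.finrank k N = n :=
    ⟨_, L, hL, rfl⟩
  obtain ⟨N, hN, hn⟩ := Nat.find_spec hex
  refine ⟨N, hN, fun N' hN' => ?_⟩
  rw [hn]
  exact Nat.find_min' hex ⟨N', hN', rfl⟩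

theorem br1_mul_mem {k : Type u} {G : Type v} [Field k] [Group G] [Fintype G]
    {N : Submodule k (GA k G)} (hN : ∀ g : G, ∀ a ∈ N, of g * a ∈ N) (b : GA k G) {a : GA k G}
    (ha : a ∈ N) : b * a ∈ N := by
  rw [eq_sum_of b, Finset.sum_mul]
  refine N.sum_mem (fun x _ => ?_)
  rw [smul_mul_assoc]
  exact N.smul_mem _ (hN x a ha)

theorem exists_rep {k : Type u} {G : Type v} [Field k] [Group G] [Fintype G] (e c : GA k G)
    (he : FixBy ⊤ e) (hee : e * e = e) (h0 : e ≠ 0) (htr : ∑ g : G, of g * c * of g⁻¹ = e) :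
    ∃ (W : Type (max u v)) (_ : AddCommGroup W) (_ : Module k W) (_ : FiniteDimensional k W)
      (ρ : Representation k G W), Irr ρ ∧ HasTr ρ ∧ ∀ w, ∑ g, e g • ρ g w = w := by
  classical
  obtain ⟨N, ⟨hNbot, hNst, hNe⟩, hmin⟩ := br1_exists_min e hee h0
  have hcen : ∀ a : GA k G, a * e = e * a :=
    fun a => commute_of_suppOn_fixBy (H := ⊤) (fun g hg => absurd (Subgroup.mem_top g) hg) he
  have heN : ∀ a ∈ N, e * a = a := fun a ha => by rw [← hcen, hNe a ha]
  let ρ : Representation k G N :=
    { toFun := fun g => (LinearMap.mulLeft k (of g : GA k G)).restrict (hNst g)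
      map_one' := by
        apply LinearMap.ext
        intro w
        apply Subtype.ext
        change (of 1 : GA k G) * (w : GA k G) = w
        rw [of_one, one_mul]
      map_mul' := fun g h => by
        apply LinearMap.ext
        intro w
        apply Subtype.ext
        change (of (g * h) : GA k G) * (w : GA k G) = of g * (of h * (w : GA k G))
        rw [← of_mul_of, mul_assoc] }
  have hρ : ∀ (g : G) (w : N), ((ρ g w : N) : GA k G) = of g * (w : GA k G) := fun _ _ => rfl
  refine ⟨N, inferInstance, inferInstance, inferInstance, ρ, ⟨?_, ?_⟩, ?_, ?_⟩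
  · exact Submodule.nontrivial_iff_ne_bot.mpr hNbot
  · intro N' hN'
    by_cases hb : N' = ⊥
    · exact Or.inl hb
    · right
      have hP : br1P e (N'.map N.subtype) := by
        refine ⟨?_, ?_, ?_⟩
        · intro h
          apply hb
          rw [Submodule.eq_bot_iff] at h ⊢
          intro x hx
          exact Subtype.ext (h _ ⟨x, hx, rfl⟩)
        · rintro g _ ⟨a, ha, rfl⟩
          exact ⟨ρ g a, hN' g a ha, rfl⟩
        · rintro _ ⟨a, _, rfl⟩
          exact hNe _ a.2
      have hle : N'.map N.subtype ≤ N := by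
        rintro _ ⟨a, _, rfl⟩
        exact a.2
      have heq : N'.map N.subtype = N := Submodule.eq_of_le_of_finrank_le hle (hmin _ hP)
      rw [eq_top_iff]
      intro x _
      have hx : (x : GA k G) ∈ N'.map N.subtype := by rw [heq]; exact x.2
      obtain ⟨y, hy, hyx⟩ := hx
      have : y = x := Subtype.ext hyx
      exact this ▸ hy
  · refine ⟨(LinearMap.mulLeft k c).restrict (fun a ha => br1_mul_mem hNst c ha), ?_⟩
    apply LinearMap.ext
    intro w
    apply Subtype.ext
    rw [LinearMap.sum_apply, LinearMap.id_apply, Submodule.coe_sum]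
    have : ∀ g : G, (((ρ g ∘ₗ (LinearMap.mulLeft k c).restrict
        (fun a ha => br1_mul_mem hNst c ha) ∘ₗ ρ g⁻¹) w : N) : GA k G)
        = (of g * c * of g⁻¹) * (w : GA k G) := by
      intro g
      change of g * (c * (of g⁻¹ * (w : GA k G))) = _
      simp only [mul_assoc]
    rw [Finset.sum_congr rfl (fun g _ => this g), ← Finset.sum_mul, htr, heN _ w.2]
  · intro w
    apply Subtype.ext
    rw [Submodule.coe_sum]
    have : ∀ g : G, ((e g • ρ g w : N) : GA k G) = (e g • (of g : GA k G)) * (w : GA k G) := by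
      intro g
      rw [smul_mul_assoc]
      rfl
    rw [Finset.sum_congr rfl (fun g _ => this g), ← Finset.sum_mul, ← eq_sum_of, heN _ w.2]

end Cfsg.Agent.Lib.Helper78.DFZ
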