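import Cfsg.Agent.Lib.Helper78.DFZ.SG
import Cfsg.Agent.Lib.Helper78.DFZ.L1

/-! Ladder DFZ (helper78), rung E (helper86). -/

set_option autoImplicit false

namespace Cfsg.Agent.Lib.Helper78.DFZ

variable {k G W : Type*} [Field k] [Group G] [Fintype G] [AddCommGroup W] [Module k W]
  {I F : Type*} [Field F] [Fintype F] [DecidableEq F] {p : ℕ} [Fact p.Prime] [CharP k p] [CharP F p]

theorem stepE (D : SD G I F) (ρ : Representation k G W) (ht : HasTr ρ) (v : W)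
    (htop : Submodule.span k {w | ∃ u ∈ D.Um, w = ρ u v} = ⊤) :
    (∀ w, Fx ρ D.Um w → ∃ β : k, w = β • sg ρ D.Um v) ∧
    (∀ w, Fx ρ D.U w → ∃ β : k, w = β • ρ D.n0 (sg ρ D.Um v)) := by
  have h1 : ∀ w, Fx ρ D.Um w → ∃ β : k, w = β • sg ρ D.Um v := by
    intro w hw
    obtain ⟨w', rfl⟩ := fix_eq ρ ht D.Um w hw
    have hw' : w' ∈ Submodule.span k {w | ∃ u ∈ D.Um, w = ρ u v} := by
      rw [htop]
      exact Submodule.mem_top
    induction hw' using Submodule.span_induction with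
    | mem x hx =>
      obtain ⟨u, hu, rfl⟩ := hx
      refine ⟨1, ?_⟩
      rw [one_smul, ← LinearMap.comp_apply, sg_comp_mem ρ D.Um u hu]
    | zero => exact ⟨0, by rw [map_zero, zero_smul]⟩
    | add x y _ _ hx hy =>
      obtain ⟨a, ha⟩ := hx (sg_apply_fx ρ D.Um x)
      obtain ⟨b, hb⟩ := hy (sg_apply_fx ρ D.Um y)
      exact ⟨a + b, by rw [map_add, ha, hb, add_smul]⟩
    | smul c x _ hx =>
      obtain ⟨a, ha⟩ := hx (sg_apply_fx ρ D.Um x)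
      exact ⟨c * a, by rw [map_smul, ha, smul_smul]⟩
  refine ⟨h1, ?_⟩
  intro w hw
  have hfix : Fx ρ D.Um (ρ D.n0⁻¹ w) := by
    intro u hu
    have h2 : D.n0 * u * D.n0⁻¹ ∈ D.U := (D.n0_Um u).1 hu
    have h3 : u * D.n0⁻¹ = D.n0⁻¹ * (D.n0 * u * D.n0⁻¹) := by group
    calc ρ u (ρ D.n0⁻¹ w) = ρ (u * D.n0⁻¹) w := by rw [map_mul]; rfl
      _ = ρ (D.n0⁻¹ * (D.n0 * u * D.n0⁻¹)) w := by rw [h3]
      _ = ρ D.n0⁻¹ (ρ (D.n0 * u * D.n0⁻¹) w) := by rw [map_mul]; rfl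
      _ = ρ D.n0⁻¹ w := by rw [hw _ h2]
  obtain ⟨β, hβ⟩ := h1 _ hfix
  refine ⟨β, ?_⟩
  rw [← map_smul, ← hβ]
  calc w = ρ (D.n0 * D.n0⁻¹) w := by rw [mul_inv_cancel, map_one]; rfl
    _ = ρ D.n0 (ρ D.n0⁻¹ w) := by rw [map_mul]; rfl

end Cfsg.Agent.Lib.Helper78.DFZ
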