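import Cfsg.Agent.Lib.Helper78.DFZ.SG

/-!
# Ladder DFZ, rung C: the rank one computation.
-/

set_option autoImplicit false

namespace Cfsg.Agent.Lib.Helper78.DFZ

variable {k G W : Type*} [Field k] [Group G] [Fintype G] [AddCommGroup W] [Module k W]
  {I F : Type*} [Field F] [Fintype F] [DecidableEq F] {p : ℕ} [Fact p.Prime] [CharP k p] [CharP F p]

section sl2
omit [Fintype F] [DecidableEq F]

theorem C_R1 (c : Fˣ) : up (c : F) = lo ((c⁻¹ : Fˣ) : F) * dg c * wn * lo ((c⁻¹ : Fˣ) : F) := by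
  apply Subtype.ext
  change (!![1, (c : F); 0, 1] : Matrix (Fin 2) (Fin 2) F) =
    !![1, 0; ((c⁻¹ : Fˣ) : F), 1] * !![(c : F), 0; 0, ((c⁻¹ : Fˣ) : F)] * !![0, 1; -1, 0]
      * !![1, 0; ((c⁻¹ : Fˣ) : F), 1]
  simp

theorem C_R2 (a : F) : wn * lo a = up (-a) * wn := by
  apply Subtype.ext
  change (!![0, 1; -1, 0] : Matrix (Fin 2) (Fin 2) F) * !![1, 0; a, 1]
    = !![1, -a; 0, 1] * !![0, 1; -1, 0]
  simp

theorem C_R3 : (wn : SL2 F) * wn = dg (-1) := by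
  apply Subtype.ext
  change (!![0, 1; -1, 0] : Matrix (Fin 2) (Fin 2) F) * !![0, 1; -1, 0]
    = !![((-1 : Fˣ) : F), 0; 0, (((-1 : Fˣ)⁻¹ : Fˣ) : F)]
  simp

theorem C_R4 (c : Fˣ) : dg c * wn = wn * dg c⁻¹ := by
  apply Subtype.ext
  change (!![(c : F), 0; 0, ((c⁻¹ : Fˣ) : F)] : Matrix (Fin 2) (Fin 2) F) * !![0, 1; -1, 0]
    = !![0, 1; -1, 0] * !![((c⁻¹ : Fˣ) : F), 0; 0, (((c⁻¹)⁻¹ : Fˣ) : F)]
  simp

theorem C_up_add (a b : F) : up (a + b) = up a * up b := by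
  apply Subtype.ext
  change (!![1, a + b; 0, 1] : Matrix (Fin 2) (Fin 2) F) = !![1, a; 0, 1] * !![1, b; 0, 1]
  simp [add_comm]

theorem C_up_zero : up (0 : F) = 1 := by
  apply Subtype.ext
  change (!![1, 0; 0, 1] : Matrix (Fin 2) (Fin 2) F) = 1
  exact Matrix.one_fin_two.symm

end sl2

theorem C_sum_units {M : Type*} [AddCommMonoid M] (f : F → M) :
    ∑ c : F, f c = f 0 + ∑ c : Fˣ, f (c : F) := by
  rw [Fintype.sum_eq_add_sum_subtype_ne f 0]
  congr 1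
  exact (Fintype.sum_equiv unitsEquivNeZero _ _ (fun c => rfl)).symm

omit [DecidableEq F] [Fact p.Prime] in
theorem C_card_zero (k : Type*) [Field k] [CharP k p] : ((Fintype.card F : ℕ) : k) = 0 := by
  obtain ⟨n, _, hn⟩ := FiniteField.card F p
  rw [CharP.cast_eq_zero_iff k p, hn]
  exact dvd_pow_self p n.ne_zero

theorem stepC (D : SD G I F) (ρ : Representation k G W) (y : W) (l : G → k)
    (hy : Fx ρ D.Um y) (hl : Eg ρ D.T l y) (s : I) (hF : ((Fintype.card F : ℕ) : k) = 0) :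
    Fx ρ D.U (ρ (D.φ s wn) (sg ρ (D.Us s) y)) ∧
    Ts D ρ s (ρ (D.φ s wn) (sg ρ (D.Us s) y)) = l (D.φ s (dg (-1))) • sg ρ D.U y ∧
    Ts D ρ s (sg ρ D.U y) =
      ((∑ c : Fˣ, l (D.φ s (dg c))) * l (D.φ s (dg (-1)))) • sg ρ D.U y ∧
    (sg ρ D.U y ≠ 0 → ρ (D.φ s wn) (sg ρ (D.Us s) y) ≠ 0) := by
  classical
  set x : F → G := fun c => D.φ s (up c) with hx
  set xm : F → G := fun c => D.φ s (lo c) with hxm
  set h : Fˣ → G := fun c => D.φ s (dg c) with hh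
  set n : G := D.φ s wn with hn
  set v2 : W := sg ρ (D.Us s) y with hv2
  set z : W := ρ n v2 with hz
  have mulv : ∀ (a b : G) (w : W), ρ (a * b) w = ρ a (ρ b w) := fun a b w => by
    rw [map_mul]; rfl
  have R1 : ∀ c : Fˣ, x c = xm ((c⁻¹ : Fˣ) : F) * h c * n * xm ((c⁻¹ : Fˣ) : F) := fun c => by
    simp only [hx, hxm, hh, hn, ← map_mul]; rw [← C_R1]
  have R2 : ∀ a : F, n * xm a = x (-a) * n := fun a => by
    simp only [hx, hxm, hn, ← map_mul]; rw [C_R2]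
  have R3 : n * n = h (-1) := by
    simp only [hh, hn, ← map_mul]; rw [C_R3]
  have R4 : ∀ c : Fˣ, h c * n = n * h c⁻¹ := fun c => by
    simp only [hh, hn, ← map_mul]; rw [C_R4]
  have xadd : ∀ a b : F, x (a + b) = x a * x b := fun a b => by
    simp only [hx, ← map_mul]; rw [C_up_add]
  have x0 : x 0 = 1 := by
    simp only [hx]; rw [C_up_zero, map_one]
  have v2lo : ∀ a, ρ (xm a) v2 = v2 := by
    intro a
    have h1 := LinearMap.congr_fun (sg_norm ρ (D.Us s) (xm a) (D.lo_Us s a)) y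
    simp only [LinearMap.comp_apply] at h1
    rw [hv2, h1, hy _ (D.lo_mem s a)]
  have v2T : ∀ t ∈ D.T, ρ t v2 = l t • v2 := by
    intro t ht
    have h1 := LinearMap.congr_fun (sg_norm ρ (D.Us s) t (D.T_Us s t ht)) y
    simp only [LinearMap.comp_apply] at h1
    rw [hv2, h1, hl t ht, map_smul]
  have v2Us : Fx ρ (D.Us s) v2 := sg_apply_fx ρ _ y
  have hv1 : sg ρ D.U y = ∑ c : F, ρ (x c) v2 := by
    rw [sg_U D ρ s, LinearMap.comp_apply, LinearMap.sum_apply]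
  have zx : ∀ a, ρ (x a) z = z := by
    intro a
    have h1 : x a * n = n * xm (-a) := by rw [R2, neg_neg]
    rw [hz, ← mulv, h1, mulv, v2lo]
  have zUs : ∀ u ∈ D.Us s, ρ u z = z := by
    intro u hu
    have h1 : u * n = n * (n⁻¹ * u * n) := by group
    rw [hz, ← mulv, h1, mulv, v2Us _ (D.wn_Us s u hu)]
  have zU : Fx ρ D.U z := by
    intro u hu
    obtain ⟨⟨c, u'⟩, ⟨hu', hu2⟩, _⟩ := D.U_fact s u hu
    simp only at hu' hu2
    rw [hu2, mulv, zUs _ hu']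
    exact zx c
  have zh : ∀ c : Fˣ, ρ (h c) z = l (h c⁻¹) • z := by
    intro c
    rw [hz, ← mulv, R4, mulv, v2T _ (D.dg_mem s _), map_smul]
  have xv2 : ∀ c : Fˣ, ρ (x c) v2 = l (h c⁻¹) • ρ (xm ((c⁻¹ : Fˣ) : F)) z := by
    intro c
    rw [R1, mulv, v2lo, mulv, ← hz, mulv, zh, map_smul]
  have Tsz : Ts D ρ s z = l (h (-1)) • sg ρ D.U y := by
    change (∑ c : F, ρ (x c)) (ρ n z) = _
    rw [hz, ← mulv, R3, v2T _ (D.dg_mem s _), map_smul, LinearMap.sum_apply, ← hv1]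
  have key : ∀ c : Fˣ, Ts D ρ s (ρ (xm ((c⁻¹ : Fˣ) : F)) z) = Ts D ρ s z := by
    intro c
    change (∑ a : F, ρ (x a)) (ρ n (ρ (xm ((c⁻¹ : Fˣ) : F)) z)) = (∑ a : F, ρ (x a)) (ρ n z)
    rw [← mulv, R2, mulv, LinearMap.sum_apply, LinearMap.sum_apply]
    simp only [← mulv (x _) (x _), ← xadd]
    exact Fintype.sum_equiv (Equiv.addRight (-((c⁻¹ : Fˣ) : F))) _ _ (fun a => rfl)
  have Tsv2 : Ts D ρ s v2 = 0 := by
    change (∑ a : F, ρ (x a)) (ρ n v2) = 0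
    rw [← hz, LinearMap.sum_apply]
    simp only [zx]
    rw [Finset.sum_const, Finset.card_univ, ← Nat.cast_smul_eq_nsmul k, hF,
      zero_smul]
  refine ⟨zU, Tsz, ?_, ?_⟩
  · rw [mul_smul, ← Tsz]
    conv_lhs => rw [hv1, C_sum_units, x0, map_one]
    rw [map_add, map_sum]
    have h1 : Ts D ρ s ((1 : Module.End k W) v2) = 0 := Tsv2
    rw [h1, zero_add, Finset.sum_smul]
    simp only [xv2, map_smul, key]
    exact Fintype.sum_equiv (Equiv.inv Fˣ) _ _ (fun c => rfl)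
  · intro hne hz0
    apply hne
    have h1 : v2 = 0 := by
      have h2 : ρ n⁻¹ (ρ n v2) = v2 := by rw [← mulv, inv_mul_cancel, map_one]; rfl
      rw [← h2, ← hz, hz0, map_zero]
    rw [hv1, h1]
    simp

end Cfsg.Agent.Lib.Helper78.DFZ
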