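import Cfsg.Agent.Lib.Helper78.DFZ.Defs

/-! Ladder DFZ (helper78), rung CH (helper86).
NOTE: the statement needs `char k = char F = p`, so `p` and the `CharP` instances are explicit binders here. -/

set_option autoImplicit false

namespace Cfsg.Agent.Lib.Helper78.DFZ

theorem char_sum {k F : Type*} [Field k] [Field F] [Fintype F] [DecidableEq F] (p : ℕ)
    [Fact p.Prime] [CharP k p] [CharP F p] (m : Fˣ →* k) :
    (∑ c : Fˣ, m c ≠ 0 → ∀ c, m c = 1) ∧ ((∀ c, m c = 1) → ∑ c : Fˣ, m c = -1) := by
  constructor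
  · intro h c
    by_contra hc
    apply h
    apply sum_hom_units_eq_zero m
    intro h1
    apply hc
    rw [h1]
    rfl
  · intro h
    simp only [h, Finset.sum_const, Finset.card_univ, Fintype.card_units, nsmul_eq_mul, mul_one]
    have hpos : 1 ≤ Fintype.card F := Fintype.card_pos
    rw [Nat.cast_sub hpos, Nat.cast_one]
    obtain ⟨n, -, hn⟩ := FiniteField.card F p
    have h0 : ((Fintype.card F : ℕ) : k) = 0 := by
      rw [CharP.cast_eq_zero_iff k p, hn]
      exact dvd_pow_self p n.pos.ne'
    rw [h0, zero_sub]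

end Cfsg.Agent.Lib.Helper78.DFZ
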