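import Cfsg.Agent.Lib.Helper78.DFZ.C

/-!
# Ladder DFZ, rung D: the span of `U⁻ v` is `G`-stable.
-/

set_option autoImplicit false

namespace Cfsg.Agent.Lib.Helper78.DFZ

variable {k G W : Type*} [Field k] [Group G] [Fintype G] [AddCommGroup W] [Module k W]
  {I F : Type*} [Field F] [Fintype F] [DecidableEq F] {p : ℕ} [Fact p.Prime] [CharP k p] [CharP F p]

section sl2
omit [Fintype F] [DecidableEq F]

theorem D_lo_add (a b : F) : lo (a + b) = lo a * lo b := by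
  apply Subtype.ext
  change (!![1, 0; a + b, 1] : Matrix (Fin 2) (Fin 2) F) = !![1, 0; a, 1] * !![1, 0; b, 1]
  simp

theorem D_lo_zero : lo (0 : F) = 1 := by
  apply Subtype.ext
  change (!![1, 0; 0, 1] : Matrix (Fin 2) (Fin 2) F) = 1
  exact Matrix.one_fin_two.symm

end sl2

omit [Fintype G] in
theorem D_span_map {S : Set W} {N : Submodule k W} (f : W →ₗ[k] W) (h : ∀ w ∈ S, f w ∈ N) :
    ∀ w ∈ Submodule.span k S, f w ∈ N := by
  intro w hw
  have h1 : Submodule.span k S ≤ N.comap f := Submodule.span_le.mpr (fun w hw => h w hw)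
  exact h1 hw

theorem D_rank1 (D : SD G I F) (ρ : Representation k G W) (v : W) (l : G → k)
    (hv : Fx ρ D.U v) (hl : Eg ρ D.T l v) (s : I) (κ : k) (hκ : Ts D ρ s v = κ • v) (a : F) :
    ∀ w ∈ Submodule.span k {w | ∃ c : F, w = ρ (D.φ s (lo c)) v},
      ρ (D.φ s (up a)) w ∈ Submodule.span k {w | ∃ c : F, w = ρ (D.φ s (lo c)) v} := by
  classical
  set x : F → G := fun c => D.φ s (up c) with hx
  set xm : F → G := fun c => D.φ s (lo c) with hxm
  set h : Fˣ → G := fun c => D.φ s (dg c) with hh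
  set n : G := D.φ s wn with hn
  set Ms : Submodule k W := Submodule.span k {w | ∃ c : F, w = ρ (xm c) v} with hMs
  have mulv : ∀ (a b : G) (w : W), ρ (a * b) w = ρ a (ρ b w) := fun a b w => by
    rw [map_mul]; rfl
  have R1 : ∀ c : Fˣ, x c = xm ((c⁻¹ : Fˣ) : F) * h c * n * xm ((c⁻¹ : Fˣ) : F) := fun c => by
    simp only [hx, hxm, hh, hn, ← map_mul]; rw [← C_R1]
  have R2 : ∀ a : F, n * xm a = x (-a) * n := fun a => by
    simp only [hx, hxm, hn, ← map_mul]; rw [C_R2]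
  have R3 : n * n = h (-1) := by
    simp only [hh, hn, ← map_mul]; rw [C_R3]
  have x0 : x 0 = 1 := by
    simp only [hx]; rw [C_up_zero, map_one]
  have xm0 : xm 0 = 1 := by
    simp only [hxm]; rw [D_lo_zero, map_one]
  have xmadd : ∀ a b : F, xm (a + b) = xm a * xm b := fun a b => by
    simp only [hxm, ← map_mul]; rw [D_lo_add]
  have vx : ∀ c, ρ (x c) v = v := fun c => hv _ (D.up_mem s c)
  have vh : ∀ c, ρ (h c) v = l (h c) • v := fun c => hl _ (D.dg_mem s c)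
  have form : ∀ c : Fˣ, ρ (x c) (ρ n v) = (l (h (-1)) * l (h c)) • ρ (xm ((c⁻¹ : Fˣ) : F)) v := by
    intro c
    have e : x c * n = xm ((c⁻¹ : Fˣ) : F) * (h c * (x (-((c⁻¹ : Fˣ) : F)) * h (-1))) := by
      rw [R1, ← R3]
      calc xm ((c⁻¹ : Fˣ) : F) * h c * n * xm ((c⁻¹ : Fˣ) : F) * n
          = xm ((c⁻¹ : Fˣ) : F) * h c * (n * xm ((c⁻¹ : Fˣ) : F)) * n := by group
        _ = xm ((c⁻¹ : Fˣ) : F) * h c * (x (-((c⁻¹ : Fˣ) : F)) * n) * n := by rw [R2]
        _ = _ := by group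
    rw [← mulv, e, mulv, mulv, mulv, vh, map_smul, vx, map_smul, vh, map_smul, map_smul, smul_smul]
  have memv : ∀ c, ρ (xm c) v ∈ Ms := fun c => Submodule.subset_span ⟨c, rfl⟩
  have vmem : v ∈ Ms := by
    have h1 := memv 0
    rw [xm0, map_one] at h1
    exact h1
  have nv : ρ n v ∈ Ms := by
    have h1 : (∑ c : F, ρ (x c)) (ρ n v) = κ • v := hκ
    rw [LinearMap.sum_apply, C_sum_units, x0, map_one] at h1
    have h2 : ρ n v = κ • v - ∑ c : Fˣ, ρ (x (c : F)) (ρ n v) := by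
      rw [← h1]
      change ρ n v = ρ n v + _ - _
      abel
    rw [h2]
    refine Ms.sub_mem (Ms.smul_mem _ vmem) (Ms.sum_mem ?_)
    intro c _
    rw [form]
    exact Ms.smul_mem _ (memv _)
  have nM : ∀ w ∈ Ms, ρ n w ∈ Ms := by
    apply D_span_map
    rintro _ ⟨b, rfl⟩
    by_cases hb : b = 0
    · rw [hb, xm0, map_one]; exact nv
    · rw [← mulv, R2, mulv]
      have h1 := form (Units.mk0 (-b) (neg_ne_zero.mpr hb))
      rw [Units.val_mk0] at h1
      rw [h1]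
      exact Ms.smul_mem _ (memv _)
  have tM : ∀ t ∈ D.T, ∀ w ∈ Ms, ρ t w ∈ Ms := by
    intro t ht
    apply D_span_map
    rintro _ ⟨c, rfl⟩
    obtain ⟨c', hc'⟩ := D.T_lo s t ht c
    have e : t * xm c = xm c' * t := by
      have : t * xm c * t⁻¹ = xm c' := hc'
      rw [← this]; group
    rw [← mulv, e, mulv, hl t ht, map_smul]
    exact Ms.smul_mem _ (memv _)
  have ninvM : ∀ w ∈ Ms, ρ n⁻¹ w ∈ Ms := by
    intro w hw
    have e : n⁻¹ = (h (-1))⁻¹ * n := by rw [← R3]; group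
    rw [e, mulv]
    exact tM _ (D.T.inv_mem (D.dg_mem s _)) _ (nM w hw)
  have xmM : ∀ b, ∀ w ∈ Ms, ρ (xm b) w ∈ Ms := by
    intro b
    apply D_span_map
    rintro _ ⟨c, rfl⟩
    rw [← mulv, ← xmadd]
    exact memv _
  intro w hw
  have e : x a = n * (xm (-a) * n⁻¹) := by
    have h1 := R2 (-a)
    rw [neg_neg] at h1
    rw [← mul_assoc, h1]; group
  change ρ (x a) w ∈ Ms
  rw [e, mulv, mulv]
  exact nM _ (xmM _ _ (ninvM w hw))

theorem stepD (D : SD G I F) (ρ : Representation k G W) (v : W) (l : G → k)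
    (hv : Fx ρ D.U v) (hl : Eg ρ D.T l v) (hk : ∀ s, ∃ κ : k, Ts D ρ s v = κ • v) :
    ∀ g, ∀ w ∈ Submodule.span k {w | ∃ u ∈ D.Um, w = ρ u v},
      ρ g w ∈ Submodule.span k {w | ∃ u ∈ D.Um, w = ρ u v} := by
  classical
  set M : Submodule k W := Submodule.span k {w | ∃ u ∈ D.Um, w = ρ u v} with hM
  have mulv : ∀ (a b : G) (w : W), ρ (a * b) w = ρ a (ρ b w) := fun a b w => by
    rw [map_mul]; rfl
  have umM : ∀ u ∈ D.Um, ∀ w ∈ M, ρ u w ∈ M := by
    intro u hu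
    apply D_span_map
    rintro _ ⟨u', hu', rfl⟩
    rw [← mulv]
    exact Submodule.subset_span ⟨u * u', D.Um.mul_mem hu hu', rfl⟩
  have MsM : ∀ s, Submodule.span k {w | ∃ c : F, w = ρ (D.φ s (lo c)) v} ≤ M := by
    intro s
    apply Submodule.span_mono
    rintro _ ⟨c, rfl⟩
    exact ⟨_, D.lo_mem s c, rfl⟩
  have xM : ∀ s a, ∀ w ∈ M, ρ (D.φ s (up a)) w ∈ M := by
    intro s a
    apply D_span_map
    rintro _ ⟨u, hu, rfl⟩
    obtain ⟨c, u', hu', rfl⟩ := D.Um_fact s u hu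
    obtain ⟨κ, hκ⟩ := hk s
    have e : D.φ s (up a) * (u' * D.φ s (lo c))
        = (D.φ s (up a) * u' * (D.φ s (up a))⁻¹) * (D.φ s (up a) * D.φ s (lo c)) := by group
    rw [← mulv, e, mulv _ (D.φ s (up a) * D.φ s (lo c)), mulv (D.φ s (up a)) (D.φ s (lo c))]
    apply umM _ (D.Ums_le s (D.up_Ums s a u' hu'))
    apply MsM s
    exact D_rank1 D ρ v l hv hl s κ hκ a _ (Submodule.subset_span ⟨c, rfl⟩)
  have key : ∀ g : G, (∀ w ∈ M, ρ g w ∈ M) ∧ (∀ w ∈ M, ρ g⁻¹ w ∈ M) := by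
    intro g
    have hg : g ∈ Subgroup.closure ((D.Um : Set G) ∪ {g | ∃ s c, g = D.φ s (up c)}) := by
      rw [D.gen]; exact Subgroup.mem_top g
    induction hg using Subgroup.closure_induction with
    | mem g hg =>
      rcases hg with hg | ⟨s, c, rfl⟩
      · exact ⟨umM g hg, umM _ (D.Um.inv_mem hg)⟩
      · refine ⟨xM s c, ?_⟩
        have e : (D.φ s (up c))⁻¹ = D.φ s (up (-c)) := by
          rw [inv_eq_iff_mul_eq_one, ← map_mul, ← C_up_add, add_neg_cancel, C_up_zero, map_one]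
        rw [e]
        exact xM s (-c)
    | one =>
      simp only [inv_one, map_one]
      exact ⟨fun w hw => hw, fun w hw => hw⟩
    | mul a b _ _ iha ihb =>
      refine ⟨fun w hw => ?_, fun w hw => ?_⟩
      · rw [mulv]; exact iha.1 _ (ihb.1 w hw)
      · rw [mul_inv_rev, mulv]; exact ihb.2 _ (iha.2 w hw)
    | inv a _ iha =>
      refine ⟨iha.2, ?_⟩
      rw [inv_inv]; exact iha.1
  exact fun g => (key g).1

end Cfsg.Agent.Lib.Helper78.DFZ
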