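import Cfsg.Agent.Lib.Helper78.DFZ.B
import Cfsg.Agent.Lib.Helper78.DFZ.D
import Cfsg.Agent.Lib.Helper78.DFZ.C
import Cfsg.Agent.Lib.Helper78.DFZ.E
import Cfsg.Agent.Lib.Helper78.DFZ.CH

/-! Ladder DFZ (helper78), rung F (helper86). -/

set_option autoImplicit false
set_option linter.unusedSectionVars false

namespace Cfsg.Agent.Lib.Helper78.DFZ

variable {k G W : Type*} [Field k] [Group G] [Fintype G] [AddCommGroup W] [Module k W]
  {I F : Type*} [Field F] [Fintype F] [DecidableEq F] {p : ℕ} [Fact p.Prime] [CharP k p] [CharP F p]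

theorem F_dg_mul {F : Type*} [Field F] (c c' : Fˣ) : (dg (c * c') : SL2 F) = dg c * dg c' := by
  apply Subtype.ext
  change (!![((c * c' : Fˣ) : F), 0; 0, (((c * c')⁻¹ : Fˣ) : F)] : Matrix (Fin 2) (Fin 2) F) =
    !![(c : F), 0; 0, ((c⁻¹ : Fˣ) : F)] * !![(c' : F), 0; 0, ((c'⁻¹ : Fˣ) : F)]
  simp [mul_comm]

theorem F_dg_one {F : Type*} [Field F] : (dg (1 : Fˣ) : SL2 F) = 1 := by
  apply Subtype.ext
  ext i j
  fin_cases i <;> fin_cases j <;> simp [dg]

theorem F_mulv (ρ : Representation k G W) (a b : G) (w : W) : ρ (a * b) w = ρ a (ρ b w) := by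
  rw [map_mul]
  rfl

theorem F_ne_zero (ρ : Representation k G W) (g : G) {w : W} (hw : w ≠ 0) : ρ g w ≠ 0 := by
  intro h
  apply hw
  have : ρ (g⁻¹ * g) w = 0 := by rw [F_mulv, h, map_zero]
  rwa [inv_mul_cancel, map_one] at this

theorem stepF [IsAlgClosed k] [FiniteDimensional k W] (D : SD G I F) (hU : IsPGroup p D.U)
    (hT : ((Nat.card D.T : ℕ) : k) ≠ 0) (ρ : Representation k G W) (hi : Irr ρ) (ht : HasTr ρ) :
    ∃ v, v ≠ 0 ∧ Fx ρ D.U v ∧ Fx ρ D.T v ∧ ∀ s, Ts D ρ s v = -v := by
  obtain ⟨y, l, hy, hl, hv0⟩ := stepB D hU hT ρ hi ht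
  have hy0 : y ≠ 0 := by
    rintro rfl
    exact hv0 (map_zero _)
  set v := sg ρ D.U y with hvdef
  have hvU : Fx ρ D.U v := sg_apply_fx ρ D.U y
  have hvT : Eg ρ D.T l v := by
    intro t ht'
    have h1 := sg_norm ρ D.U t (D.T_U t ht')
    have h2 := congrArg (fun f : W →ₗ[k] W => f y) h1
    simp only [LinearMap.comp_apply] at h2
    rw [hvdef, h2, hl t ht', map_smul]
  have hlne : ∀ t ∈ D.T, l t ≠ 0 := by
    intro t ht' h0
    have := hl t ht'
    rw [h0, zero_smul] at this
    exact F_ne_zero ρ t hy0 this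
  have hF : ((Fintype.card F : ℕ) : k) = 0 := C_card_zero (p := p) k
  have hk : ∀ s, ∃ κ : k, Ts D ρ s v = κ • v := fun s => ⟨_, (stepC D ρ y l hy hl s hF).2.2.1⟩
  have hstab := stepD D ρ v l hvU hvT hk
  have hvM : v ∈ Submodule.span k {w | ∃ u ∈ D.Um, w = ρ u v} :=
    Submodule.subset_span ⟨1, D.Um.one_mem, by rw [map_one]; rfl⟩
  have htop : Submodule.span k {w | ∃ u ∈ D.Um, w = ρ u v} = ⊤ := by
    rcases hi.2 _ hstab with h | h
    · rw [h, Submodule.mem_bot] at hvM
      exact absurd hvM hv0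
    · exact h
  obtain ⟨-, hline⟩ := stepE D ρ ht v htop
  obtain ⟨βv, hβv⟩ := hline v hvU
  have hβv0 : βv ≠ 0 := by
    rintro rfl
    rw [zero_smul] at hβv
    exact hv0 hβv
  have hone : ∀ s, ∀ c : Fˣ, l (D.φ s (dg c)) = 1 := by
    intro s
    obtain ⟨c1, c2, c3, c4⟩ := stepC D ρ y l hy hl s hF
    obtain ⟨βz, hβz⟩ := hline _ c1
    have hz : ρ (D.φ s wn) (sg ρ (D.Us s) y) = (βz * βv⁻¹) • v := by
      rw [hβz]
      conv_rhs => rw [hβv]
      rw [smul_smul, mul_assoc, inv_mul_cancel₀ hβv0, mul_one]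
    rw [hz, map_smul, c3, smul_smul] at c2
    have h3 : βz * βv⁻¹ * ((∑ c : Fˣ, l (D.φ s (dg c))) * l (D.φ s (dg (-1))))
        = l (D.φ s (dg (-1))) := by
      have := sub_eq_zero.2 c2
      rw [← sub_smul] at this
      rcases smul_eq_zero.1 this with h | h
      · exact sub_eq_zero.1 h
      · exact absurd h hv0
    have hsum : ∑ c : Fˣ, l (D.φ s (dg c)) ≠ 0 := by
      intro h0
      rw [h0, zero_mul, mul_zero] at h3
      exact hlne _ (D.dg_mem s (-1)) h3.symm
    let m : Fˣ →* k :=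
      { toFun := fun c => l (D.φ s (dg c))
        map_one' := by
          have h4 := hl _ (D.dg_mem s 1)
          rw [F_dg_one, map_one, map_one] at h4
          have h5 : (1 - l 1) • y = 0 := by
            rw [sub_smul, one_smul, ← h4]
            simp
          rw [F_dg_one, map_one]
          rcases smul_eq_zero.1 h5 with h | h
          · exact (sub_eq_zero.1 h).symm
          · exact absurd h hy0
        map_mul' := by
          intro a b
          have h4 := hl _ (D.dg_mem s (a * b))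
          rw [F_dg_mul, map_mul, F_mulv, hl _ (D.dg_mem s b), map_smul, hl _ (D.dg_mem s a),
            smul_smul] at h4
          have h5 : (l (D.φ s (dg b)) * l (D.φ s (dg a)) - l (D.φ s (dg a) * D.φ s (dg b))) • y
              = 0 := by
            rw [sub_smul, h4, sub_self]
          rw [F_dg_mul, map_mul]
          rcases smul_eq_zero.1 h5 with h | h
          · rw [← sub_eq_zero.1 h, mul_comm]
          · exact absurd h hy0 }
    exact (char_sum p m).1 hsum
  refine ⟨v, hv0, hvU, ?_, ?_⟩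
  · -- fixed by T
    let S : Subgroup G :=
      { carrier := {g | ρ g v = v}
        mul_mem' := by
          intro a b ha hb
          change ρ (a * b) v = v
          rw [F_mulv, hb, ha]
        one_mem' := by
          change ρ 1 v = v
          rw [map_one]
          rfl
        inv_mem' := by
          intro a ha
          change ρ a⁻¹ v = v
          have ha' : ρ a v = v := ha
          calc ρ a⁻¹ v = ρ a⁻¹ (ρ a v) := by rw [ha']
            _ = ρ (a⁻¹ * a) v := by rw [F_mulv]
            _ = v := by rw [inv_mul_cancel, map_one]; rfl }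
    have hle : Subgroup.closure {g | ∃ s c, g = D.φ s (dg c)} ≤ S := by
      rw [Subgroup.closure_le]
      rintro g ⟨s, c, rfl⟩
      change ρ _ v = v
      rw [hvT _ (D.dg_mem s c), hone s c, one_smul]
    intro t ht'
    exact hle (D.T_gen ht')
  · intro s
    obtain ⟨c1, c2, c3, c4⟩ := stepC D ρ y l hy hl s hF
    rw [c3, hone s (-1), mul_one]
    have : ∑ c : Fˣ, l (D.φ s (dg c)) = -1 := by
      simp only [hone s]
      have := (char_sum (k := k) (F := F) p 1).2 (fun c => rfl)
      simpa using this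
    rw [this, neg_smul, one_smul]

end Cfsg.Agent.Lib.Helper78.DFZ
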