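import Cfsg.Agent.Lib.Helper78.DFZ.D
import Cfsg.Agent.Lib.Helper78.DFZ.E
import Cfsg.Agent.Lib.Helper78.DFZ.F

/-! Ladder DFZ (helper78), rung G (helper1): two irreducible projective representations of a split
datum are isomorphic. -/

set_option autoImplicit false

namespace Cfsg.Agent.Lib.Helper78.DFZ

variable {k G W : Type*} [Field k] [Group G] [Fintype G] [AddCommGroup W] [Module k W]
  {I F : Type*} [Field F] [Fintype F] [DecidableEq F] {p : ℕ} [Fact p.Prime] [CharP k p] [CharP F p]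

theorem g_prod_apply {W₁ W₂ : Type*} [AddCommGroup W₁] [Module k W₁]
    [AddCommGroup W₂] [Module k W₂] (ρ₁ : Representation k G W₁) (ρ₂ : Representation k G W₂)
    (g : G) (a : W₁) (b : W₂) : (ρ₁.prod ρ₂) g (a, b) = (ρ₁ g a, ρ₂ g b) := rfl

theorem g_hasTr {W₁ W₂ : Type*} [AddCommGroup W₁] [Module k W₁]
    [AddCommGroup W₂] [Module k W₂] (ρ₁ : Representation k G W₁) (ρ₂ : Representation k G W₂)
    (t₁ : HasTr ρ₁) (t₂ : HasTr ρ₂) : HasTr (ρ₁.prod ρ₂) := by
  obtain ⟨f₁, hf₁⟩ := t₁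
  obtain ⟨f₂, hf₂⟩ := t₂
  refine ⟨f₁.prodMap f₂, ?_⟩
  apply LinearMap.ext
  rintro ⟨a, b⟩
  have e₁ := LinearMap.congr_fun hf₁ a
  have e₂ := LinearMap.congr_fun hf₂ b
  rw [LinearMap.sum_apply] at e₁ e₂ ⊢
  simp only [LinearMap.comp_apply, LinearMap.id_apply] at e₁ e₂ ⊢
  simp only [g_prod_apply, LinearMap.prodMap_apply]
  rw [Prod.ext_iff]
  refine ⟨?_, ?_⟩
  · rw [Prod.fst_sum]; exact e₁
  · rw [Prod.snd_sum]; exact e₂

theorem g_Ts {W₁ W₂ : Type*} [AddCommGroup W₁] [Module k W₁]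
    [AddCommGroup W₂] [Module k W₂] (D : SD G I F) (ρ₁ : Representation k G W₁)
    (ρ₂ : Representation k G W₂) (s : I) (a : W₁) (b : W₂) :
    Ts D (ρ₁.prod ρ₂) s (a, b) = (Ts D ρ₁ s a, Ts D ρ₂ s b) := by
  unfold Ts
  simp only [LinearMap.comp_apply, LinearMap.sum_apply, g_prod_apply]
  rw [Prod.ext_iff]
  refine ⟨?_, ?_⟩
  · rw [Prod.fst_sum]
  · rw [Prod.snd_sum]

theorem abs_iso [IsAlgClosed k] {W₁ W₂ : Type*} [AddCommGroup W₁] [Module k W₁]
    [AddCommGroup W₂] [Module k W₂] [FiniteDimensional k W₁] [FiniteDimensional k W₂]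
    (D : SD G I F) (hU : IsPGroup p D.U) (hT : ((Nat.card D.T : ℕ) : k) ≠ 0)
    (ρ₁ : Representation k G W₁) (ρ₂ : Representation k G W₂) (h₁ : Irr ρ₁) (h₂ : Irr ρ₂)
    (t₁ : HasTr ρ₁) (t₂ : HasTr ρ₂) :
    ∃ e : W₁ ≃ₗ[k] W₂, ∀ g w, e (ρ₁ g w) = ρ₂ g (e w) := by
  obtain ⟨v₁, hv₁, hU₁, hT₁, hs₁⟩ := stepF D hU hT ρ₁ h₁ t₁
  obtain ⟨v₂, hv₂, hU₂, hT₂, hs₂⟩ := stepF D hU hT ρ₂ h₂ t₂
  set ρ : Representation k G (W₁ × W₂) := ρ₁.prod ρ₂ with hρ
  have ht : HasTr ρ := g_hasTr ρ₁ ρ₂ t₁ t₂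
  set v : W₁ × W₂ := (v₁, v₂) with hv
  have hvU : Fx ρ D.U v := by
    intro u hu
    rw [hv, hρ, g_prod_apply, hU₁ u hu, hU₂ u hu]
  have hvT : Eg ρ D.T (fun _ => 1) v := by
    intro u hu
    rw [hv, hρ, g_prod_apply, hT₁ u hu, hT₂ u hu, one_smul]
  have hvs : ∀ s, ∃ κ : k, Ts D ρ s v = κ • v := by
    intro s
    refine ⟨-1, ?_⟩
    rw [hv, hρ, g_Ts, hs₁ s, hs₂ s]
    simp
  have hst := stepD D ρ v (fun _ => 1) hvU hvT hvs
  set M : Submodule k (W₁ × W₂) := Submodule.span k {w | ∃ u ∈ D.Um, w = ρ u v} with hM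
  have hvM : v ∈ M := Submodule.subset_span ⟨1, D.Um.one_mem, by rw [map_one]; rfl⟩
  -- the two "kernels"
  have hN₁ := h₁.2 (M.comap (LinearMap.inl k W₁ W₂)) (by
    intro g w hw
    rw [Submodule.mem_comap] at hw ⊢
    have := hst g _ hw
    rw [LinearMap.inl_apply, hρ, g_prod_apply, map_zero] at this
    exact this)
  have hN₂ := h₂.2 (M.comap (LinearMap.inr k W₁ W₂)) (by
    intro g w hw
    rw [Submodule.mem_comap] at hw ⊢
    have := hst g _ hw
    rw [LinearMap.inr_apply, hρ, g_prod_apply, map_zero] at this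
    exact this)
  -- the two images
  have hI₁ : M.map (LinearMap.fst k W₁ W₂) = ⊤ := by
    rcases h₁.2 (M.map (LinearMap.fst k W₁ W₂)) (by
      rintro g _ ⟨⟨a, b⟩, hw, rfl⟩
      exact ⟨_, hst g _ hw, rfl⟩) with h | h
    · exfalso
      apply hv₁
      have : v₁ ∈ M.map (LinearMap.fst k W₁ W₂) := ⟨v, hvM, rfl⟩
      rw [h] at this
      exact (Submodule.mem_bot k).1 this
    · exact h
  have hI₂ : M.map (LinearMap.snd k W₁ W₂) = ⊤ := by
    rcases h₂.2 (M.map (LinearMap.snd k W₁ W₂)) (by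
      rintro g _ ⟨⟨a, b⟩, hw, rfl⟩
      exact ⟨_, hst g _ hw, rfl⟩) with h | h
    · exfalso
      apply hv₂
      have : v₂ ∈ M.map (LinearMap.snd k W₁ W₂) := ⟨v, hvM, rfl⟩
      rw [h] at this
      exact (Submodule.mem_bot k).1 this
    · exact h
  -- if one of the kernels is everything, so is the other, and `M = ⊤`
  have key : M ≠ ⊤ := by
    intro htop
    obtain ⟨-, hE⟩ := stepE D ρ ht v htop
    obtain ⟨β, hβ⟩ := hE (v₁, 0) (by
      intro u hu
      rw [hρ, g_prod_apply, hU₁ u hu, map_zero])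
    obtain ⟨β', hβ'⟩ := hE (0, v₂) (by
      intro u hu
      rw [hρ, g_prod_apply, hU₂ u hu, map_zero])
    generalize ρ D.n0 (sg ρ D.Um v) = a at hβ hβ'
    obtain ⟨x, y⟩ := a
    rw [Prod.smul_mk, Prod.mk.injEq] at hβ hβ'
    have hb : β ≠ 0 := by
      rintro rfl
      apply hv₁
      rw [hβ.1, zero_smul]
    have hy : y = 0 := by
      rcases smul_eq_zero.1 hβ.2.symm with h | h
      · exact absurd h hb
      · exact h
    apply hv₂
    rw [hβ'.2, hy, smul_zero]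
  have hmem₁ : ∀ a, a ∈ M.comap (LinearMap.inl k W₁ W₂) ↔ ((a, 0) : W₁ × W₂) ∈ M := fun a => Iff.rfl
  have hmem₂ : ∀ b, b ∈ M.comap (LinearMap.inr k W₁ W₂) ↔ ((0, b) : W₁ × W₂) ∈ M := fun a => Iff.rfl
  have hsplit : ∀ (a : W₁) (b : W₂), ((a, b) : W₁ × W₂) = (a, 0) + (0, b) := by
    intro a b; simp
  have hB₁ : M.comap (LinearMap.inl k W₁ W₂) = ⊥ := by
    rcases hN₁ with h | h
    · exact h
    · exfalso
      have h1 : ∀ a : W₁, ((a, 0) : W₁ × W₂) ∈ M := fun a => by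
        rw [← hmem₁, h]; exact Submodule.mem_top
      have h2 : ((0, v₂) : W₁ × W₂) ∈ M := by
        have := M.sub_mem hvM (h1 v₁)
        rw [hv] at this
        simpa using this
      have h3 : M.comap (LinearMap.inr k W₁ W₂) = ⊤ := by
        rcases hN₂ with h' | h'
        · exfalso
          apply hv₂
          have : v₂ ∈ M.comap (LinearMap.inr k W₁ W₂) := (hmem₂ _).2 h2
          rw [h'] at this
          exact (Submodule.mem_bot k).1 this
        · exact h'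
      apply key
      rw [eq_top_iff]
      rintro ⟨a, b⟩ -
      rw [hsplit]
      refine M.add_mem (h1 a) ?_
      rw [← hmem₂, h3]; exact Submodule.mem_top
  have hB₂ : M.comap (LinearMap.inr k W₁ W₂) = ⊥ := by
    rcases hN₂ with h | h
    · exact h
    · exfalso
      have h1 : ∀ b : W₂, ((0, b) : W₁ × W₂) ∈ M := fun b => by
        rw [← hmem₂, h]; exact Submodule.mem_top
      have h2 : ((v₁, 0) : W₁ × W₂) ∈ M := by
        have := M.sub_mem hvM (h1 v₂)
        rw [hv] at this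
        simpa using this
      apply hv₁
      have : v₁ ∈ M.comap (LinearMap.inl k W₁ W₂) := (hmem₁ _).2 h2
      rw [hB₁] at this
      exact (Submodule.mem_bot k).1 this
  -- `M` is the graph of the isomorphism
  have hex : ∀ a : W₁, ∃ b : W₂, ((a, b) : W₁ × W₂) ∈ M := by
    intro a
    have : a ∈ M.map (LinearMap.fst k W₁ W₂) := by rw [hI₁]; exact Submodule.mem_top
    obtain ⟨⟨a', b⟩, hw, rfl⟩ := this
    exact ⟨b, hw⟩
  have hex' : ∀ b : W₂, ∃ a : W₁, ((a, b) : W₁ × W₂) ∈ M := by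
    intro b
    have : b ∈ M.map (LinearMap.snd k W₁ W₂) := by rw [hI₂]; exact Submodule.mem_top
    obtain ⟨⟨a, b'⟩, hw, rfl⟩ := this
    exact ⟨a, hw⟩
  have huniq : ∀ (a : W₁) (b b' : W₂), ((a, b) : W₁ × W₂) ∈ M → ((a, b') : W₁ × W₂) ∈ M → b = b' := by
    intro a b b' h h'
    have := M.sub_mem h h'
    have h2 : b - b' ∈ M.comap (LinearMap.inr k W₁ W₂) := by
      rw [hmem₂]; simpa using this
    rw [hB₂] at h2
    exact sub_eq_zero.1 ((Submodule.mem_bot k).1 h2)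
  have huniq' : ∀ (a a' : W₁) (b : W₂), ((a, b) : W₁ × W₂) ∈ M → ((a', b) : W₁ × W₂) ∈ M → a = a' := by
    intro a a' b h h'
    have := M.sub_mem h h'
    have h2 : a - a' ∈ M.comap (LinearMap.inl k W₁ W₂) := by
      rw [hmem₁]; simpa using this
    rw [hB₁] at h2
    exact sub_eq_zero.1 ((Submodule.mem_bot k).1 h2)
  choose e he using hex
  have heq : ∀ a b, ((a, b) : W₁ × W₂) ∈ M → e a = b := fun a b h => huniq a _ _ (he a) h
  let eL : W₁ →ₗ[k] W₂ :=
    { toFun := e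
      map_add' := fun a a' => heq _ _ (by
        have := M.add_mem (he a) (he a')
        simpa using this)
      map_smul' := fun c a => heq _ _ (by
        have := M.smul_mem c (he a)
        simpa using this) }
  have hbij : Function.Bijective eL := by
    constructor
    · intro a a' h
      have h' : e a = e a' := h
      have := he a
      rw [h'] at this
      exact huniq' _ _ _ this (he a')
    · intro b
      obtain ⟨a, ha⟩ := hex' b
      exact ⟨a, heq _ _ ha⟩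
  refine ⟨LinearEquiv.ofBijective eL hbij, ?_⟩
  intro g w
  show e (ρ₁ g w) = ρ₂ g (e w)
  apply heq
  have := hst g _ (he w)
  rw [hρ, g_prod_apply] at this
  exact this

end Cfsg.Agent.Lib.Helper78.DFZ
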