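import Cfsg.Agent.Lib.Helper78.DFZ.BR1
import Cfsg.Agent.Lib.Helper78.DFZ.G
import Cfsg.Agent.Lib.Helper80.GADef2
import Cfsg.Agent.Lib.Helper80.MTAlgClosed
import Cfsg.Agent.Lib.Helper66.Cyc1TRD
import Cfsg.Agent.Lib.Helper21.Induced
import Cfsg.Agent.Lib.Helper21.DefectCard

/-! Ladder DFZ, rung BR2: a finite group with a split datum has at most one block of defect zero. -/

set_option autoImplicit false

namespace Cfsg.Agent.Lib.Helper78.DFZ

open Cfsg Cfsg.Agent.Lib.Helper80 Cfsg.Agent.Lib.Helper80.GA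

/-- action of the group algebra is multiplicative -/
theorem br2_act_mul {k G W : Type*} [Field k] [Group G] [Fintype G] [AddCommGroup W] [Module k W]
    (ρ : Representation k G W) (a b : GA k G) (w : W) :
    ∑ g, (a * b) g • ρ g w = ∑ g, a g • ρ g (∑ h, b h • ρ h w) := by
  simp only [mul_apply, Finset.sum_smul, map_sum, map_smul, Finset.smul_sum]
  rw [Finset.sum_comm]
  refine Finset.sum_congr rfl (fun x _ => ?_)
  rw [← Equiv.sum_comp (Equiv.mulLeft x)]
  refine Finset.sum_congr rfl (fun h _ => ?_)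
  simp only [Equiv.coe_mulLeft, inv_mul_cancel_left, map_mul, Module.End.mul_apply, smul_smul]

/-- a block idempotent of defect zero is a trace from the trivial subgroup -/
theorem br2_trace {G : Type*} [Group G] [Fintype G] {p : ℕ} [Fact p.Prime]
    {M : Ideal AlgInt} (hM : IsPModular p M) (B : Set (IrrCharacter G)) (hB : IsPBlock M B)
    (d : blockDefect p B = 0) : ∃ c : GA (Kr hM) G, ∑ g : G, of g * c * of g⁻¹ = blkR hM B := by
  classical
  obtain ⟨D, hD⟩ := Cfsg.Agent.Lib.Helper21.exists_isDefectGroup hM B hB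
  have hcard := Cfsg.Agent.Lib.Helper21.card_defectGroup hM B hB D hD
  rw [d, pow_zero] at hcard
  have hbot : D = ⊥ := (Subgroup.card_eq_one).1 hcard
  subst hbot
  have hdef : IsDef p ⊤ (blkR hM B) ⊥ := isDef_of_isDefectGroup hM hB hD
  obtain ⟨T, c, hT, _, hsum⟩ := Cfsg.Agent.Lib.Helper66.Cyc1.exists_trace
    (isBlk_blkR hM hB).inZ.2 hdef.zd
  have hTu : T = Finset.univ := by
    ext g
    simp only [Finset.mem_univ, iff_true]
    obtain ⟨t, ⟨ht, htg⟩, _⟩ := hT g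
    rw [Subgroup.mem_bot, inv_mul_eq_one] at htg
    rwa [← htg]
  exact ⟨c, by rw [← hsum, hTu]⟩

theorem unique_defect_zero {G : Type*} [Group G] [Fintype G] {I F : Type*} [Field F] [Fintype F]
    [DecidableEq F] {p : ℕ} [Fact p.Prime] [CharP F p] (D : SD G I F) (hU : IsPGroup p D.U)
    (hT : (Nat.card D.T).Coprime p) {M : Ideal AlgInt} (hM : IsPModular p M)
    (B₁ B₂ : Set (IrrCharacter G)) (h₁ : IsPBlock M B₁) (h₂ : IsPBlock M B₂)
    (d₁ : blockDefect p B₁ = 0) (d₂ : blockDefect p B₂ = 0) : B₁ = B₂ := by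
  classical
  have hp : p.Prime := Fact.out
  obtain ⟨c₁, hc₁⟩ := br2_trace hM B₁ h₁ d₁
  obtain ⟨c₂, hc₂⟩ := br2_trace hM B₂ h₂ d₂
  have b₁ := isBlk_blkR hM h₁
  have b₂ := isBlk_blkR hM h₂
  obtain ⟨W₁, _, _, _, ρ₁, i₁, t₁, a₁⟩ := exists_rep (blkR hM B₁) c₁ b₁.inZ.2 b₁.idem b₁.ne_zero hc₁
  obtain ⟨W₂, _, _, _, ρ₂, i₂, t₂, a₂⟩ := exists_rep (blkR hM B₂) c₂ b₂.inZ.2 b₂.idem b₂.ne_zero hc₂
  have hTk : ((Nat.card D.T : ℕ) : Kr hM) ≠ 0 := by
    intro h
    rw [CharP.cast_eq_zero_iff (Kr hM) p] at h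
    have := Nat.Coprime.eq_one_of_dvd hT.symm h
    exact hp.one_lt.ne' this
  obtain ⟨e, he⟩ := abs_iso (p := p) D hU hTk ρ₁ ρ₂ i₁ i₂ t₁ t₂
  apply blkR_injective hM h₁ h₂
  rcases b₁.eq_or_orth b₂ with h | h
  · exact h
  · exfalso
    obtain ⟨hnt, _⟩ := i₂
    obtain ⟨w, hw⟩ := exists_ne (0 : W₂)
    apply hw
    have a₁' : ∀ w : W₂, ∑ g, (blkR hM B₁) g • ρ₂ g w = w := by
      intro w
      have := a₁ (e.symm w)
      have h2 := congrArg e this
      rw [map_sum] at h2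
      simp only [map_smul, he, LinearEquiv.apply_symm_apply] at h2
      exact h2
    have h3 := br2_act_mul ρ₂ (blkR hM B₁) (blkR hM B₂) w
    rw [a₂ w, a₁' w, h] at h3
    simpa using h3.symm

end Cfsg.Agent.Lib.Helper78.DFZ
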