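import Cfsg.Agent.Lib.Helper80.GAFMT
import Cfsg.Agent.Lib.Helper80.GADef2
import Cfsg.Agent.Lib.Helper80.GAKer
import Cfsg.Agent.Lib.Helper21.KeyLemma
import Cfsg.Agent.Lib.Helper81.LocalRing

/-! Ladder DFZ, rung DB1: defect groups are radical, and are Sylow in the centraliser of a
`p`-regular element. -/

set_option autoImplicit false

namespace Cfsg.Agent.Lib.Helper78.DFZ

open Cfsg Cfsg.Agent.Lib.Helper80 Cfsg.Agent.Lib.Helper80.GA

theorem defect_radical {G : Type*} [Group G] [Fintype G] {p : ℕ} [Fact p.Prime]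
    {M : Ideal AlgInt} (hM : IsPModular p M) (B : Set (IrrCharacter G)) (hB : IsPBlock M B)
    (D : Subgroup G) (hD : IsDefectGroup p M B D) (R : Subgroup G) (hR : IsPGroup p R)
    (h1 : R ≤ Subgroup.normalizer (D : Set G))
    (h2 : Subgroup.normalizer (D : Set G) ≤ Subgroup.normalizer (R : Set G)) : R ≤ D := by
  have hdef : IsDef p ⊤ (blkR hM B) D := isDef_of_isDefectGroup hM hB hD
  have hblk : IsBlk ⊤ (blkR hM B) := isBlk_blkR hM hB
  obtain ⟨c, ⟨hc, hcdef, _⟩, _⟩ := brauer_corr (P := D) (H := ⊤) (K := Nn D) le_top le_rfl hblk hdef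
  exact hcdef.normal_le hc hR h1 h2

theorem defect_regular {G : Type*} [Group G] [Fintype G] {p : ℕ} [Fact p.Prime]
    {M : Ideal AlgInt} (hM : IsPModular p M) (B : Set (IrrCharacter G)) (hB : IsPBlock M B)
    (D : Subgroup G) (hD : IsDefectGroup p M B D) :
    ∃ x : G, ¬ p ∣ orderOf x ∧ (∀ d ∈ D, d * x = x * d) ∧
      (x ∈ Subgroup.center G → Nat.card D = p ^ (Nat.card G).factorization p) := by
  obtain ⟨g, ⟨_, h2, _⟩, P, rfl⟩ := hD
  refine ⟨g, ?_, ?_, ?_⟩
  · intro hdiv
    apply h2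
    rw [Cfsg.Agent.Lib.Helper21.blockCoeff_eq_zero_of_singular hM B hB hdiv]
    exact Cfsg.Agent.Lib.Helper81.memLocalIdeal_zero hM
  · rintro d ⟨y, _, rfl⟩
    have := y.2
    rw [Subgroup.mem_centralizer_iff] at this
    exact (this g rfl).symm
  · intro hx
    rw [Subgroup.card_map_of_injective (Subgroup.subtype_injective _), P.card_eq_multiplicity]
    have htop : Subgroup.centralizer ({g} : Set G) = ⊤ := by
      rw [eq_top_iff]
      intro y _
      rw [Subgroup.mem_centralizer_iff]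
      rintro h rfl
      exact (Subgroup.mem_center_iff.1 hx y).symm
    rw [htop, Subgroup.card_top]

end Cfsg.Agent.Lib.Helper78.DFZ
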