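import Cfsg.Agent.Lib.Helper78.DFZ.Defs3
import Cfsg.Agent.Lib.Helper63.PGroupFixed

/-! Ladder DFZ, rung DLA (helper98). -/

set_option autoImplicit false

namespace Cfsg.Agent.Lib.Helper78.DFZ

open Matrix
variable {F : Type*} [Field F] [Fintype F] {n : ℕ} {p : ℕ} [Fact p.Prime] [CharP F p]

local notation "SLn" => Matrix.SpecialLinearGroup (Fin n) F

/-- the natural representation of `D` -/
def dlaRep (D : Subgroup SLn) : Representation F D (Fin n → F) where
  toFun d := Matrix.mulVecLin ((d : SLn) : Matrix (Fin n) (Fin n) F)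
  map_one' := by
    ext v
    simp
  map_mul' a b := by
    ext v
    simp [Matrix.mulVecLin_mul]

/-- the dual representation of `D` -/
def dlaDual (D : Subgroup SLn) : Representation F D (Fin n → F) where
  toFun d := Matrix.vecMulLinear (((d : SLn)⁻¹ : SLn) : Matrix (Fin n) (Fin n) F)
  map_one' := by
    apply LinearMap.ext
    intro v
    simp
  map_mul' a b := by
    apply LinearMap.ext
    intro v
    change v ᵥ* ((((a * b : D) : SLn)⁻¹ : SLn) : Matrix (Fin n) (Fin n) F)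
      = (v ᵥ* (((b : SLn)⁻¹ : SLn) : Matrix (Fin n) (Fin n) F)) ᵥ*
        (((a : SLn)⁻¹ : SLn) : Matrix (Fin n) (Fin n) F)
    rw [Matrix.vecMul_vecMul, ← Matrix.SpecialLinearGroup.coe_mul, Subgroup.coe_mul, _root_.mul_inv_rev]

theorem dl_fix (D : Subgroup SLn) (hD : IsPGroup p D) (N : Submodule F (Fin n → F)) (hN : N ≠ ⊥)
    (hinv : ∀ d ∈ D, ∀ v ∈ N, (d : Matrix (Fin n) (Fin n) F) *ᵥ v ∈ N) :
    ∃ v ∈ N, v ≠ 0 ∧ FixV D v := by
  have hfin : Finite SLn := Subtype.finite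
  obtain ⟨v, hvN, hv0, hv⟩ := Cfsg.Agent.Lib.Helper63.exists_fixed_vector hD (dlaRep D) N
    (fun d v hv => hinv d d.2 v hv) hN
  exact ⟨v, hvN, hv0, fun d hd => hv ⟨d, hd⟩⟩

theorem dl_phi (D : Subgroup SLn) (hD : IsPGroup p D) (hne : D ≠ ⊥) :
    ∃ φ : Fin n → F, φ ≠ 0 ∧ (∀ d ∈ D, φ ᵥ* (d : Matrix (Fin n) (Fin n) F) = φ) ∧
      ∀ v, FixV D v → φ ⬝ᵥ v = 0 := by
  have hfin : Finite SLn := Subtype.finite
  let Wf : Submodule F (Fin n → F) :=
    { carrier := {v | FixV D v}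
      add_mem' := fun {a b} ha hb d hd => by rw [Matrix.mulVec_add, ha d hd, hb d hd]
      zero_mem' := fun d _ => Matrix.mulVec_zero _
      smul_mem' := fun c v hv d hd => by rw [Matrix.mulVec_smul, hv d hd] }
  let N : Submodule F (Fin n → F) :=
    { carrier := {φ | ∀ v, FixV D v → φ ⬝ᵥ v = 0}
      add_mem' := fun {a b} ha hb v hv => by rw [add_dotProduct, ha v hv, hb v hv, add_zero]
      zero_mem' := fun v _ => zero_dotProduct v
      smul_mem' := fun c φ hφ v hv => by rw [smul_dotProduct, hφ v hv, smul_zero] }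
  have hWf : Wf < ⊤ := by
    rw [lt_top_iff_ne_top]
    intro htop
    apply hne
    rw [Subgroup.eq_bot_iff_forall]
    intro d hd
    apply Subtype.ext
    rw [Matrix.ext_iff_mulVec]
    intro v
    have hv : v ∈ Wf := htop ▸ Submodule.mem_top
    rw [hv d hd]
    simp
  obtain ⟨f, hf0, hfW⟩ := Submodule.exists_le_ker_of_lt_top Wf hWf
  have hfdot : ∀ v, (fun i => f (fun j => if i = j then 1 else 0)) ⬝ᵥ v = f v := by
    intro v
    rw [LinearMap.pi_apply_eq_sum_univ f v]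
    simp only [dotProduct, smul_eq_mul, mul_comm]
  have hN : N ≠ ⊥ := by
    intro hbot
    have hmem : (fun i => f (fun j => if i = j then 1 else 0)) ∈ N := by
      intro v hv
      rw [hfdot]
      exact hfW (show v ∈ Wf from hv)
    rw [hbot, Submodule.mem_bot] at hmem
    apply hf0
    apply LinearMap.ext
    intro v
    rw [← hfdot, hmem, zero_dotProduct]
    rfl
  obtain ⟨φ, hφN, hφ0, hφ⟩ := Cfsg.Agent.Lib.Helper63.exists_fixed_vector hD (dlaDual D) N
    (fun d φ hφ v hv => by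
      change (φ ᵥ* (((d : SLn)⁻¹ : SLn) : Matrix (Fin n) (Fin n) F)) ⬝ᵥ v = 0
      rw [← Matrix.dotProduct_mulVec, hv _ (D.inv_mem d.2)]
      exact hφ v hv) hN
  refine ⟨φ, hφ0, fun d hd => ?_, hφN⟩
  have := hφ ⟨d⁻¹, D.inv_mem hd⟩
  change φ ᵥ* (((d⁻¹ : SLn)⁻¹ : SLn) : Matrix (Fin n) (Fin n) F) = φ at this
  rwa [inv_inv] at this

end Cfsg.Agent.Lib.Helper78.DFZ
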