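import Cfsg.Agent.Lib.Helper78.DFZ.Defs3

/-! Ladder DFZ, rung DLB -/

set_option autoImplicit false

namespace Cfsg.Agent.Lib.Helper78.DFZ

open Matrix

section DL
variable {F : Type*} [Field F] {n : ℕ}

local notation "SLn" => Matrix.SpecialLinearGroup (Fin n) F

theorem dlb_mul (g h : SLn) (v : Fin n → F) :
    ((g * h : SLn) : Matrix (Fin n) (Fin n) F) *ᵥ v =
      (g : Matrix (Fin n) (Fin n) F) *ᵥ ((h : Matrix (Fin n) (Fin n) F) *ᵥ v) := by
  rw [Matrix.SpecialLinearGroup.coe_mul, Matrix.mulVec_mulVec]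

theorem dlb_one (v : Fin n → F) : ((1 : SLn) : Matrix (Fin n) (Fin n) F) *ᵥ v = v := by
  rw [Matrix.SpecialLinearGroup.coe_one, Matrix.one_mulVec]

theorem dlb_inv_left (g : SLn) (v : Fin n → F) :
    ((g⁻¹ : SLn) : Matrix (Fin n) (Fin n) F) *ᵥ ((g : Matrix (Fin n) (Fin n) F) *ᵥ v) = v := by
  rw [← dlb_mul, inv_mul_cancel, dlb_one]

theorem dlb_inv_right (g : SLn) (v : Fin n → F) :
    (g : Matrix (Fin n) (Fin n) F) *ᵥ (((g⁻¹ : SLn) : Matrix (Fin n) (Fin n) F) *ᵥ v) = v := by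
  rw [← dlb_mul, mul_inv_cancel, dlb_one]

theorem dlb_ext {g h : SLn}
    (e : ∀ v, (g : Matrix (Fin n) (Fin n) F) *ᵥ v = (h : Matrix (Fin n) (Fin n) F) *ᵥ v) : g = h := by
  apply Subtype.ext
  apply Matrix.mulVec_injective
  funext v
  exact e v

theorem FixV.zero (D : Subgroup SLn) : FixV D 0 := fun d _ => Matrix.mulVec_zero _

theorem FixV.add {D : Subgroup SLn} {v w : Fin n → F} (hv : FixV D v) (hw : FixV D w) : FixV D (v + w) :=
  fun d hd => by rw [Matrix.mulVec_add, hv d hd, hw d hd]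

theorem FixV.neg {D : Subgroup SLn} {v : Fin n → F} (hv : FixV D v) : FixV D (-v) :=
  fun d hd => by rw [Matrix.mulVec_neg, hv d hd]

theorem FixV.smul {D : Subgroup SLn} {v : Fin n → F} (hv : FixV D v) (c : F) : FixV D (c • v) :=
  fun d hd => by rw [Matrix.mulVec_smul, hv d hd]

/-- the normaliser of `D` preserves the fixed space -/
theorem FixV.of_normalizer {D : Subgroup SLn} {y : SLn} (hy : y ∈ Subgroup.normalizer (D : Set SLn))
    {v : Fin n → F} (hv : FixV D v) : FixV D ((y : Matrix (Fin n) (Fin n) F) *ᵥ v) := by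
  intro d hd
  have h1 : y⁻¹ * d * y⁻¹⁻¹ ∈ D := (Subgroup.mem_normalizer_iff.1 (inv_mem hy) d).1 hd
  have e : d * y = y * (y⁻¹ * d * y⁻¹⁻¹) := by group
  rw [← dlb_mul, e, dlb_mul, hv _ h1]

/-- the subgroup `R` -/
def dlbR (D : Subgroup SLn) : Subgroup SLn where
  carrier := {g | (∀ v, FixV D ((g : Matrix (Fin n) (Fin n) F) *ᵥ v - v)) ∧
    (∀ v, FixV D v → (g : Matrix (Fin n) (Fin n) F) *ᵥ v = v) ∧ ∀ d ∈ D, d * g = g * d}
  one_mem' := by
    refine ⟨fun v => ?_, fun v _ => dlb_one v, fun d _ => by rw [mul_one, one_mul]⟩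
    rw [dlb_one, sub_self]
    exact FixV.zero D
  mul_mem' := by
    rintro g h ⟨g1, g2, g3⟩ ⟨h1, h2, h3⟩
    refine ⟨fun v => ?_, fun v hv => ?_, fun d hd => ?_⟩
    · have e : ((g * h : SLn) : Matrix (Fin n) (Fin n) F) *ᵥ v - v =
          ((g : Matrix (Fin n) (Fin n) F) *ᵥ ((h : Matrix (Fin n) (Fin n) F) *ᵥ v) -
            (h : Matrix (Fin n) (Fin n) F) *ᵥ v) + ((h : Matrix (Fin n) (Fin n) F) *ᵥ v - v) := by
        rw [dlb_mul]; abel
      rw [e]
      exact (g1 _).add (h1 _)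
    · rw [dlb_mul, h2 v hv, g2 v hv]
    · rw [← mul_assoc, g3 d hd, mul_assoc, h3 d hd, mul_assoc]
  inv_mem' := by
    rintro g ⟨g1, g2, g3⟩
    refine ⟨fun v => ?_, fun v hv => ?_, fun d hd => ?_⟩
    · have := (g1 (((g⁻¹ : SLn) : Matrix (Fin n) (Fin n) F) *ᵥ v)).neg
      rwa [dlb_inv_right, neg_sub] at this
    · conv_lhs => rw [← g2 v hv]
      exact dlb_inv_left g v
    · have := g3 d hd
      rw [eq_inv_mul_iff_mul_eq, ← mul_assoc, ← this, mul_inv_cancel_right]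

theorem dlbR_pow {D : Subgroup SLn} {g : SLn} (hg : g ∈ dlbR D) (k : ℕ) (v : Fin n → F) :
    ((g ^ k : SLn) : Matrix (Fin n) (Fin n) F) *ᵥ v =
      v + (k : F) • ((g : Matrix (Fin n) (Fin n) F) *ᵥ v - v) := by
  induction k with
  | zero => rw [pow_zero, dlb_one, Nat.cast_zero, zero_smul, add_zero]
  | succ k ih =>
    rw [pow_succ', dlb_mul, ih, Matrix.mulVec_add, Matrix.mulVec_smul, hg.2.1 _ (hg.1 v), Nat.cast_succ,
      add_smul, one_smul]
    abel

theorem dlbR_conj {D : Subgroup SLn} {y : SLn} (hy : y ∈ Subgroup.normalizer (D : Set SLn)) {r : SLn}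
    (hr : r ∈ dlbR D) : y * r * y⁻¹ ∈ dlbR D := by
  obtain ⟨r1, r2, r3⟩ := hr
  refine ⟨fun v => ?_, fun v hv => ?_, fun d hd => ?_⟩
  · have := (r1 (((y⁻¹ : SLn) : Matrix (Fin n) (Fin n) F) *ᵥ v)).of_normalizer hy
    rwa [Matrix.mulVec_sub, dlb_inv_right, ← dlb_mul, ← dlb_mul] at this
  · rw [dlb_mul, dlb_mul, r2 _ (hv.of_normalizer (inv_mem hy)), dlb_inv_right]
  · have h1 : y⁻¹ * d * y⁻¹⁻¹ ∈ D := (Subgroup.mem_normalizer_iff.1 (inv_mem hy) d).1 hd
    have h2 := r3 _ h1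
    have e1 : d * (y * r * y⁻¹) = y * ((y⁻¹ * d * y⁻¹⁻¹) * r) * y⁻¹ := by group
    rw [e1, h2]
    group

variable [Fintype F] {p : ℕ} [Fact p.Prime] [CharP F p]

theorem dl_R_le (D : Subgroup SLn)
    (hrad : ∀ R : Subgroup SLn, IsPGroup p R → R ≤ Subgroup.normalizer (D : Set SLn) →
      Subgroup.normalizer (D : Set SLn) ≤ Subgroup.normalizer (R : Set SLn) → R ≤ D)
    (g : SLn) (h1 : ∀ v, FixV D ((g : Matrix (Fin n) (Fin n) F) *ᵥ v - v))
    (h2 : ∀ v, FixV D v → (g : Matrix (Fin n) (Fin n) F) *ᵥ v = v)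
    (h3 : ∀ d ∈ D, d * g = g * d) : g ∈ D := by
  refine hrad (dlbR D) ?_ ?_ ?_ (show g ∈ dlbR D from ⟨h1, h2, h3⟩)
  · rintro ⟨r, hr⟩
    refine ⟨1, Subtype.ext ?_⟩
    show r ^ p ^ 1 = 1
    rw [pow_one]
    apply dlb_ext
    intro v
    rw [dlbR_pow hr, CharP.cast_eq_zero, zero_smul, add_zero, dlb_one]
  · intro r hr
    rw [Subgroup.mem_normalizer_iff]
    intro d
    constructor
    · intro hd
      rw [← hr.2.2 d hd, mul_inv_cancel_right]
      exact hd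
    · intro hd
      have := hr.2.2 _ hd
      have e : d = r⁻¹ * (r * d * r⁻¹ * r) := by group
      rw [e, this, inv_mul_cancel_left]
      exact hd
  · intro y hy
    rw [Subgroup.mem_normalizer_iff]
    intro r
    constructor
    · exact dlbR_conj hy
    · intro hr
      have := dlbR_conj (inv_mem hy) hr
      have e : y⁻¹ * (y * r * y⁻¹) * y⁻¹⁻¹ = r := by group
      rwa [e] at this

end DL

end Cfsg.Agent.Lib.Helper78.DFZ
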