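import Cfsg.Agent.Lib.Helper78.DFZ.DLB

/-! Ladder DFZ, rung DLC -/

set_option autoImplicit false

namespace Cfsg.Agent.Lib.Helper78.DFZ

open Matrix

section DL
variable {F : Type*} [Field F] {n : ℕ}

local notation "SLn" => Matrix.SpecialLinearGroup (Fin n) F

/-- the transvection `1 + v φᵀ` -/
def dlcT (v φ : Fin n → F) (h : φ ⬝ᵥ v = 0) : SLn :=
  ⟨1 + vecMulVec v φ, by
    rw [Matrix.vecMulVec_eq (ι := Unit), Matrix.det_one_add_replicateCol_mul_replicateRow, h, add_zero]⟩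

theorem dlcT_apply (v φ : Fin n → F) (h : φ ⬝ᵥ v = 0) (w : Fin n → F) :
    (dlcT v φ h : Matrix (Fin n) (Fin n) F) *ᵥ w = w + (φ ⬝ᵥ w) • v := by
  show (1 + vecMulVec v φ) *ᵥ w = _
  rw [Matrix.add_mulVec, Matrix.one_mulVec, Matrix.vecMulVec_mulVec, op_smul_eq_smul]

variable [Fintype F] {p : ℕ} [Fact p.Prime] [CharP F p]

theorem dl_scalar_on_fix (D : Subgroup SLn)
    (hR : ∀ g : SLn, (∀ v, FixV D ((g : Matrix (Fin n) (Fin n) F) *ᵥ v - v)) →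
      (∀ v, FixV D v → (g : Matrix (Fin n) (Fin n) F) *ᵥ v = v) → (∀ d ∈ D, d * g = g * d) → g ∈ D)
    (φ : Fin n → F) (h0 : φ ≠ 0) (hφ : ∀ d ∈ D, φ ᵥ* (d : Matrix (Fin n) (Fin n) F) = φ)
    (hv : ∀ v, FixV D v → φ ⬝ᵥ v = 0) (x : SLn) (hc : ∀ d ∈ D, d * x = x * d) :
    ∃ c : F, ∀ v, FixV D v → (x : Matrix (Fin n) (Fin n) F) *ᵥ v = c • v := by
  obtain ⟨i, hi⟩ : ∃ i, φ i ≠ 0 := by
    by_contra h
    push Not at h
    exact h0 (funext h)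
  set w₀ : Fin n → F := Pi.single i (φ i)⁻¹ with hw₀
  have hw1 : φ ⬝ᵥ w₀ = 1 := by rw [hw₀, dotProduct_single, mul_inv_cancel₀ hi]
  refine ⟨φ ⬝ᵥ ((x : Matrix (Fin n) (Fin n) F) *ᵥ w₀), fun v hfv => ?_⟩
  have ht : dlcT v φ (hv v hfv) ∈ D := by
    apply hR
    · intro w
      rw [dlcT_apply, add_sub_cancel_left]
      exact hfv.smul _
    · intro w hw
      rw [dlcT_apply, hv w hw, zero_smul, add_zero]
    · intro d hd
      apply dlb_ext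
      intro w
      rw [dlb_mul, dlb_mul, dlcT_apply, dlcT_apply, Matrix.mulVec_add, Matrix.mulVec_smul, hfv d hd,
        Matrix.dotProduct_mulVec, hφ d hd]
  have e : ((dlcT v φ (hv v hfv) * x : SLn) : Matrix (Fin n) (Fin n) F) *ᵥ w₀ =
      ((x * dlcT v φ (hv v hfv) : SLn) : Matrix (Fin n) (Fin n) F) *ᵥ w₀ := by rw [hc _ ht]
  rw [dlb_mul, dlb_mul, dlcT_apply, dlcT_apply, Matrix.mulVec_add, Matrix.mulVec_smul, hw1, one_smul] at e
  exact (add_left_cancel e).symm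

end DL

end Cfsg.Agent.Lib.Helper78.DFZ
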