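import Cfsg.Agent.Lib.Helper78.DFZ.DLA
import Cfsg.Agent.Lib.Helper78.DFZ.DLB

/-! Ladder DFZ, rung DLD -/

set_option autoImplicit false

namespace Cfsg.Agent.Lib.Helper78.DFZ

open Matrix

section DL
variable {F : Type*} [Field F] [Fintype F] {n : ℕ} {p : ℕ} [Fact p.Prime] [CharP F p]

local notation "SLn" => Matrix.SpecialLinearGroup (Fin n) F

theorem dl_central (D : Subgroup SLn) (hD : IsPGroup p D) (x : SLn) (hx : ¬ p ∣ orderOf x)
    (hc : ∀ d ∈ D, d * x = x * d) (c : F)
    (hs : ∀ v, FixV D v → (x : Matrix (Fin n) (Fin n) F) *ᵥ v = c • v) :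
    x ∈ Subgroup.center SLn := by
  let f : (Fin n → F) →ₗ[F] (Fin n → F) :=
    Matrix.mulVecLin (x : Matrix (Fin n) (Fin n) F) - c • LinearMap.id
  have hf : ∀ u, f u = (x : Matrix (Fin n) (Fin n) F) *ᵥ u - c • u := fun u => rfl
  have hbot : LinearMap.range f = ⊥ := by
    by_contra hne
    obtain ⟨v, hvN, hv0, hv⟩ := dl_fix (p := p) D hD (LinearMap.range f) hne (by
      rintro d hd _ ⟨u, rfl⟩
      refine ⟨(d : Matrix (Fin n) (Fin n) F) *ᵥ u, ?_⟩
      rw [hf, hf, Matrix.mulVec_sub, Matrix.mulVec_smul, ← dlb_mul, ← dlb_mul, hc d hd])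
    obtain ⟨u, rfl⟩ := hvN
    set v := f u with hvdef
    have hxu : (x : Matrix (Fin n) (Fin n) F) *ᵥ u = c • u + v := by rw [hvdef, hf]; abel
    have hxv := hs v hv
    have h1 : ∀ k : ℕ, ((x ^ k : SLn) : Matrix (Fin n) (Fin n) F) *ᵥ v = c ^ k • v := by
      intro k
      induction k with
      | zero => rw [pow_zero, dlb_one, pow_zero, one_smul]
      | succ k ih => rw [pow_succ', dlb_mul, ih, Matrix.mulVec_smul, hxv, smul_smul, pow_succ]
    have h2 : ∀ k : ℕ, c • (((x ^ k : SLn) : Matrix (Fin n) (Fin n) F) *ᵥ u) =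
        c ^ (k + 1) • u + ((k : F) * c ^ k) • v := by
      intro k
      induction k with
      | zero => rw [pow_zero, dlb_one, Nat.cast_zero, zero_mul, zero_smul, add_zero, zero_add, pow_one]
      | succ k ih =>
        rw [pow_succ', dlb_mul, ← Matrix.mulVec_smul, ih, Matrix.mulVec_add, Matrix.mulVec_smul,
          Matrix.mulVec_smul, hxu, hxv, smul_add, smul_smul, smul_smul, add_assoc, ← add_smul]
        congr 2
        · ring
        · push_cast; ring
    have hm1 : c ^ orderOf x = 1 := by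
      have := h1 (orderOf x)
      rw [pow_orderOf_eq_one, dlb_one] at this
      have e : (c ^ orderOf x - 1) • v = 0 := by rw [sub_smul, one_smul, ← this, sub_self]
      rcases smul_eq_zero.1 e with h | h
      · exact sub_eq_zero.1 h
      · exact absurd h hv0
    have := h2 (orderOf x)
    rw [pow_orderOf_eq_one, dlb_one, pow_succ, hm1, one_mul, mul_one] at this
    have e : ((orderOf x : ℕ) : F) • v = 0 := by
      have := this.symm
      rwa [add_eq_left] at this
    rcases smul_eq_zero.1 e with h | h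
    · exact hx ((CharP.cast_eq_zero_iff F p _).1 h)
    · exact hv0 h
  have hall : ∀ u, (x : Matrix (Fin n) (Fin n) F) *ᵥ u = c • u := by
    intro u
    have : f u ∈ LinearMap.range f := ⟨u, rfl⟩
    rw [hbot, Submodule.mem_bot, hf] at this
    exact sub_eq_zero.1 this
  rw [Subgroup.mem_center_iff]
  intro g
  apply dlb_ext
  intro u
  rw [dlb_mul, dlb_mul, hall, hall, Matrix.mulVec_smul]

end DL

end Cfsg.Agent.Lib.Helper78.DFZ
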