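import Mathlib

/-!
# Ladder DFZ: blocks of `SL_n(q)` in the defining characteristic.  Definitions.

`SD G I F` : abstract "split" data of a finite group of Lie type (root `SL₂`'s `φ s`, `U`, `U⁻`, `T`).
`sg ρ R`   : the operator `∑_{r ∈ R} ρ r`.
`HasTr ρ`  : the identity of `W` is a trace from the trivial subgroup (Higman: `W` is projective).
`Irr ρ`    : irreducibility, in elementary form.
-/

set_option autoImplicit false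

namespace Cfsg.Agent.Lib.Helper78.DFZ

open Matrix

abbrev SL2 (F : Type*) [Field F] := Matrix.SpecialLinearGroup (Fin 2) F

section sl2
variable {F : Type*} [Field F]

def up (t : F) : SL2 F := ⟨!![1, t; 0, 1], by simp [det_fin_two_of]⟩
def lo (t : F) : SL2 F := ⟨!![1, 0; t, 1], by simp [det_fin_two_of]⟩
def dg (c : Fˣ) : SL2 F := ⟨!![(c : F), 0; 0, ((c⁻¹ : Fˣ) : F)], by simp [det_fin_two_of]⟩
def wn : SL2 F := ⟨!![0, 1; -1, 0], by simp [det_fin_two_of]⟩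

end sl2

/-- abstract split data -/
structure SD (G : Type*) [Group G] (I : Type*) (F : Type*) [Field F] where
  U : Subgroup G
  Um : Subgroup G
  T : Subgroup G
  Us : I → Subgroup G
  Ums : I → Subgroup G
  φ : I → (SL2 F →* G)
  n0 : G
  up_mem : ∀ s c, φ s (up c) ∈ U
  lo_mem : ∀ s c, φ s (lo c) ∈ Um
  dg_mem : ∀ s c, φ s (dg c) ∈ T
  Us_le : ∀ s, Us s ≤ U
  Ums_le : ∀ s, Ums s ≤ Um
  U_fact : ∀ s, ∀ u ∈ U, ∃! cu : F × G, cu.2 ∈ Us s ∧ u = φ s (up cu.1) * cu.2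
  Um_fact : ∀ s, ∀ u ∈ Um, ∃ c, ∃ u' ∈ Ums s, u = u' * φ s (lo c)
  T_U : ∀ t ∈ T, ∀ u ∈ U, t * u * t⁻¹ ∈ U
  T_Um : ∀ t ∈ T, ∀ u ∈ Um, t * u * t⁻¹ ∈ Um
  T_Us : ∀ s, ∀ t ∈ T, ∀ u ∈ Us s, t * u * t⁻¹ ∈ Us s
  T_lo : ∀ s, ∀ t ∈ T, ∀ c, ∃ c', t * φ s (lo c) * t⁻¹ = φ s (lo c')
  lo_Us : ∀ s c, ∀ u ∈ Us s, φ s (lo c) * u * (φ s (lo c))⁻¹ ∈ Us s
  wn_Us : ∀ s, ∀ u ∈ Us s, (φ s wn)⁻¹ * u * φ s wn ∈ Us s
  up_Ums : ∀ s c, ∀ u ∈ Ums s, φ s (up c) * u * (φ s (up c))⁻¹ ∈ Ums s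
  gen : Subgroup.closure ((Um : Set G) ∪ {g | ∃ s c, g = φ s (up c)}) = ⊤
  T_gen : T ≤ Subgroup.closure {g | ∃ s c, g = φ s (dg c)}
  T_comm : ∀ a ∈ T, ∀ b ∈ T, a * b = b * a
  n0_Um : ∀ u, u ∈ Um ↔ n0 * u * n0⁻¹ ∈ U
  n0_U : ∀ u, u ∈ U ↔ n0 * u * n0⁻¹ ∈ Um
  opp : ∀ g : G, (∃ u ∈ U, u ≠ 1 ∧ g⁻¹ * u * g ∈ U) ∨
    ∃ b b' : G, (∀ u ∈ U, b * u * b⁻¹ ∈ U) ∧ (∀ u ∈ U, b' * u * b'⁻¹ ∈ U) ∧ g = b * n0 * b'

section rep
variable {k G W : Type*} [Field k] [Group G] [Fintype G] [AddCommGroup W] [Module k W]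

open Classical in
/-- the operator `∑_{r ∈ R} ρ r` -/
noncomputable def sg (ρ : Representation k G W) (R : Subgroup G) : W →ₗ[k] W :=
  ∑ g ∈ Finset.univ.filter (fun g => g ∈ R), ρ g

/-- `id_W` is a trace from the trivial subgroup -/
def HasTr (ρ : Representation k G W) : Prop :=
  ∃ f : W →ₗ[k] W, ∑ g : G, ρ g ∘ₗ f ∘ₗ ρ g⁻¹ = LinearMap.id

/-- irreducibility -/
def Irr (ρ : Representation k G W) : Prop :=
  Nontrivial W ∧ ∀ N : Submodule k W, (∀ g, ∀ w ∈ N, ρ g w ∈ N) → N = ⊥ ∨ N = ⊤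

/-- `w` is fixed by the subgroup `R` -/
def Fx (ρ : Representation k G W) (R : Subgroup G) (w : W) : Prop := ∀ r ∈ R, ρ r w = w

/-- `w` is an eigenvector of the subgroup `R` with eigenvalues `l` -/
def Eg (ρ : Representation k G W) (R : Subgroup G) (l : G → k) (w : W) : Prop :=
  ∀ r ∈ R, ρ r w = l r • w

/-- the Hecke operator `w ↦ ∑_c x_s(c) n_s w` -/
noncomputable def Ts {I F : Type*} [Field F] [Fintype F] (D : SD G I F) (ρ : Representation k G W)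
    (s : I) : W →ₗ[k] W :=
  (∑ c : F, ρ (D.φ s (up c))) ∘ₗ ρ (D.φ s wn)

end rep

end Cfsg.Agent.Lib.Helper78.DFZ
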