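import Cfsg.Agent.Lib.Helper78.DFZ.Defs
import Cfsg.Agent.Lib.Helper17.SLRoot
import Cfsg.Agent.Lib.Helper89.UniSL

/-!
# Ladder DFZ: the objects of the split datum of `SL_{m+1}(F)`
-/

set_option autoImplicit false

namespace Cfsg.Agent.Lib.Helper78.DFZ

open Matrix

/-- `SL_{m+1}(F)` -/
abbrev GS (m : ℕ) (F : Type*) [Field F] := Matrix.SpecialLinearGroup (Fin (m + 1)) F

variable {m : ℕ} {F : Type*} [Field F]

/-- antidiagonal (monomial) matrices -/
def IsAnti (g : GS m F) : Prop := ∀ a b : Fin (m + 1), a.val + b.val ≠ m → g.1 a b = 0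

/-- upper triangular matrices -/
def IsUpper (g : GS m F) : Prop := ∀ a b : Fin (m + 1), b < a → g.1 a b = 0

/-- the plane `⟨e_s, e_{s+1}⟩` -/
def dat (m : ℕ) (F : Type*) [Field F] (s : Fin m) : Cfsg.Agent.Lib.Helper17.SLRoot.Dat F (m + 1) where
  e := Pi.single s.castSucc 1
  d := Pi.single s.succ 1
  ε := Pi.single s.castSucc 1
  η := Pi.single s.succ 1
  hεe := by simp
  hεd := by simp [Fin.castSucc_lt_succ.ne]
  hηe := by simp [Fin.castSucc_lt_succ.ne']
  hηd := by simp

/-- the root `SL₂` at the positions `s, s+1` -/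
noncomputable def ph (m : ℕ) (F : Type*) [Field F] (s : Fin m) : SL2 F →* GS m F := (dat m F s).phi

/-- conjugate subgroup `g H g⁻¹` -/
def cjS {G : Type*} [Group G] (g : G) (H : Subgroup G) : Subgroup G :=
  H.map (MulAut.conj g).toMonoidHom

variable (m F) [Finite F]

/-- upper unitriangular matrices -/
abbrev UU : Subgroup (GS m F) := Cfsg.Agent.Lib.Helper89.UT.U (m + 1) F

/-- lower unitriangular matrices (for `n0` antidiagonal) -/
def UM (n0 : GS m F) : Subgroup (GS m F) := cjS n0 (UU m F)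

/-- the torus generated by the coroots -/
noncomputable def TT : Subgroup (GS m F) := Subgroup.closure {g | ∃ s c, g = ph m F s (dg c)}

/-- `U_s = U ∩ n_s U n_s⁻¹` -/
noncomputable def US (s : Fin m) : Subgroup (GS m F) := UU m F ⊓ cjS (ph m F s wn) (UU m F)

/-- `U_s⁻` -/
noncomputable def UMS (n0 : GS m F) (s : Fin m) : Subgroup (GS m F) := UM m F n0 ⊓ cjS (ph m F s wn) (UM m F n0)

end Cfsg.Agent.Lib.Helper78.DFZ
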