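import Mathlib

/-! Ladder DFZ, wave 3: the fixed space of a subgroup of `SL_n(F)`. -/

set_option autoImplicit false

namespace Cfsg.Agent.Lib.Helper78.DFZ

open Matrix

/-- `v` is fixed by the subgroup `D` of `SL_n(F)` -/
def FixV {F : Type*} [Field F] {n : ℕ} (D : Subgroup (Matrix.SpecialLinearGroup (Fin n) F))
    (v : Fin n → F) : Prop := ∀ d ∈ D, (d : Matrix (Fin n) (Fin n) F) *ᵥ v = v

end Cfsg.Agent.Lib.Helper78.DFZ
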