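import Cfsg.Agent.Lib.Helper78.DFZ.Defs2

/-! Ladder DFZ, rung ENT (helper98). -/

set_option autoImplicit false
set_option linter.unusedSimpArgs false
set_option linter.unusedSectionVars false

namespace Cfsg.Agent.Lib.Helper78.DFZ

open Matrix

variable {m : ℕ} {F : Type*} [Field F] [Fintype F] [DecidableEq F]

theorem ph_apply (s : Fin m) (M : SL2 F) (a b : Fin (m + 1)) :
    (ph m F s M).1 a b =
      if a = s.castSucc then (if b = s.castSucc then M.1 0 0 else if b = s.succ then M.1 0 1 else 0)
      else if a = s.succ then (if b = s.castSucc then M.1 1 0 else if b = s.succ then M.1 1 1 else 0)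
      else if a = b then 1 else 0 := by
  have hne : s.castSucc ≠ s.succ := (Fin.castSucc_lt_succ (i := s)).ne
  have h1 : (ph m F s M).1 a b = ((ph m F s M).1 *ᵥ Pi.single b 1) a := by
    rw [Matrix.mulVec_single_one]; rfl
  have h2 : (ph m F s M).1 *ᵥ Pi.single b 1 = (dat m F s).LM M (Pi.single b 1) :=
    (dat m F s).phi_mulVec M _
  rw [h1, h2, Cfsg.Agent.Lib.Helper17.SLRoot.Dat.LM_apply]
  simp only [dat, single_dotProduct, one_mul, Pi.add_apply, Pi.smul_apply, smul_eq_mul,
    Pi.single_apply]
  by_cases ha : a = s.castSucc
  · subst ha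
    by_cases hb : b = s.castSucc
    · subst hb
      simp [hne, hne.symm]
    · by_cases hb' : b = s.succ
      · subst hb'
        simp [hne, hne.symm]
      · simp [hne, Ne.symm hb, Ne.symm hb', hb, hb']
  · by_cases ha' : a = s.succ
    · subst ha'
      by_cases hb : b = s.castSucc
      · subst hb
        simp [hne, hne.symm]
      · by_cases hb' : b = s.succ
        · subst hb'
          simp [hne, hne.symm]
        · simp [hne, hne.symm, Ne.symm hb, Ne.symm hb', hb, hb']
    · simp [ha, ha']

theorem ph_up (s : Fin m) (c : F) :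
    ph m F s (up c) = Matrix.SpecialLinearGroup.transvection (Fin.castSucc_lt_succ (i := s)).ne c := by
  have hne : s.castSucc ≠ s.succ := (Fin.castSucc_lt_succ (i := s)).ne
  apply Subtype.ext
  ext a b
  rw [ph_apply, Matrix.SpecialLinearGroup.transvection_coe, Matrix.add_apply, Matrix.single_apply,
    Matrix.one_apply]
  by_cases ha : a = s.castSucc
  · subst ha
    by_cases hb : b = s.castSucc
    · subst hb
      simp [up, hne, hne.symm]
    · by_cases hb' : b = s.succ
      · subst hb'
        simp [up, hne, hne.symm]
      · simp [up, hne, Ne.symm hb, Ne.symm hb', hb, hb']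
  · by_cases ha' : a = s.succ
    · subst ha'
      by_cases hb : b = s.castSucc
      · subst hb
        simp [up, hne, hne.symm]
      · by_cases hb' : b = s.succ
        · subst hb'
          simp [up, hne, hne.symm]
        · simp [up, hne, hne.symm, Ne.symm hb, Ne.symm hb', hb, hb']
    · simp [ha, ha', Ne.symm ha]

theorem ph_lo (s : Fin m) (c : F) :
    ph m F s (lo c) = Matrix.SpecialLinearGroup.transvection (Fin.castSucc_lt_succ (i := s)).ne' c := by
  have hne : s.castSucc ≠ s.succ := (Fin.castSucc_lt_succ (i := s)).ne
  apply Subtype.ext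
  ext a b
  rw [ph_apply, Matrix.SpecialLinearGroup.transvection_coe, Matrix.add_apply, Matrix.single_apply,
    Matrix.one_apply]
  by_cases ha : a = s.castSucc
  · subst ha
    by_cases hb : b = s.castSucc
    · subst hb
      simp [lo, hne, hne.symm]
    · by_cases hb' : b = s.succ
      · subst hb'
        simp [lo, hne, hne.symm]
      · simp [lo, hne, Ne.symm hb, Ne.symm hb', hb, hb']
  · by_cases ha' : a = s.succ
    · subst ha'
      by_cases hb : b = s.castSucc
      · subst hb
        simp [lo, hne, hne.symm]
      · by_cases hb' : b = s.succ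
        · subst hb'
          simp [lo, hne, hne.symm]
        · simp [lo, hne, hne.symm, Ne.symm hb, Ne.symm hb', hb, hb']
    · simp [ha, ha', Ne.symm ha']

theorem sl_up_mem (s : Fin m) (c : F) : ph m F s (up c) ∈ UU m F := by
  rw [ph_up]
  exact Cfsg.Agent.Lib.Helper89.UT.transvection_mem_U (Fin.castSucc_lt_succ (i := s)) c

end Cfsg.Agent.Lib.Helper78.DFZ
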