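import Mathlib

set_option autoImplicit false

/-! Ladder DFZ, rung ZC. -/

namespace Cfsg.Agent.Lib.Helper78.DFZ

open Matrix

theorem zc_card (K : Type*) [Field K] [Fintype K] (N : ℕ) (hN : 1 ≤ N) :
    Nat.card (Subgroup.center (Matrix.SpecialLinearGroup (Fin N) K)) =
      Nat.gcd (Fintype.card K - 1) N := by
  classical
  have e := Matrix.SpecialLinearGroup.center_equiv_rootsOfUnity' (n := Fin N) (R := K) ⟨0, hN⟩
  rw [Nat.card_congr e.toEquiv, rootsOfUnity_eq_ker, IsCyclic.card_powMonoidHom_ker,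
    Fintype.card_fin, Nat.card_eq_fintype_card, Fintype.card_units]

section SL
variable {F : Type*} [Field F] [Fintype F] {n : ℕ} {p : ℕ} [Fact p.Prime] [CharP F p]

local notation "SLn" => Matrix.SpecialLinearGroup (Fin n) F

omit [Fact p.Prime] in
theorem zc_dvd_card : p ∣ Fintype.card F := by
  obtain ⟨k, _, hk⟩ := FiniteField.card F p
  rw [hk]
  exact dvd_pow_self p k.ne_zero

theorem sl_center_not_dvd : ¬ p ∣ Nat.card (Subgroup.center SLn) := by
  have hp : p.Prime := Fact.out
  rcases Nat.eq_zero_or_pos n with rfl | hn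
  · rw [Matrix.SpecialLinearGroup.center_eq_bot_of_subsingleton, Subgroup.card_bot]
    exact hp.one_lt.ne' ∘ Nat.dvd_one.1
  · rw [zc_card F n hn]
    intro h
    have h1 : p ∣ Fintype.card F - 1 := h.trans (Nat.gcd_dvd_left _ _)
    have h2 : p ∣ Fintype.card F := zc_dvd_card
    have h4 : 0 < Fintype.card F := Fintype.card_pos
    have h5 : p ∣ 1 := by
      have := Nat.dvd_sub h2 h1
      rwa [show Fintype.card F - (Fintype.card F - 1) = 1 by omega] at this
    exact hp.one_lt.ne' (Nat.dvd_one.1 h5)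

theorem sl_center_card (q : ℕ) [Fact q.Prime] (N : ℕ) (hN : 1 ≤ N) :
    Nat.card (Subgroup.center (Matrix.SpecialLinearGroup (Fin N) (ZMod q))) = Nat.gcd N (q - 1) := by
  rw [zc_card (ZMod q) N hN, ZMod.card, Nat.gcd_comm]

theorem sl2_center_card (hp : p ≠ 2) :
    Nat.card (Subgroup.center (Matrix.SpecialLinearGroup (Fin 2) F)) = 2 := by
  rw [zc_card F 2 (by norm_num)]
  have hpp : p.Prime := Fact.out
  obtain ⟨k, _, hk⟩ := FiniteField.card F p
  have hodd : Odd (Fintype.card F) := by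
    rw [hk]
    exact (hpp.odd_of_ne_two hp).pow
  obtain ⟨j, hj⟩ := hodd
  rw [hj, Nat.add_sub_cancel]
  simp

end SL

end Cfsg.Agent.Lib.Helper78.DFZ
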