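import Cfsg.Agent.S2544
import Cfsg.Agent.S0914
import Cfsg.Agent.Lib.Helper82.CharKer
import Cfsg.Agent.Lib.Helper78.DFZ.ZC

/-! Ladder DFZ, rung EX: `SL_n(F)` has a block of defect zero (the Steinberg character). -/

set_option autoImplicit false

namespace Cfsg.Agent.Lib.Helper78.DFZ

open Cfsg

/-- a character of degree `|G|_p` forms a block of defect zero -/
theorem ex_defect_zero_of_degree {G : Type*} [Group G] [Finite G] (p : ℕ) [Fact p.Prime]
    (M : Ideal AlgInt) (hM : IsPModular p M) (χ : IrrCharacter G)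
    (h : (χ : G → ℂ) 1 = ((p ^ (Nat.card G).factorization p : ℕ) : ℂ)) :
    blockOf M (χ : G → ℂ) = {χ} ∧ IsPBlock M ({χ} : Set (IrrCharacter G)) ∧
      blockDefect p ({χ} : Set (IrrCharacter G)) = 0 := by
  have hp : p.Prime := Fact.out
  have hdeg : charDegree (χ : G → ℂ) = p ^ (Nat.card G).factorization p := by
    unfold charDegree
    rw [h, Complex.natCast_re, Nat.floor_natCast]
  have h1 : blockOf M (χ : G → ℂ) = {χ} := by
    rw [← Cfsg.Agent.S0914.result p M hM χ, hdeg]
    exact Nat.not_dvd_ordCompl hp Nat.card_pos.ne'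
  refine ⟨h1, ⟨χ, h1.symm⟩, ?_⟩
  unfold blockDefect
  rw [Set.image_singleton, csInf_singleton, hdeg, hp.factorization_pow]
  simp

theorem ex_char {F : Type*} [Field F] [Fintype F] (n : ℕ) (hn : 2 ≤ n) (p : ℕ) [Fact p.Prime]
    [CharP F p] : ∃ χ : IrrCharacter (Matrix.SpecialLinearGroup (Fin n) F),
      (χ : Matrix.SpecialLinearGroup (Fin n) F → ℂ) 1 =
        ((p ^ (Nat.card (Matrix.SpecialLinearGroup (Fin n) F)).factorization p : ℕ) : ℂ) ∧
      ∀ z ∈ Subgroup.center (Matrix.SpecialLinearGroup (Fin n) F),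
        (χ : Matrix.SpecialLinearGroup (Fin n) F → ℂ) z =
          (χ : Matrix.SpecialLinearGroup (Fin n) F → ℂ) 1 := by
  classical
  have hp : p.Prime := Fact.out
  obtain ⟨ψ, hψ, h⟩ := Cfsg.Agent.S2544.result (F := F) p n hn
  obtain ⟨P⟩ : Nonempty (Sylow p (Matrix.ProjectiveSpecialLinearGroup (Fin n) F)) := inferInstance
  have h1 := (h P).1
  refine ⟨⟨fun g => ψ (g : Matrix.SpecialLinearGroup (Fin n) F ⧸
    Subgroup.center (Matrix.SpecialLinearGroup (Fin n) F)),
    Cfsg.Agent.Lib.Helper82.isIrr_inflate hψ⟩, ?_, ?_⟩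
  · show ψ ((1 : Matrix.SpecialLinearGroup (Fin n) F) : Matrix.SpecialLinearGroup (Fin n) F ⧸
      Subgroup.center (Matrix.SpecialLinearGroup (Fin n) F)) = _
    rw [QuotientGroup.mk_one, h1, P.card_eq_multiplicity]
    have h2 := Subgroup.card_eq_card_quotient_mul_card_subgroup
      (Subgroup.center (Matrix.SpecialLinearGroup (Fin n) F))
    have h3 : (Nat.card (Subgroup.center (Matrix.SpecialLinearGroup (Fin n) F))).factorization p
        = 0 := Nat.factorization_eq_zero_of_not_dvd (sl_center_not_dvd (p := p))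
    rw [h2, Nat.factorization_mul Nat.card_pos.ne' Nat.card_pos.ne', Finsupp.add_apply, h3,
      add_zero]
  · intro z hz
    show ψ _ = ψ _
    rw [(QuotientGroup.eq_one_iff z).2 hz, QuotientGroup.mk_one]

theorem exists_defect_zero {F : Type*} [Field F] [Fintype F] (n : ℕ) (hn : 2 ≤ n) (p : ℕ) [Fact p.Prime]
    [CharP F p] (M : Ideal AlgInt) (hM : IsPModular p M) :
    ∃ B : Set (IrrCharacter (Matrix.SpecialLinearGroup (Fin n) F)), IsPBlock M B ∧ blockDefect p B = 0 := by
  obtain ⟨χ, h1, _⟩ := ex_char (F := F) n hn p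
  exact ⟨{χ}, (ex_defect_zero_of_degree p M hM χ h1).2⟩

end Cfsg.Agent.Lib.Helper78.DFZ
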