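import Cfsg.Agent.Lib.Helper78.DFZ.Defs2

/-! Ladder DFZ, rung N0 (helper98): antidiagonal matrices. -/

set_option autoImplicit false
set_option linter.unusedSectionVars false

namespace Cfsg.Agent.Lib.Helper78.DFZ

open Matrix

variable {m : ℕ} {F : Type*} [Field F] [Fintype F] [DecidableEq F]

theorem n0_rev_iff (a c : Fin (m + 1)) : a.val + c.val = m ↔ c = a.rev := by
  rw [Fin.ext_iff, Fin.val_rev]
  have := a.2
  have := c.2
  omega

theorem exists_anti (m : ℕ) (F : Type*) [Field F] : ∃ g : GS m F, IsAnti g := by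
  classical
  let σ : Equiv.Perm (Fin (m + 1)) := Fin.revPerm
  let P : Matrix (Fin (m + 1)) (Fin (m + 1)) F := σ.permMatrix F
  let d : F := ((Equiv.Perm.sign σ : ℤˣ) : ℤ)
  have hdd : d * d = 1 := by
    rcases Int.units_eq_one_or (Equiv.Perm.sign σ) with h | h
    · simp [d, h]
    · simp [d, h]
  have hdet : (P.updateRow 0 (d • P 0)).det = 1 := by
    rw [Matrix.det_updateRow_smul, Matrix.updateRow_eq_self, Matrix.det_permutation]
    exact hdd
  refine ⟨⟨P.updateRow 0 (d • P 0), hdet⟩, ?_⟩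
  intro a b hab
  have hP : ∀ x : Fin (m + 1), x.val + b.val ≠ m → P x b = 0 := by
    intro x hx
    change (σ.toPEquiv.toMatrix : Matrix _ _ F) x b = 0
    rw [PEquiv.toMatrix_apply, Equiv.toPEquiv_apply, if_neg]
    intro h
    rw [Option.mem_some_iff] at h
    apply hx
    rw [n0_rev_iff]
    exact h.symm
  change (P.updateRow 0 (d • P 0)) a b = 0
  rw [Matrix.updateRow_apply]
  split_ifs with h
  · subst h
    rw [Pi.smul_apply, hP 0 hab, smul_zero]
  · exact hP a hab

theorem anti_ne (g : GS m F) (h : IsAnti g) (a : Fin (m + 1)) : g.1 a a.rev ≠ 0 := by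
  intro h0
  have hdet : g.1.det = 0 := by
    apply Matrix.det_eq_zero_of_row_eq_zero a
    intro j
    by_cases hj : j = a.rev
    · rw [hj]; exact h0
    · exact h a j (fun e => hj ((n0_rev_iff a j).mp e))
  rw [g.2] at hdet
  exact one_ne_zero hdet

theorem n0_mul_left (g : GS m F) (h : IsAnti g) (A : Matrix (Fin (m + 1)) (Fin (m + 1)) F)
    (a b : Fin (m + 1)) : (g.1 * A) a b = g.1 a a.rev * A a.rev b := by
  rw [Matrix.mul_apply, Finset.sum_eq_single a.rev]
  · intro c _ hc
    rw [h a c (fun e => hc ((n0_rev_iff a c).mp e)), zero_mul]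
  · intro hh
    exact absurd (Finset.mem_univ _) hh

theorem n0_mul_right (g : GS m F) (h : IsAnti g) (A : Matrix (Fin (m + 1)) (Fin (m + 1)) F)
    (a b : Fin (m + 1)) : (A * g.1) a b.rev = A a b * g.1 b b.rev := by
  rw [Matrix.mul_apply, Finset.sum_eq_single b]
  · intro c _ hc
    rw [h c b.rev (fun e => hc (by
      have := (n0_rev_iff c b.rev).mp e
      exact (Fin.rev_injective this).symm)), mul_zero]
  · intro hh
    exact absurd (Finset.mem_univ _) hh

theorem anti_conj (g : GS m F) (h : IsAnti g) (A : GS m F) (a b : Fin (m + 1)) :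
    (g * A * g⁻¹).1 a b = g.1 a a.rev * A.1 a.rev b.rev * (g.1 b b.rev)⁻¹ := by
  have h1 : (g * A * g⁻¹).1 * g.1 = g.1 * A.1 := by
    rw [← Matrix.SpecialLinearGroup.coe_mul, ← Matrix.SpecialLinearGroup.coe_mul,
      inv_mul_cancel_right]
  have h2 := congrFun (congrFun h1 a) b.rev
  rw [n0_mul_right g h, n0_mul_left g h] at h2
  rw [← h2]
  exact (mul_inv_cancel_right₀ (anti_ne g h b) _).symm

end Cfsg.Agent.Lib.Helper78.DFZ
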