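import Cfsg.Agent.Lib.Helper78.DFZ.Defs2
import Cfsg.Agent.Lib.Helper78.DFZ.ENT
import Cfsg.Agent.Lib.Helper78.DFZ.N0

/-! Ladder DFZ, rung MUM (helper98). -/

set_option autoImplicit false
set_option linter.unusedSectionVars false

namespace Cfsg.Agent.Lib.Helper78.DFZ

open Matrix

variable {m : ℕ} {F : Type*} [Field F] [Fintype F] [DecidableEq F]

theorem mum_mem_cjS {G : Type*} [Group G] {g x : G} {H : Subgroup G} :
    x ∈ cjS g H ↔ g⁻¹ * x * g ∈ H := by
  unfold cjS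
  rw [Subgroup.mem_map_equiv]
  rfl

theorem mum_one_iff (g : GS m F) (h : IsAnti g) (A : GS m F) (a b : Fin (m + 1)) :
    (g * A * g⁻¹).1 a b = (1 : Matrix (Fin (m + 1)) (Fin (m + 1)) F) a b ↔
      A.1 a.rev b.rev = (1 : Matrix (Fin (m + 1)) (Fin (m + 1)) F) a.rev b.rev := by
  rw [anti_conj g h]
  by_cases hab : a = b
  · subst hab
    rw [Matrix.one_apply_eq, Matrix.one_apply_eq]
    have h0 := anti_ne g h a
    constructor
    · intro e
      field_simp at e
      exact e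
    · intro e
      rw [e]
      field_simp
  · have hab' : a.rev ≠ b.rev := fun e => hab (Fin.rev_injective e)
    rw [Matrix.one_apply_ne hab, Matrix.one_apply_ne hab']
    have h0 := anti_ne g h a
    have h1 := anti_ne g h b
    constructor
    · intro e
      rcases mul_eq_zero.mp e with e | e
      · rcases mul_eq_zero.mp e with e | e
        · exact absurd e h0
        · exact e
      · exact absurd (inv_eq_zero.mp e) h1
    · intro e
      rw [e]; simp

theorem mum_upper_iff (g : GS m F) (h : IsAnti g) (A : GS m F) :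
    g * A * g⁻¹ ∈ UU m F ↔
      ∀ a b : Fin (m + 1), a ≤ b → A.1 a b = (1 : Matrix (Fin (m + 1)) (Fin (m + 1)) F) a b := by
  rw [Cfsg.Agent.Lib.Helper89.UT.mem_U_iff]
  constructor
  · intro hA a b hab
    have := (mum_one_iff g h A a.rev b.rev).mp (hA a.rev b.rev (Fin.rev_le_rev.mpr hab))
    rwa [Fin.rev_rev, Fin.rev_rev] at this
  · intro hA a b hab
    exact (mum_one_iff g h A a b).mpr (hA a.rev b.rev (Fin.rev_le_rev.mpr hab))

theorem mum_lower_iff (g : GS m F) (h : IsAnti g) (A : GS m F) :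
    (∀ a b : Fin (m + 1), a ≤ b →
      (g * A * g⁻¹).1 a b = (1 : Matrix (Fin (m + 1)) (Fin (m + 1)) F) a b) ↔ A ∈ UU m F := by
  rw [Cfsg.Agent.Lib.Helper89.UT.mem_U_iff]
  constructor
  · intro hA a b hab
    have := (mum_one_iff g h A a.rev b.rev).mp (hA a.rev b.rev (Fin.rev_le_rev.mpr hab))
    rwa [Fin.rev_rev, Fin.rev_rev] at this
  · intro hA a b hab
    exact (mum_one_iff g h A a b).mpr (hA a.rev b.rev (Fin.rev_le_rev.mpr hab))

theorem mem_UM_iff (n0 : GS m F) (h0 : IsAnti n0) (A : GS m F) :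
    A ∈ UM m F n0 ↔ ∀ a b : Fin (m + 1), a ≤ b → A.1 a b = (1 : Matrix (Fin (m + 1)) (Fin (m + 1)) F) a b := by
  unfold UM
  rw [mum_mem_cjS, ← mum_lower_iff n0 h0 (n0⁻¹ * A * n0)]
  have : n0 * (n0⁻¹ * A * n0) * n0⁻¹ = A := by group
  rw [this]

theorem sl_lo_mem (n0 : GS m F) (h0 : IsAnti n0) (s : Fin m) (c : F) : ph m F s (lo c) ∈ UM m F n0 := by
  rw [mem_UM_iff n0 h0, ph_lo]
  intro a b hab
  rw [Matrix.SpecialLinearGroup.transvection_coe, Matrix.add_apply, Matrix.single_apply, if_neg,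
    add_zero]
  rintro ⟨rfl, rfl⟩
  exact absurd (Fin.castSucc_lt_succ (i := s)) (not_lt.mpr hab)

theorem sl_n0_Um (n0 : GS m F) (h0 : IsAnti n0) (u : GS m F) :
    u ∈ UM m F n0 ↔ n0 * u * n0⁻¹ ∈ UU m F := by
  rw [mem_UM_iff n0 h0, mum_upper_iff n0 h0]

theorem sl_n0_U (n0 : GS m F) (h0 : IsAnti n0) (u : GS m F) :
    u ∈ UU m F ↔ n0 * u * n0⁻¹ ∈ UM m F n0 := by
  rw [mem_UM_iff n0 h0, mum_lower_iff n0 h0]

end Cfsg.Agent.Lib.Helper78.DFZ
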