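import Cfsg.Agent.Lib.Helper78.DFZ.ENT
import Cfsg.Agent.Lib.Helper78.DFZ.MUM

set_option autoImplicit false

/-! Ladder DFZ, rung MUS. -/

namespace Cfsg.Agent.Lib.Helper78.DFZ

open Matrix

variable {m : ℕ} {F : Type*} [Field F] [Fintype F] [DecidableEq F]

theorem mus_ne (s : Fin m) : s.castSucc ≠ s.succ := (Fin.castSucc_lt_succ (i := s)).ne

/-- left multiplication by the root `SL₂` -/
theorem mus_ph_mul (s : Fin m) (M : SL2 F) (A : GS m F) (a b : Fin (m + 1)) :
    (ph m F s M * A).1 a b =
      if a = s.castSucc then M.1 0 0 * A.1 s.castSucc b + M.1 0 1 * A.1 s.succ b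
      else if a = s.succ then M.1 1 0 * A.1 s.castSucc b + M.1 1 1 * A.1 s.succ b
      else A.1 a b := by
  have hne := mus_ne s
  rw [Matrix.SpecialLinearGroup.coe_mul, Matrix.mul_apply]
  simp only [ph_apply]
  have key : ∀ x y : F, ∑ c : Fin (m + 1),
      (if c = s.castSucc then x else if c = s.succ then y else 0) * A.1 c b =
      x * A.1 s.castSucc b + y * A.1 s.succ b := by
    intro x y
    have : ∀ c : Fin (m + 1), (if c = s.castSucc then x else if c = s.succ then y else 0) * A.1 c b
        = (if c = s.castSucc then x * A.1 c b else 0) + (if c = s.succ then y * A.1 c b else 0) := by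
      intro c
      by_cases h1 : c = s.castSucc
      · subst h1; simp [hne]
      · by_cases h2 : c = s.succ
        · subst h2; simp [hne.symm]
        · simp [h1, h2]
    simp only [this, Finset.sum_add_distrib, Finset.sum_ite_eq', Finset.mem_univ, if_true]
  by_cases h1 : a = s.castSucc
  · simp only [h1, if_true]
    exact key _ _
  · by_cases h2 : a = s.succ
    · simp only [h2, hne.symm, if_true, if_false]
      exact key _ _
    · simp only [h1, h2, if_false]
      simp

/-- right multiplication by the root `SL₂` -/
theorem mus_mul_ph (s : Fin m) (M : SL2 F) (A : GS m F) (a b : Fin (m + 1)) :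
    (A * ph m F s M).1 a b =
      if b = s.castSucc then A.1 a s.castSucc * M.1 0 0 + A.1 a s.succ * M.1 1 0
      else if b = s.succ then A.1 a s.castSucc * M.1 0 1 + A.1 a s.succ * M.1 1 1
      else A.1 a b := by
  have hne := mus_ne s
  rw [Matrix.SpecialLinearGroup.coe_mul, Matrix.mul_apply]
  simp only [ph_apply]
  have key : ∀ x y z : F, ∑ c : Fin (m + 1),
      A.1 a c * (if c = s.castSucc then x else if c = s.succ then y else if c = b then z else 0) =
      A.1 a s.castSucc * x + A.1 a s.succ * y +
        (if b = s.castSucc then 0 else if b = s.succ then 0 else A.1 a b * z) := by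
    intro x y z
    have : ∀ c : Fin (m + 1),
        A.1 a c * (if c = s.castSucc then x else if c = s.succ then y else if c = b then z else 0)
        = (if c = s.castSucc then A.1 a c * x else 0) + (if c = s.succ then A.1 a c * y else 0) +
          (if c = b then (if b = s.castSucc then 0 else if b = s.succ then 0 else A.1 a c * z) else 0) := by
      intro c
      by_cases h1 : c = s.castSucc
      · subst h1
        by_cases h3 : s.castSucc = b
        · simp [hne, ← h3]
        · simp [hne, h3]
      · by_cases h2 : c = s.succ
        · subst h2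
          by_cases h3 : s.succ = b
          · simp [hne.symm, ← h3]
          · simp [hne.symm, h3]
        · by_cases h3 : c = b
          · subst h3; simp [h1, h2]
          · simp [h1, h2, h3]
    simp only [this, Finset.sum_add_distrib, Finset.sum_ite_eq', Finset.mem_univ, if_true]
  by_cases h1 : b = s.castSucc
  · subst h1
    have := key (M.1 0 0) (M.1 1 0) 1
    simp only [if_true, add_zero] at this
    simp only [if_true, hne, if_false]
    rw [← this]
  · by_cases h2 : b = s.succ
    · subst h2
      have := key (M.1 0 1) (M.1 1 1) 1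
      simp only [hne.symm, if_true, if_false, add_zero] at this
      simp only [hne.symm, if_true, if_false]
      rw [← this]
    · have := key 0 0 1
      simp only [h1, h2, if_false, mul_zero, zero_add, mul_one] at this
      simp only [h1, h2, if_false]
      rw [← this]

theorem mus_mem_cjS {G : Type*} [Group G] (g : G) (H : Subgroup G) (A : G) :
    A ∈ cjS g H ↔ g⁻¹ * A * g ∈ H := by
  unfold cjS
  rw [Subgroup.mem_map]
  constructor
  · rintro ⟨u, hu, rfl⟩
    simpa [MulAut.conj_apply, mul_assoc] using hu
  · intro h
    exact ⟨g⁻¹ * A * g, h, by simp [MulAut.conj_apply, mul_assoc]⟩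

/-- the inverse of `wn` -/
def wni : SL2 F := ⟨!![0, -1; 1, 0], by simp [det_fin_two_of]⟩

theorem mus_wn_inv : (wn : SL2 F)⁻¹ = wni := by
  rw [inv_eq_iff_mul_eq_one]
  apply Subtype.ext
  rw [Matrix.SpecialLinearGroup.coe_mul]
  show (!![0, 1; -1, 0] : Matrix (Fin 2) (Fin 2) F) * !![0, -1; 1, 0] = 1
  rw [Matrix.mul_fin_two, Matrix.one_fin_two]
  simp

/-- conjugation by `n_s⁻¹` -/
theorem mus_conj (s : Fin m) (A : GS m F) (a b : Fin (m + 1)) :
    ((ph m F s wn)⁻¹ * A * ph m F s wn).1 a b =
      if b = s.castSucc then
        (if a = s.castSucc then A.1 s.succ s.succ else if a = s.succ then - A.1 s.castSucc s.succ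
          else - A.1 a s.succ)
      else if b = s.succ then
        (if a = s.castSucc then - A.1 s.succ s.castSucc else if a = s.succ then A.1 s.castSucc s.castSucc
          else A.1 a s.castSucc)
      else
        (if a = s.castSucc then - A.1 s.succ b else if a = s.succ then A.1 s.castSucc b
          else A.1 a b) := by
  rw [← map_inv, mus_wn_inv, mus_mul_ph]
  simp only [mus_ph_mul]
  have hne := mus_ne s
  by_cases hb1 : b = s.castSucc <;> by_cases hb2 : b = s.succ <;>
    by_cases ha1 : a = s.castSucc <;> by_cases ha2 : a = s.succ <;>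
    simp [hb1, hb2, ha1, ha2, wn, wni, hne, hne.symm]

theorem mem_US_iff (s : Fin m) (A : GS m F) :
    A ∈ US m F s ↔ A ∈ UU m F ∧ A.1 s.castSucc s.succ = 0 := by
  have hne := mus_ne s
  have hlt : s.castSucc < s.succ := Fin.castSucc_lt_succ
  unfold US
  rw [Subgroup.mem_inf, mus_mem_cjS]
  refine and_congr_right fun hU => ?_
  constructor
  · intro h
    have h1 := Cfsg.Agent.Lib.Helper89.UT.U_apply_lt h hlt
    rw [mus_conj] at h1
    simpa [hne.symm] using h1
  · intro h0 a b hab
    rw [mus_conj]
    have hv1 : (s.castSucc : Fin (m + 1)).val = s.val := rfl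
    have hv2 : (s.succ : Fin (m + 1)).val = s.val + 1 := rfl
    have hz : ∀ x y : Fin (m + 1), y.val < x.val → A.1 x y = 0 := fun x y hxy =>
      Cfsg.Agent.Lib.Helper89.UT.U_apply_lt hU (Fin.lt_def.2 hxy)
    have ho : ∀ x : Fin (m + 1), A.1 x x = 1 := fun x =>
      Cfsg.Agent.Lib.Helper89.UT.U_apply_self hU x
    have hab' : b.val ≤ a.val := hab
    by_cases hb1 : b = s.castSucc
    · subst hb1
      by_cases ha1 : a = s.castSucc
      · subst ha1; simp [ho]
      · by_cases ha2 : a = s.succ
        · subst ha2; simp [hne.symm, h0]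
        · have h3 : a.val ≠ s.val := fun h => ha1 (Fin.ext h)
          have h4 : a.val ≠ s.val + 1 := fun h => ha2 (Fin.ext h)
          rw [hz a s.succ (by omega)]
          simp [ha1, ha2]
    · by_cases hb2 : b = s.succ
      · subst hb2
        by_cases ha1 : a = s.castSucc
        · subst ha1; omega
        · by_cases ha2 : a = s.succ
          · subst ha2; simp [hne.symm, ho]
          · have h4 : a.val ≠ s.val + 1 := fun h => ha2 (Fin.ext h)
            rw [hz a s.castSucc (by omega)]
            simp [ha1, ha2, hne.symm]
      · have h5 : b.val ≠ s.val := fun h => hb1 (Fin.ext h)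
        have h6 : b.val ≠ s.val + 1 := fun h => hb2 (Fin.ext h)
        by_cases ha1 : a = s.castSucc
        · subst ha1
          rw [hz s.succ b (by omega)]
          simp [hb1, hb2, Ne.symm hb1]
        · by_cases ha2 : a = s.succ
          · subst ha2
            rw [hz s.castSucc b (by omega)]
            simp [hb1, hb2, hne.symm, Ne.symm hb2]
          · simp only [hb1, hb2, ha1, ha2, if_false]
            exact hU a b hab

theorem mem_UMS_iff (n0 : GS m F) (h0 : IsAnti n0) (s : Fin m) (A : GS m F) :
    A ∈ UMS m F n0 s ↔ A ∈ UM m F n0 ∧ A.1 s.succ s.castSucc = 0 := by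
  have hne := mus_ne s
  have hlt : s.castSucc < s.succ := Fin.castSucc_lt_succ
  unfold UMS
  rw [Subgroup.mem_inf, mus_mem_cjS]
  refine and_congr_right fun hU => ?_
  rw [mem_UM_iff n0 h0] at hU ⊢
  constructor
  · intro h
    have h1 := h _ _ hlt.le
    rw [mus_conj] at h1
    simpa [hne, hne.symm] using h1
  · intro h0 a b hab
    rw [mus_conj]
    have hv1 : (s.castSucc : Fin (m + 1)).val = s.val := rfl
    have hv2 : (s.succ : Fin (m + 1)).val = s.val + 1 := rfl
    have hz : ∀ x y : Fin (m + 1), x.val < y.val → A.1 x y = 0 := fun x y hxy => by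
      rw [hU x y (Fin.le_def.2 hxy.le), Matrix.one_apply_ne (fun h => by subst h; omega)]
    have ho : ∀ x : Fin (m + 1), A.1 x x = 1 := fun x => by
      rw [hU x x le_rfl, Matrix.one_apply_eq]
    have hab' : a.val ≤ b.val := hab
    by_cases hb1 : b = s.castSucc
    · subst hb1
      by_cases ha1 : a = s.castSucc
      · subst ha1; simp [ho]
      · by_cases ha2 : a = s.succ
        · subst ha2; omega
        · have h3 : a.val ≠ s.val := fun h => ha1 (Fin.ext h)
          rw [hz a s.succ (by omega)]
          simp [ha1, ha2]
    · by_cases hb2 : b = s.succ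
      · subst hb2
        by_cases ha1 : a = s.castSucc
        · subst ha1; simp [hne, hne.symm, h0]
        · by_cases ha2 : a = s.succ
          · subst ha2; simp [hne.symm, ho]
          · have h3 : a.val ≠ s.val := fun h => ha1 (Fin.ext h)
            have h4 : a.val ≠ s.val + 1 := fun h => ha2 (Fin.ext h)
            rw [hz a s.castSucc (by omega)]
            simp [ha1, ha2, hne.symm]
      · have h5 : b.val ≠ s.val := fun h => hb1 (Fin.ext h)
        have h6 : b.val ≠ s.val + 1 := fun h => hb2 (Fin.ext h)
        by_cases ha1 : a = s.castSucc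
        · subst ha1
          rw [hz s.succ b (by omega)]
          simp [hb1, hb2, Ne.symm hb1]
        · by_cases ha2 : a = s.succ
          · subst ha2
            rw [hz s.castSucc b (by omega)]
            simp [hb1, hb2, hne.symm, Ne.symm hb2]
          · simp only [hb1, hb2, ha1, ha2, if_false]
            exact hU a b hab

end Cfsg.Agent.Lib.Helper78.DFZ
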