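import Cfsg.Agent.Lib.Helper78.DFZ.Defs2
import Cfsg.Agent.Lib.Helper78.DFZ.ENT
import Cfsg.Agent.Lib.Helper78.DFZ.MUM
import Cfsg.Agent.Lib.Helper78.DFZ.MUS

/-! Ladder DFZ, rung FACT (helper98). -/

set_option autoImplicit false
set_option linter.unusedSectionVars false

namespace Cfsg.Agent.Lib.Helper78.DFZ

open Matrix

variable {m : ℕ} {F : Type*} [Field F] [Fintype F] [DecidableEq F]

theorem fact_up_neg (a : F) : up a * up (-a) = 1 := by
  apply Subtype.ext
  change (!![1, a; 0, 1] * !![1, -a; 0, 1] : Matrix (Fin 2) (Fin 2) F) = 1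
  rw [Matrix.one_fin_two]
  simp

theorem fact_lo_neg (a : F) : lo (-a) * lo a = 1 := by
  apply Subtype.ext
  change (!![1, 0; -a, 1] * !![1, 0; a, 1] : Matrix (Fin 2) (Fin 2) F) = 1
  rw [Matrix.one_fin_two]
  simp

theorem fact_up_mul (s : Fin m) (c : F) (A : GS m F) :
    (ph m F s (up c) * A).1 s.castSucc s.succ = A.1 s.castSucc s.succ + c * A.1 s.succ s.succ := by
  rw [ph_up, Matrix.SpecialLinearGroup.coe_mul, Matrix.SpecialLinearGroup.transvection_coe, add_mul,
    one_mul, Matrix.add_apply, Matrix.single_mul_apply_same]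

theorem fact_mul_lo (s : Fin m) (c : F) (A : GS m F) :
    (A * ph m F s (lo c)).1 s.succ s.castSucc = A.1 s.succ s.castSucc + A.1 s.succ s.succ * c := by
  rw [ph_lo, Matrix.SpecialLinearGroup.coe_mul, Matrix.SpecialLinearGroup.transvection_coe, mul_add,
    mul_one, Matrix.add_apply, Matrix.mul_single_apply_same]

theorem sl_U_fact (s : Fin m) : ∀ u ∈ UU m F, ∃! cu : F × GS m F,
    cu.2 ∈ US m F s ∧ u = ph m F s (up cu.1) * cu.2 := by
  intro u hu
  have hinv : ∀ c : F, ph m F s (up c) * ph m F s (up (-c)) = 1 := by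
    intro c
    rw [← map_mul, fact_up_neg, map_one]
  refine ⟨(u.1 s.castSucc s.succ, ph m F s (up (-(u.1 s.castSucc s.succ))) * u), ⟨?_, ?_⟩, ?_⟩
  · rw [mem_US_iff]
    refine ⟨(UU m F).mul_mem (sl_up_mem s _) hu, ?_⟩
    rw [fact_up_mul, Cfsg.Agent.Lib.Helper89.UT.U_apply_self hu]
    ring
  · change u = ph m F s (up (u.1 s.castSucc s.succ)) *
      (ph m F s (up (-(u.1 s.castSucc s.succ))) * u)
    rw [← mul_assoc, hinv, one_mul]
  · rintro ⟨c', u'⟩ ⟨h1, h2⟩
    change u' ∈ US m F s at h1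
    change u = ph m F s (up c') * u' at h2
    rw [mem_US_iff] at h1
    have hc : u.1 s.castSucc s.succ = c' := by
      rw [h2, fact_up_mul, h1.2, Cfsg.Agent.Lib.Helper89.UT.U_apply_self h1.1]
      ring
    rw [hc]
    refine Prod.ext rfl ?_
    change u' = ph m F s (up (-c')) * u
    have hinv' : ph m F s (up (-c')) * ph m F s (up c') = 1 := by
      have := hinv (-c')
      rwa [neg_neg] at this
    rw [h2, ← mul_assoc, hinv', one_mul]

theorem sl_Um_fact (n0 : GS m F) (h0 : IsAnti n0) (s : Fin m) : ∀ u ∈ UM m F n0,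
    ∃ c, ∃ u' ∈ UMS m F n0 s, u = u' * ph m F s (lo c) := by
  intro u hu
  refine ⟨u.1 s.succ s.castSucc, u * ph m F s (lo (-(u.1 s.succ s.castSucc))), ?_, ?_⟩
  · rw [mem_UMS_iff n0 h0]
    refine ⟨(UM m F n0).mul_mem hu (sl_lo_mem n0 h0 s _), ?_⟩
    have h1 : u.1 s.succ s.succ = 1 := by
      rw [(mem_UM_iff n0 h0 u).mp hu _ _ le_rfl, Matrix.one_apply_eq]
    rw [fact_mul_lo, h1]
    ring
  · rw [mul_assoc, ← map_mul, fact_lo_neg, map_one, mul_one]

end Cfsg.Agent.Lib.Helper78.DFZ
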