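import Cfsg.Agent.Lib.Helper78.DFZ.ENT
import Cfsg.Agent.Lib.Helper78.DFZ.MUM
import Cfsg.Agent.Lib.Helper89.UniSLGen
import Cfsg.Agent.Lib.Helper45.SLGen

set_option autoImplicit false

/-! Ladder DFZ, rung GEN. -/

namespace Cfsg.Agent.Lib.Helper78.DFZ

open Matrix

variable {m : ℕ} {F : Type*} [Field F] [Fintype F] [DecidableEq F]

theorem gen_lower (n0 : GS m F) (h0 : IsAnti n0) {i j : Fin (m + 1)} (h : j < i) (hij : i ≠ j)
    (c : F) : Matrix.SpecialLinearGroup.transvection hij c ∈ UM m F n0 := by
  rw [mem_UM_iff n0 h0]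
  intro a b hab
  rw [Matrix.SpecialLinearGroup.transvection_coe, Matrix.add_apply, Matrix.single_apply, if_neg,
    add_zero]
  rintro ⟨rfl, rfl⟩
  exact absurd h (not_lt.2 hab)

theorem gen_simple (H : Subgroup (GS m F)) (hH : ∀ s c, ph m F s (up c) ∈ H) (s : Fin m)
    (i j : Fin (m + 1)) (hi : i = s.castSucc) (hj : j = s.succ) (hij : i ≠ j) (c : F) :
    Matrix.SpecialLinearGroup.transvection hij c ∈ H := by
  subst hi hj
  have := hH s c
  rw [ph_up] at this
  exact this

theorem gen_upper (H : Subgroup (GS m F)) (hH : ∀ s c, ph m F s (up c) ∈ H) :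
    ∀ d : ℕ, ∀ i j : Fin (m + 1), i.val + d + 1 = j.val → ∀ (hij : i ≠ j) (c : F),
      Matrix.SpecialLinearGroup.transvection hij c ∈ H := by
  intro d
  induction d with
  | zero =>
    intro i j hd hij c
    have hs : i.val < m := by have := j.2; omega
    exact gen_simple H hH ⟨i.val, hs⟩ i j (Fin.ext rfl) (Fin.ext (by simp; omega)) hij c
  | succ d ih =>
    intro i j hd hij c
    have hk : i.val + 1 < m + 1 := by have := j.2; omega
    set k : Fin (m + 1) := ⟨i.val + 1, hk⟩ with hkdef
    have hik : i ≠ k := fun h => by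
      have := congrArg Fin.val h
      simp [hkdef] at this
    have hkj : k ≠ j := fun h => by
      have := congrArg Fin.val h
      simp [hkdef] at this
      omega
    have h1 : Matrix.SpecialLinearGroup.transvection hkj (1 : F) ∈ H :=
      ih k j (by simp [hkdef]; omega) hkj 1
    have h2 : Matrix.SpecialLinearGroup.transvection hik c ∈ H := by
      have hs : i.val < m := by omega
      exact gen_simple H hH ⟨i.val, hs⟩ i k (Fin.ext rfl) (Fin.ext rfl) hik c
    have h3 := Cfsg.Agent.Lib.Helper89.UT.tv_conj2 hij hik hkj c (1 : F)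
    rw [mul_one] at h3
    have h4 : Matrix.SpecialLinearGroup.transvection hij c =
        (Matrix.SpecialLinearGroup.transvection hkj (1 : F))⁻¹ *
          (Matrix.SpecialLinearGroup.transvection hik c *
            Matrix.SpecialLinearGroup.transvection hkj 1 *
            (Matrix.SpecialLinearGroup.transvection hik c)⁻¹) := by
      rw [h3, inv_mul_cancel_left]
    rw [h4]
    exact H.mul_mem (H.inv_mem h1) (H.mul_mem (H.mul_mem h2 h1) (H.inv_mem h2))

theorem sl_gen (n0 : GS m F) (h0 : IsAnti n0) :
    Subgroup.closure (((UM m F n0 : Subgroup (GS m F)) : Set (GS m F)) ∪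
      {g | ∃ s c, g = ph m F s (up c)}) = ⊤ := by
  rcases Nat.eq_zero_or_pos m with rfl | hm
  · rw [Subgroup.eq_top_iff']
    intro x
    haveI : Subsingleton (Fin (0 + 1)) := ⟨fun a b => by omega⟩
    have : x = 1 := Subsingleton.elim _ _
    rw [this]
    exact Subgroup.one_mem _
  · haveI : Nontrivial (Fin (m + 1)) := Fin.nontrivial_iff_two_le.2 (by omega)
    apply Cfsg.Agent.Lib.Helper45.eq_top_of_transvections
    intro i j hij c
    rcases lt_or_gt_of_ne hij with h | h
    · have hlt : i.val < j.val := h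
      exact gen_upper _ (fun s c => Subgroup.subset_closure (Or.inr ⟨s, c, rfl⟩))
        (j.val - i.val - 1) i j (by omega) hij c
    · exact Subgroup.subset_closure (Or.inl (gen_lower n0 h0 h hij c))

end Cfsg.Agent.Lib.Helper78.DFZ
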