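import Cfsg.Agent.Lib.Helper78.DFZ.SLSD
import Cfsg.Agent.Lib.Helper78.DFZ.BR2
import Cfsg.Agent.Lib.Helper78.DFZ.DB1
import Cfsg.Agent.Lib.Helper78.DFZ.DLC
import Cfsg.Agent.Lib.Helper78.DFZ.DLD

/-! Ladder DFZ: blocks of `SL_n(F)` in the defining characteristic: at most one block of defect
zero; every block has defect zero or full defect. -/

set_option autoImplicit false

namespace Cfsg.Agent.Lib.Helper78.DFZ

open Cfsg Matrix

variable {F : Type*} [Field F] [Fintype F] {n : ℕ} {p : ℕ} [Fact p.Prime] [CharP F p]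

local notation "SLn" => Matrix.SpecialLinearGroup (Fin n) F

theorem scalar_of_radical (D : Subgroup SLn) (hD : IsPGroup p D) (hne : D ≠ ⊥)
    (hrad : ∀ R : Subgroup SLn, IsPGroup p R → R ≤ Subgroup.normalizer (D : Set SLn) →
      Subgroup.normalizer (D : Set SLn) ≤ Subgroup.normalizer (R : Set SLn) → R ≤ D)
    (x : SLn) (hx : ¬ p ∣ orderOf x) (hc : ∀ d ∈ D, d * x = x * d) :
    x ∈ Subgroup.center SLn := by
  obtain ⟨φ, h0, hφ, hv⟩ := dl_phi (p := p) D hD hne
  obtain ⟨c, hs⟩ := dl_scalar_on_fix D (dl_R_le (p := p) D hrad) φ h0 hφ hv x hc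
  exact dl_central (p := p) D hD x hx hc c hs

/-- every block of `SL_n(F)` has defect zero or full defect -/
theorem dichotomy {M : Ideal AlgInt} (hM : IsPModular p M)
    (B : Set (IrrCharacter SLn)) (hB : IsPBlock M B) :
    blockDefect p B = 0 ∨ blockDefect p B = (Nat.card SLn).factorization p := by
  classical
  obtain ⟨D, hD⟩ := Cfsg.Agent.Lib.Helper21.exists_isDefectGroup hM B hB
  have hcard := Cfsg.Agent.Lib.Helper21.card_defectGroup hM B hB D hD
  have hp : p.Prime := Fact.out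
  by_cases hne : D = ⊥
  · left
    rw [hne, Subgroup.card_bot] at hcard
    by_contra h
    have : 1 < p ^ blockDefect p B := Nat.one_lt_pow h hp.one_lt
    omega
  · right
    obtain ⟨x, hx, hc, hfull⟩ := defect_regular hM B hB D hD
    have hDp : IsPGroup p D := IsPGroup.of_card hcard
    have := scalar_of_radical (p := p) D hDp hne
      (fun R hR h1 h2 => defect_radical hM B hB D hD R hR h1 h2) x hx hc
    have h3 := hfull this
    rw [hcard] at h3
    exact Nat.pow_right_injective hp.two_le h3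

/-- at most one block of defect zero -/
theorem sl_unique_zero (hn : 1 ≤ n) {M : Ideal AlgInt} (hM : IsPModular p M)
    (B₁ B₂ : Set (IrrCharacter SLn)) (h₁ : IsPBlock M B₁) (h₂ : IsPBlock M B₂)
    (d₁ : blockDefect p B₁ = 0) (d₂ : blockDefect p B₂ = 0) : B₁ = B₂ := by
  classical
  obtain ⟨m, rfl⟩ : ∃ m, n = m + 1 := ⟨n - 1, by omega⟩
  obtain ⟨n0, h0⟩ := exists_anti m F
  exact unique_defect_zero (p := p) (slSD m F n0 h0) (Cfsg.Agent.Lib.Helper89.UT.isPGroup_U p)
    (sl_T_card p) hM B₁ B₂ h₁ h₂ d₁ d₂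

end Cfsg.Agent.Lib.Helper78.DFZ
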