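import Cfsg.Agent.Lib.Helper78.DFZ.MUS

set_option autoImplicit false

/-! Ladder DFZ, rung NRM. -/

namespace Cfsg.Agent.Lib.Helper78.DFZ

open Matrix

variable {m : ℕ} {F : Type*} [Field F] [Fintype F] [DecidableEq F]

omit [Fintype F] [DecidableEq F] in
theorem nrm_det (M : SL2 F) : M.1 0 0 * M.1 1 1 - M.1 0 1 * M.1 1 0 = 1 := by
  have := M.2
  rwa [Matrix.det_fin_two] at this

omit [Fintype F] [DecidableEq F] in
theorem nrm_inv (M : SL2 F) : (M⁻¹).1 0 0 = M.1 1 1 ∧ (M⁻¹).1 0 1 = - M.1 0 1 ∧
    (M⁻¹).1 1 0 = - M.1 1 0 ∧ (M⁻¹).1 1 1 = M.1 0 0 := by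
  rw [Matrix.SpecialLinearGroup.SL2_inv_expl]
  simp

/-- entries of a conjugate by the root `SL₂` -/
theorem nrm_conj (s : Fin m) (M : SL2 F) (A : GS m F) (a b : Fin (m + 1)) :
    (ph m F s M * A * (ph m F s M)⁻¹).1 a b =
      if b = s.castSucc then
        (if a = s.castSucc then
          (M.1 0 0 * A.1 s.castSucc s.castSucc + M.1 0 1 * A.1 s.succ s.castSucc) * M.1 1 1
            + (M.1 0 0 * A.1 s.castSucc s.succ + M.1 0 1 * A.1 s.succ s.succ) * (- M.1 1 0)
        else if a = s.succ then
          (M.1 1 0 * A.1 s.castSucc s.castSucc + M.1 1 1 * A.1 s.succ s.castSucc) * M.1 1 1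
            + (M.1 1 0 * A.1 s.castSucc s.succ + M.1 1 1 * A.1 s.succ s.succ) * (- M.1 1 0)
        else A.1 a s.castSucc * M.1 1 1 + A.1 a s.succ * (- M.1 1 0))
      else if b = s.succ then
        (if a = s.castSucc then
          (M.1 0 0 * A.1 s.castSucc s.castSucc + M.1 0 1 * A.1 s.succ s.castSucc) * (- M.1 0 1)
            + (M.1 0 0 * A.1 s.castSucc s.succ + M.1 0 1 * A.1 s.succ s.succ) * M.1 0 0
        else if a = s.succ then
          (M.1 1 0 * A.1 s.castSucc s.castSucc + M.1 1 1 * A.1 s.succ s.castSucc) * (- M.1 0 1)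
            + (M.1 1 0 * A.1 s.castSucc s.succ + M.1 1 1 * A.1 s.succ s.succ) * M.1 0 0
        else A.1 a s.castSucc * (- M.1 0 1) + A.1 a s.succ * M.1 0 0)
      else
        (if a = s.castSucc then M.1 0 0 * A.1 s.castSucc b + M.1 0 1 * A.1 s.succ b
         else if a = s.succ then M.1 1 0 * A.1 s.castSucc b + M.1 1 1 * A.1 s.succ b
         else A.1 a b) := by
  obtain ⟨e00, e01, e10, e11⟩ := nrm_inv M
  rw [← map_inv, mus_mul_ph]
  simp only [mus_ph_mul, e00, e01, e10, e11]
  have hne := mus_ne s
  by_cases hb1 : b = s.castSucc <;> by_cases hb2 : b = s.succ <;>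
    by_cases ha1 : a = s.castSucc <;> by_cases ha2 : a = s.succ <;>
    simp [hb1, hb2, ha1, ha2, hne, hne.symm]

/-- the root `SL₂` normalises `U_s` -/
theorem nrm_Us (s : Fin m) (M : SL2 F) : ∀ u ∈ US m F s,
    ph m F s M * u * (ph m F s M)⁻¹ ∈ US m F s := by
  intro A hA
  rw [mem_US_iff] at hA ⊢
  obtain ⟨hU, h0⟩ := hA
  have hne := mus_ne s
  have hdet := nrm_det M
  have hv1 : (s.castSucc : Fin (m + 1)).val = s.val := rfl
  have hv2 : (s.succ : Fin (m + 1)).val = s.val + 1 := rfl
  have hz : ∀ x y : Fin (m + 1), y.val < x.val → A.1 x y = 0 := fun x y hxy =>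
    Cfsg.Agent.Lib.Helper89.UT.U_apply_lt hU (Fin.lt_def.2 hxy)
  have ho : ∀ x : Fin (m + 1), A.1 x x = 1 := fun x =>
    Cfsg.Agent.Lib.Helper89.UT.U_apply_self hU x
  have hji : A.1 s.succ s.castSucc = 0 := hz _ _ (by omega)
  constructor
  · intro a b hab
    rw [nrm_conj]
    have hab' : b.val ≤ a.val := hab
    by_cases hb1 : b = s.castSucc
    · subst hb1
      by_cases ha1 : a = s.castSucc
      · subst ha1
        simp only [if_true, ho, h0, hji, Matrix.one_apply_eq]
        linear_combination hdet
      · by_cases ha2 : a = s.succ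
        · subst ha2
          simp only [if_true, hne.symm, if_false, ho, h0, hji, Matrix.one_apply_ne hne.symm]
          ring
        · have h3 : a.val ≠ s.val := fun h => ha1 (Fin.ext h)
          have h4 : a.val ≠ s.val + 1 := fun h => ha2 (Fin.ext h)
          rw [hz a s.succ (by omega), hz a s.castSucc (by omega)]
          simp [ha1, ha2]
    · by_cases hb2 : b = s.succ
      · subst hb2
        by_cases ha1 : a = s.castSucc
        · subst ha1; omega
        · by_cases ha2 : a = s.succ
          · subst ha2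
            simp only [if_true, hne.symm, if_false, ho, h0, hji, Matrix.one_apply_eq]
            linear_combination hdet
          · have h4 : a.val ≠ s.val + 1 := fun h => ha2 (Fin.ext h)
            rw [hz a s.castSucc (by omega), hz a s.succ (by omega)]
            simp [ha1, ha2, hne.symm]
      · have h5 : b.val ≠ s.val := fun h => hb1 (Fin.ext h)
        have h6 : b.val ≠ s.val + 1 := fun h => hb2 (Fin.ext h)
        by_cases ha1 : a = s.castSucc
        · subst ha1
          rw [hz s.succ b (by omega), hz s.castSucc b (by omega)]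
          simp [hb1, hb2, Ne.symm hb1]
        · by_cases ha2 : a = s.succ
          · subst ha2
            rw [hz s.castSucc b (by omega), hz s.succ b (by omega)]
            simp [hb1, hb2, hne.symm, Ne.symm hb2]
          · simp only [hb1, hb2, ha1, ha2, if_false]
            exact hU a b hab
  · rw [nrm_conj]
    simp only [if_true, hne.symm, if_false, ho, h0, hji]
    ring

/-- the root `SL₂` normalises `U_s⁻` -/
theorem nrm_Ums (n0 : GS m F) (h0 : IsAnti n0) (s : Fin m) (M : SL2 F) : ∀ u ∈ UMS m F n0 s,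
    ph m F s M * u * (ph m F s M)⁻¹ ∈ UMS m F n0 s := by
  intro A hA
  rw [mem_UMS_iff n0 h0, mem_UM_iff n0 h0] at hA ⊢
  obtain ⟨hU, hji⟩ := hA
  have hne := mus_ne s
  have hdet := nrm_det M
  have hv1 : (s.castSucc : Fin (m + 1)).val = s.val := rfl
  have hv2 : (s.succ : Fin (m + 1)).val = s.val + 1 := rfl
  have hz : ∀ x y : Fin (m + 1), x.val < y.val → A.1 x y = 0 := fun x y hxy => by
    rw [hU x y (Fin.le_def.2 hxy.le), Matrix.one_apply_ne (fun h => by subst h; omega)]
  have ho : ∀ x : Fin (m + 1), A.1 x x = 1 := fun x => by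
    rw [hU x x le_rfl, Matrix.one_apply_eq]
  have h0' : A.1 s.castSucc s.succ = 0 := hz _ _ (by omega)
  constructor
  · intro a b hab
    rw [nrm_conj]
    have hab' : a.val ≤ b.val := hab
    by_cases hb1 : b = s.castSucc
    · subst hb1
      by_cases ha1 : a = s.castSucc
      · subst ha1
        simp only [if_true, ho, h0', hji, Matrix.one_apply_eq]
        linear_combination hdet
      · by_cases ha2 : a = s.succ
        · subst ha2; omega
        · have h3 : a.val ≠ s.val := fun h => ha1 (Fin.ext h)
          rw [hz a s.succ (by omega), hz a s.castSucc (by omega)]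
          simp [ha1, ha2]
    · by_cases hb2 : b = s.succ
      · subst hb2
        by_cases ha1 : a = s.castSucc
        · subst ha1
          simp only [if_true, hne.symm, if_false, ho, h0', hji, Matrix.one_apply_ne hne]
          ring
        · by_cases ha2 : a = s.succ
          · subst ha2
            simp only [if_true, hne.symm, if_false, ho, h0', hji, Matrix.one_apply_eq]
            linear_combination hdet
          · have h3 : a.val ≠ s.val := fun h => ha1 (Fin.ext h)
            have h4 : a.val ≠ s.val + 1 := fun h => ha2 (Fin.ext h)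
            rw [hz a s.castSucc (by omega), hz a s.succ (by omega)]
            simp [ha1, ha2, hne.symm]
      · have h5 : b.val ≠ s.val := fun h => hb1 (Fin.ext h)
        have h6 : b.val ≠ s.val + 1 := fun h => hb2 (Fin.ext h)
        by_cases ha1 : a = s.castSucc
        · subst ha1
          rw [hz s.succ b (by omega), hz s.castSucc b (by omega)]
          simp [hb1, hb2, Ne.symm hb1]
        · by_cases ha2 : a = s.succ
          · subst ha2
            rw [hz s.castSucc b (by omega), hz s.succ b (by omega)]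
            simp [hb1, hb2, hne.symm, Ne.symm hb2]
          · simp only [hb1, hb2, ha1, ha2, if_false]
            exact hU a b hab
  · rw [nrm_conj]
    simp only [if_true, hne.symm, if_false, ho, h0', hji]
    ring

theorem sl_lo_Us (s : Fin m) (c : F) : ∀ u ∈ US m F s,
    ph m F s (lo c) * u * (ph m F s (lo c))⁻¹ ∈ US m F s := nrm_Us s (lo c)

theorem sl_wn_Us (s : Fin m) : ∀ u ∈ US m F s, (ph m F s wn)⁻¹ * u * ph m F s wn ∈ US m F s := by
  intro u hu
  have := nrm_Us s (wn⁻¹) u hu
  rwa [map_inv, inv_inv] at this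

theorem sl_up_Ums (n0 : GS m F) (h0 : IsAnti n0) (s : Fin m) (c : F) : ∀ u ∈ UMS m F n0 s,
    ph m F s (up c) * u * (ph m F s (up c))⁻¹ ∈ UMS m F n0 s := nrm_Ums n0 h0 s (up c)

end Cfsg.Agent.Lib.Helper78.DFZ
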