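import Cfsg.Agent.Lib.Helper78.DFZ.OppDef

/-!
# Ladder DFZ, wave 2, rung OPP1: non-opposite flags have a common transvection.
-/

set_option autoImplicit false

namespace Cfsg.Agent.Lib.Helper78.DFZ

open Matrix

variable {m : ℕ} {F : Type*} [Field F] [Fintype F] [DecidableEq F]

/-- a linear form vanishing on `V_{m+1-k}` and on `g V_k` -/
theorem OPP1_form (g : GS m F) (k : ℕ) (hk0 : 0 < k) (hkm : k ≤ m) (v : Fin (m + 1) → F)
    (hv : ∀ a : Fin (m + 1), k ≤ a.val → v a = 0)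
    (hgv : ∀ a : Fin (m + 1), m + 1 - k ≤ a.val → (g.1 *ᵥ v) a = 0) (hv0 : v ≠ 0) :
    ∃ φ : Fin (m + 1) → F, φ ≠ 0 ∧ (∀ a : Fin (m + 1), a.val < m + 1 - k → φ a = 0) ∧
      ∀ b : Fin (m + 1), b.val < k → (φ ᵥ* g.1) b = 0 := by
  classical
  set N : Matrix (Fin (m + 1)) (Fin (m + 1)) F := fun a b =>
    if m + 1 - k ≤ a.val then (if b.val < k then g.1 a b else 0)
    else (if b = Fin.rev a then 1 else 0) with hN
  have hNv : N *ᵥ v = 0 := by
    funext a
    by_cases ha : m + 1 - k ≤ a.val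
    · rw [Pi.zero_apply, ← hgv a ha]
      simp only [Matrix.mulVec, dotProduct, hN, if_pos ha]
      apply Finset.sum_congr rfl
      intro b _
      by_cases hb : b.val < k
      · rw [if_pos hb]
      · rw [if_neg hb, hv b (by omega), mul_zero, mul_zero]
    · simp only [Matrix.mulVec, dotProduct, hN, if_neg ha]
      simp only [ite_mul, one_mul, zero_mul, Finset.sum_ite_eq', Finset.mem_univ, if_true,
        Pi.zero_apply]
      apply hv
      rw [Fin.val_rev]
      omega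
  have hdet : N.det = 0 := Matrix.exists_mulVec_eq_zero_iff.mp ⟨v, hv0, hNv⟩
  obtain ⟨φ, hφ0, hφ⟩ := Matrix.exists_vecMul_eq_zero_iff.mpr hdet
  have h1 : ∀ a : Fin (m + 1), a.val < m + 1 - k → φ a = 0 := by
    intro a ha
    have h2 : (φ ᵥ* N) (Fin.rev a) = 0 := by rw [hφ]; rfl
    simp only [Matrix.vecMul, dotProduct, hN] at h2
    rw [Finset.sum_eq_single a] at h2
    · rw [if_neg (by omega), if_pos rfl, mul_one] at h2
      exact h2
    · intro c _ hca
      by_cases hc : m + 1 - k ≤ c.val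
      · rw [if_pos hc, if_neg (by rw [Fin.val_rev]; omega), mul_zero]
      · rw [if_neg hc, if_neg (fun e => hca (Fin.rev_injective e).symm), mul_zero]
    · intro h; exact absurd (Finset.mem_univ a) h
  refine ⟨φ, hφ0, h1, ?_⟩
  intro b hb
  have h2 : (φ ᵥ* N) b = 0 := by rw [hφ]; rfl
  rw [← h2]
  simp only [Matrix.vecMul, dotProduct, hN]
  apply Finset.sum_congr rfl
  intro a _
  by_cases ha : m + 1 - k ≤ a.val
  · rw [if_pos ha, if_pos hb]
  · rw [h1 a (by omega), zero_mul, zero_mul]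

theorem opp1 (g : GS m F) (h : ¬ OppG g) : ∃ u ∈ UU m F, u ≠ 1 ∧ g⁻¹ * u * g ∈ UU m F := by
  classical
  unfold OppG at h
  push Not at h
  obtain ⟨k, hk0, hkm, v, hv, hgv, hv0⟩ := h
  obtain ⟨φ, hφ0, hφ1, hφ2⟩ := OPP1_form g k hk0 hkm v hv hgv hv0
  set w : Fin (m + 1) → F := g.1 *ᵥ v with hw
  have e2 : (g⁻¹).1 * g.1 = 1 := by
    have : (g⁻¹ * g).1 = (g⁻¹).1 * g.1 := rfl
    rw [← this, inv_mul_cancel]; rfl
  have hgw : (g⁻¹).1 *ᵥ w = v := by
    rw [hw, Matrix.mulVec_mulVec, e2, Matrix.one_mulVec]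
  have hw0 : w ≠ 0 := by
    intro h0
    apply hv0
    rw [← hgw, h0, Matrix.mulVec_zero]
  have hut : ∀ a b : Fin (m + 1), b ≤ a →
      (1 + Matrix.vecMulVec w φ) a b = (1 : Matrix (Fin (m + 1)) (Fin (m + 1)) F) a b := by
    intro a b hab
    rw [Matrix.add_apply, Matrix.vecMulVec_apply]
    by_cases hb : b.val < m + 1 - k
    · rw [hφ1 b hb, mul_zero, add_zero]
    · have hab' : b.val ≤ a.val := hab
      rw [hgv a (by omega), zero_mul, add_zero]
  have hdet : (1 + Matrix.vecMulVec w φ).det = 1 := by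
    have hbt : Matrix.BlockTriangular (1 + Matrix.vecMulVec w φ) id := by
      intro a b hab
      have hab' : b < a := hab
      rw [hut a b hab'.le, Matrix.one_apply_ne hab'.ne']
    rw [Matrix.det_of_upperTriangular hbt]
    apply Finset.prod_eq_one
    intro a _
    rw [hut a a le_rfl, Matrix.one_apply_eq]
  set u : GS m F := ⟨1 + Matrix.vecMulVec w φ, hdet⟩ with hu
  refine ⟨u, hut, ?_, ?_⟩
  · intro h1
    obtain ⟨a, ha⟩ := Function.ne_iff.mp hw0
    obtain ⟨b, hb⟩ := Function.ne_iff.mp hφ0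
    have ha' : a.val < m + 1 - k := by
      by_contra hc
      exact ha (hgv a (by omega))
    have hb' : m + 1 - k ≤ b.val := by
      by_contra hc
      exact hb (hφ1 b (by omega))
    have hab : a ≠ b := by
      intro e; rw [e] at ha'; omega
    have h2 : u.1 a b = (1 : GS m F).1 a b := by rw [h1]
    have h3 : u.1 a b = (1 : Matrix (Fin (m + 1)) (Fin (m + 1)) F) a b + w a * φ b := rfl
    have h4 : (1 : GS m F).1 a b = (1 : Matrix (Fin (m + 1)) (Fin (m + 1)) F) a b := rfl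
    rw [h3, h4, Matrix.one_apply_ne hab, zero_add] at h2
    exact (mul_ne_zero ha hb) h2
  · have e1 : (g⁻¹ * u * g).1 = 1 + Matrix.vecMulVec v (φ ᵥ* g.1) := by
      have e0 : (g⁻¹ * u * g).1 = (g⁻¹).1 * (1 + Matrix.vecMulVec w φ) * g.1 := rfl
      rw [e0, Matrix.mul_add, Matrix.add_mul, Matrix.mul_one, e2, Matrix.mul_vecMulVec,
        Matrix.vecMulVec_mul, hgw]
    intro a b hab
    rw [e1, Matrix.add_apply, Matrix.vecMulVec_apply]
    by_cases hb : b.val < k
    · rw [hφ2 b hb, mul_zero, add_zero]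
    · have hab' : b.val ≤ a.val := hab
      rw [hv a (by omega), zero_mul, add_zero]

end Cfsg.Agent.Lib.Helper78.DFZ
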