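import Cfsg.Agent.Lib.Helper78.DFZ.OppDef

/-!
# Ladder DFZ, wave 2, rung OPP2: the big cell.
-/

set_option autoImplicit false

namespace Cfsg.Agent.Lib.Helper78.DFZ

open Matrix

variable {m : ℕ} {F : Type*} [Field F] [Fintype F] [DecidableEq F]

/-- the `j`-th column of the unitriangular factor -/
theorem OPP2_col (g : GS m F) (h : OppG g) (j : Fin (m + 1)) :
    ∃ v : Fin (m + 1) → F, (∀ a : Fin (m + 1), m + 1 - j.val ≤ a.val → v a = 0) ∧
      (g.1 *ᵥ v) j = 1 ∧ ∀ a, j < a → (g.1 *ᵥ v) a = 0 := by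
  classical
  set N : Matrix (Fin (m + 1)) (Fin (m + 1)) F := fun a b =>
    if j ≤ a then (if b.val < m + 1 - j.val then g.1 a b else 0) else (if b = Fin.rev a then 1 else 0)
    with hN
  have hlow : ∀ (v : Fin (m + 1) → F) (a : Fin (m + 1)), ¬ j ≤ a → (N *ᵥ v) a = v (Fin.rev a) := by
    intro v a ha
    simp only [Matrix.mulVec, dotProduct, hN, if_neg ha]
    simp
  have hhigh : ∀ (v : Fin (m + 1) → F), (∀ a : Fin (m + 1), m + 1 - j.val ≤ a.val → v a = 0) →
      ∀ a : Fin (m + 1), j ≤ a → (N *ᵥ v) a = (g.1 *ᵥ v) a := by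
    intro v hv a ha
    simp only [Matrix.mulVec, dotProduct, hN, if_pos ha]
    apply Finset.sum_congr rfl
    intro b _
    by_cases hb : b.val < m + 1 - j.val
    · rw [if_pos hb]
    · rw [if_neg hb, hv b (by omega), mul_zero, mul_zero]
  have hsupp : ∀ (v w : Fin (m + 1) → F), N *ᵥ v = w → (∀ a, a < j → w a = 0) →
      ∀ a : Fin (m + 1), m + 1 - j.val ≤ a.val → v a = 0 := by
    intro v w hvw hw a ha
    have h1 : Fin.rev a < j := by
      rw [Fin.lt_def, Fin.val_rev]
      have := a.2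
      have := j.2
      omega
    have h2 := hlow v (Fin.rev a) (not_le.mpr h1)
    rw [Fin.rev_rev, hvw, hw _ h1] at h2
    exact h2.symm
  have hinj : Function.Injective N.mulVec := by
    have h0 : ∀ v, N *ᵥ v = 0 → v = 0 := by
      intro v hv
      have hs := hsupp v 0 hv (fun _ _ => rfl)
      have hg : ∀ a : Fin (m + 1), j ≤ a → (g.1 *ᵥ v) a = 0 := by
        intro a ha
        rw [← hhigh v hs a ha, hv]; rfl
      by_cases hj : j.val = 0
      · have hgv : g.1 *ᵥ v = 0 := by
          funext a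
          exact hg a (by rw [Fin.le_def, hj]; exact Nat.zero_le _)
        exact Matrix.eq_zero_of_mulVec_eq_zero (by rw [g.2]; exact one_ne_zero) hgv
      · apply h (m + 1 - j.val) (by have := j.2; omega) (by omega) v hs
        intro a ha
        apply hg a
        rw [Fin.le_def]
        have := j.2
        omega
    intro v w hvw
    have h1 : N *ᵥ (v - w) = 0 := by
      rw [Matrix.mulVec_sub]
      exact sub_eq_zero.mpr hvw
    exact sub_eq_zero.mp (h0 _ h1)
  have hsurj : Function.Surjective N.mulVec :=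
    Matrix.mulVec_surjective_iff_isUnit.mpr (Matrix.mulVec_injective_iff_isUnit.mp hinj)
  obtain ⟨v, hv⟩ := hsurj (Pi.single j 1)
  have hs := hsupp v _ hv (fun a ha => by rw [Pi.single_eq_of_ne ha.ne])
  refine ⟨v, hs, ?_, ?_⟩
  · rw [← hhigh v hs j le_rfl]
    have : (N *ᵥ v) j = (Pi.single j 1 : Fin (m + 1) → F) j := congrFun hv j
    rw [this, Pi.single_eq_same]
  · intro a ha
    rw [← hhigh v hs a ha.le]
    have : (N *ᵥ v) a = (Pi.single j 1 : Fin (m + 1) → F) a := congrFun hv a
    rw [this, Pi.single_eq_of_ne ha.ne']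

theorem OPP2_inv_upper (B : GS m F) (hB : IsUpper B) : IsUpper B⁻¹ := by
  have h1 : Matrix.BlockTriangular B.1 id := by
    intro a b hab
    exact hB a b hab
  have hdet : IsUnit B.1.det := by rw [B.2]; exact isUnit_one
  letI : Invertible B.1 := Matrix.invertibleOfIsUnitDet _ hdet
  have h2 := Matrix.blockTriangular_inv_of_blockTriangular h1
  have h3 : (B⁻¹).1 = (B.1)⁻¹ := by
    rw [Matrix.SpecialLinearGroup.coe_inv, Matrix.inv_def, B.2]
    simp
  intro a b hab
  rw [h3]
  exact h2 hab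

theorem opp2 (n0 : GS m F) (h0 : IsAnti n0) (g : GS m F) (h : OppG g) :
    ∃ b b' : GS m F, b ∈ UU m F ∧ IsUpper b' ∧ g = b * n0 * b' := by
  classical
  choose vv hv1 hv2 hv3 using OPP2_col g h
  set V : Matrix (Fin (m + 1)) (Fin (m + 1)) F := fun a j => vv j a with hV
  have hu : ∀ a j, (g.1 * V) a j = (g.1 *ᵥ vv j) a := by
    intro a j
    rfl
  have hut : ∀ a b : Fin (m + 1), b ≤ a →
      (g.1 * V) a b = (1 : Matrix (Fin (m + 1)) (Fin (m + 1)) F) a b := by
    intro a b hab
    rw [hu]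
    rcases hab.lt_or_eq with hlt | rfl
    · rw [hv3 b a hlt, Matrix.one_apply_ne hlt.ne']
    · rw [hv2, Matrix.one_apply_eq]
  have hdet : (g.1 * V).det = 1 := by
    have hbt : Matrix.BlockTriangular (g.1 * V) id := by
      intro a b hab
      have hab' : b < a := hab
      rw [hut a b hab'.le, Matrix.one_apply_ne hab'.ne']
    rw [Matrix.det_of_upperTriangular hbt]
    apply Finset.prod_eq_one
    intro a _
    rw [hut a a le_rfl, Matrix.one_apply_eq]
  set u : GS m F := ⟨g.1 * V, hdet⟩ with hudef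
  have huU : u ∈ UU m F := hut
  set B : GS m F := g⁻¹ * u * n0 with hBdef
  have hB1 : B.1 = V * n0.1 := by
    have e1 : B.1 = (g⁻¹).1 * (g.1 * V) * n0.1 := rfl
    have e2 : (g⁻¹).1 * g.1 = 1 := by
      have : (g⁻¹ * g).1 = (g⁻¹).1 * g.1 := rfl
      rw [← this, inv_mul_cancel]; rfl
    rw [e1, ← Matrix.mul_assoc, e2, Matrix.one_mul]
  have hBup : IsUpper B := by
    intro a i hia
    rw [hB1, Matrix.mul_apply]
    apply Finset.sum_eq_zero
    intro c _
    by_cases hc : c.val + i.val = m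
    · have : V a c = 0 := by
        apply hv1 c a
        have : i.val < a.val := hia
        omega
      rw [this, zero_mul]
    · rw [h0 c i hc, mul_zero]
  refine ⟨u, B⁻¹, huU, OPP2_inv_upper B hBup, ?_⟩
  rw [hBdef]
  group

end Cfsg.Agent.Lib.Helper78.DFZ
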