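import Cfsg.Agent.Lib.Helper78.DFZ.Defs2

/-!
# Ladder DFZ, wave 2: the definition of opposite flags.
-/

set_option autoImplicit false

namespace Cfsg.Agent.Lib.Helper78.DFZ

open Matrix

variable {m : ℕ} {F : Type*} [Field F] [Fintype F] [DecidableEq F]

/-- `g V_k ∩ V_{m+1-k} = 0` for `0 < k ≤ m` -/
def OppG (g : GS m F) : Prop :=
  ∀ k : ℕ, 0 < k → k ≤ m → ∀ v : Fin (m + 1) → F, (∀ a : Fin (m + 1), k ≤ a.val → v a = 0) →
    (∀ a : Fin (m + 1), m + 1 - k ≤ a.val → (g.1 *ᵥ v) a = 0) → v = 0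

end Cfsg.Agent.Lib.Helper78.DFZ
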