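import Cfsg.Agent.Lib.Helper78.DFZ.MUS

set_option autoImplicit false

/-! Ladder DFZ, rung TN. -/

namespace Cfsg.Agent.Lib.Helper78.DFZ

open Matrix

variable {m : ℕ} {F : Type*} [Field F] [Fintype F] [DecidableEq F]

/-- diagonal matrices -/
def TnDiag (t : GS m F) : Prop := ∀ a b : Fin (m + 1), a ≠ b → t.1 a b = 0

omit [Fintype F] [DecidableEq F] in
theorem tn_diag_mul (t : GS m F) (ht : TnDiag t) (A : GS m F) (a b : Fin (m + 1)) :
    (t * A).1 a b = t.1 a a * A.1 a b := by
  rw [Matrix.SpecialLinearGroup.coe_mul, Matrix.mul_apply, Finset.sum_eq_single a]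
  · intro c _ hc
    rw [ht a c (Ne.symm hc), zero_mul]
  · intro h; exact absurd (Finset.mem_univ a) h

omit [Fintype F] [DecidableEq F] in
theorem tn_mul_diag (t : GS m F) (ht : TnDiag t) (A : GS m F) (a b : Fin (m + 1)) :
    (A * t).1 a b = A.1 a b * t.1 b b := by
  rw [Matrix.SpecialLinearGroup.coe_mul, Matrix.mul_apply, Finset.sum_eq_single b]
  · intro c _ hc
    rw [ht c b hc, mul_zero]
  · intro h; exact absurd (Finset.mem_univ b) h

omit [Fintype F] [DecidableEq F] in
theorem tn_one : TnDiag (1 : GS m F) := by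
  intro a b hab
  rw [Matrix.SpecialLinearGroup.coe_one, Matrix.one_apply_ne hab]

omit [Fintype F] [DecidableEq F] in
theorem tn_mul {t t' : GS m F} (ht : TnDiag t) (ht' : TnDiag t') : TnDiag (t * t') := by
  intro a b hab
  rw [tn_diag_mul t ht, ht' a b hab, mul_zero]

omit [Fintype F] [DecidableEq F] in
theorem tn_pow {t : GS m F} (ht : TnDiag t) (k : ℕ) : TnDiag (t ^ k) := by
  induction k with
  | zero => rw [pow_zero]; exact tn_one
  | succ k ih => rw [pow_succ]; exact tn_mul ih ht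

omit [DecidableEq F] in
theorem tn_inv {t : GS m F} (ht : TnDiag t) : TnDiag t⁻¹ := by
  have hfin : Finite (GS m F) := Subtype.finite
  have h1 : t⁻¹ = t ^ (orderOf t - 1) := by
    rw [inv_eq_iff_mul_eq_one, ← pow_succ', Nat.sub_add_cancel (orderOf_pos t), pow_orderOf_eq_one]
  rw [h1]
  exact tn_pow ht _

omit [DecidableEq F] in
theorem tn_inv_entry {t : GS m F} (ht : TnDiag t) (a : Fin (m + 1)) :
    t.1 a a * (t⁻¹).1 a a = 1 := by
  rw [← tn_diag_mul t ht, mul_inv_cancel, Matrix.SpecialLinearGroup.coe_one, Matrix.one_apply_eq]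

omit [DecidableEq F] in
theorem tn_conj {t : GS m F} (ht : TnDiag t) (A : GS m F) (a b : Fin (m + 1)) :
    (t * A * t⁻¹).1 a b = t.1 a a * A.1 a b * (t⁻¹).1 b b := by
  rw [tn_mul_diag _ (tn_inv ht), tn_diag_mul t ht]

theorem tn_gen (s : Fin m) (c : Fˣ) : TnDiag (ph m F s (dg c)) := by
  intro a b hab
  rw [ph_apply]
  by_cases h1 : a = s.castSucc
  · subst h1
    by_cases h2 : b = s.succ
    · simp [dg, Ne.symm hab, h2, (mus_ne s).symm]
    · simp [Ne.symm hab, h2]
  · by_cases h2 : a = s.succ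
    · subst h2
      by_cases h3 : b = s.castSucc
      · simp [dg, h3, (mus_ne s).symm]
      · simp [Ne.symm hab, h3, (mus_ne s).symm]
    · simp [h1, h2, hab]

theorem tn_TT (t : GS m F) (ht : t ∈ TT m F) : TnDiag t := by
  unfold TT at ht
  induction ht using Subgroup.closure_induction with
  | mem x hx =>
    obtain ⟨s, c, rfl⟩ := hx
    exact tn_gen s c
  | one => exact tn_one
  | mul x y _ _ hx hy => exact tn_mul hx hy
  | inv x _ hx => exact tn_inv hx

theorem TT_diag (t : GS m F) (ht : t ∈ TT m F) (a b : Fin (m + 1)) (hab : a ≠ b) : t.1 a b = 0 :=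
  tn_TT t ht a b hab

theorem sl_T_U : ∀ t ∈ TT m F, ∀ u ∈ UU m F, t * u * t⁻¹ ∈ UU m F := by
  intro t ht u hu a b hab
  have hd := tn_TT t ht
  rw [tn_conj hd, hu a b hab]
  by_cases h : a = b
  · subst h
    rw [Matrix.one_apply_eq, mul_one, tn_inv_entry hd]
  · rw [Matrix.one_apply_ne h, mul_zero, zero_mul]

theorem sl_T_Um (n0 : GS m F) (h0 : IsAnti n0) :
    ∀ t ∈ TT m F, ∀ u ∈ UM m F n0, t * u * t⁻¹ ∈ UM m F n0 := by
  intro t ht u hu
  rw [mem_UM_iff n0 h0] at hu ⊢
  intro a b hab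
  have hd := tn_TT t ht
  rw [tn_conj hd, hu a b hab]
  by_cases h : a = b
  · subst h
    rw [Matrix.one_apply_eq, mul_one, tn_inv_entry hd]
  · rw [Matrix.one_apply_ne h, mul_zero, zero_mul]

theorem sl_T_Us (s : Fin m) : ∀ t ∈ TT m F, ∀ u ∈ US m F s, t * u * t⁻¹ ∈ US m F s := by
  intro t ht u hu
  rw [mem_US_iff] at hu ⊢
  refine ⟨sl_T_U t ht u hu.1, ?_⟩
  rw [tn_conj (tn_TT t ht), hu.2, mul_zero, zero_mul]

theorem sl_T_lo (s : Fin m) :
    ∀ t ∈ TT m F, ∀ c, ∃ c', t * ph m F s (lo c) * t⁻¹ = ph m F s (lo c') := by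
  intro t ht c
  have hd := tn_TT t ht
  refine ⟨t.1 s.succ s.succ * c * (t⁻¹).1 s.castSucc s.castSucc, ?_⟩
  apply Subtype.ext
  ext a b
  rw [tn_conj hd, ph_lo, ph_lo]
  simp only [Matrix.SpecialLinearGroup.transvection_coe, Matrix.add_apply, Matrix.single_apply]
  by_cases h : a = b
  · subst h
    have h2 : ¬ (s.succ = a ∧ s.castSucc = a) := by
      rintro ⟨h3, h4⟩
      exact mus_ne s (h4.trans h3.symm)
    rw [if_neg h2, if_neg h2, Matrix.one_apply_eq, add_zero, mul_one, tn_inv_entry hd]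
  · rw [Matrix.one_apply_ne h, zero_add, zero_add]
    by_cases h2 : s.succ = a ∧ s.castSucc = b
    · obtain ⟨rfl, rfl⟩ := h2
      simp
    · rw [if_neg h2, if_neg h2, mul_zero, zero_mul]

theorem sl_T_comm : ∀ a ∈ TT m F, ∀ b ∈ TT m F, a * b = b * a := by
  intro a ha b hb
  apply Subtype.ext
  ext i j
  rw [tn_diag_mul a (tn_TT a ha), tn_diag_mul b (tn_TT b hb)]
  by_cases h : i = j
  · subst h; ring
  · rw [tn_TT a ha i j h, tn_TT b hb i j h, mul_zero, mul_zero]

omit [Fintype F] [DecidableEq F] in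
theorem tn_pow_entry {t : GS m F} (ht : TnDiag t) (k : ℕ) (a : Fin (m + 1)) :
    (t ^ k).1 a a = (t.1 a a) ^ k := by
  induction k with
  | zero => rw [pow_zero, pow_zero, Matrix.SpecialLinearGroup.coe_one, Matrix.one_apply_eq]
  | succ k ih => rw [pow_succ, pow_succ, tn_mul_diag t ht, ih]

theorem sl_T_card (p : ℕ) [Fact p.Prime] [CharP F p] : (Nat.card (TT m F)).Coprime p := by
  have hfin : Finite (GS m F) := Subtype.finite
  rw [Nat.coprime_comm, Nat.Prime.coprime_iff_not_dvd (Fact.out : p.Prime)]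
  intro hdvd
  obtain ⟨⟨t, ht⟩, hord⟩ := exists_prime_orderOf_dvd_card' p hdvd
  have hord' : orderOf t = p := by
    rw [← hord, ← Subgroup.orderOf_coe]
  have hd := tn_TT t ht
  have h1 : t ^ (Fintype.card F - 1) = 1 := by
    apply Subtype.ext
    ext a b
    by_cases h : a = b
    · subst h
      rw [tn_pow_entry hd, Matrix.SpecialLinearGroup.coe_one, Matrix.one_apply_eq]
      apply FiniteField.pow_card_sub_one_eq_one
      intro h0
      have := tn_inv_entry hd a
      rw [h0, zero_mul] at this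
      exact zero_ne_one this
    · rw [tn_pow hd _ a b h, Matrix.SpecialLinearGroup.coe_one, Matrix.one_apply_ne h]
  have h2 : p ∣ Fintype.card F - 1 := by
    rw [← hord']; exact orderOf_dvd_of_pow_eq_one h1
  have h3 : p ∣ Fintype.card F := by
    obtain ⟨n, _, hn⟩ := FiniteField.card F p
    rw [hn]
    exact dvd_pow_self p n.ne_zero
  have h4 : 0 < Fintype.card F := Fintype.card_pos
  have h5 : p ∣ 1 := by
    have := (Nat.dvd_sub h3 h2)
    rwa [show Fintype.card F - (Fintype.card F - 1) = 1 by omega] at this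
  exact (Fact.out : p.Prime).one_lt.ne' (Nat.dvd_one.1 h5)

end Cfsg.Agent.Lib.Helper78.DFZ
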