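import Cfsg.Agent.Lib.Helper78.DFZ.Defs2

/-! Ladder DFZ, rung UPN (helper98). -/

set_option autoImplicit false
set_option linter.unusedSectionVars false

namespace Cfsg.Agent.Lib.Helper78.DFZ

open Matrix

variable {m : ℕ} {F : Type*} [Field F] [Fintype F] [DecidableEq F]

theorem upn_mul {A B : GS m F} (hA : IsUpper A) (hB : IsUpper B) : IsUpper (A * B) := by
  intro a b hab
  rw [Matrix.SpecialLinearGroup.coe_mul, Matrix.mul_apply]
  apply Finset.sum_eq_zero
  intro c _
  rcases lt_or_ge c a with h | h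
  · rw [hA a c h, zero_mul]
  · rw [hB c b (lt_of_lt_of_le hab h), mul_zero]

theorem upn_one : IsUpper (1 : GS m F) := by
  intro a b hab
  rw [Matrix.SpecialLinearGroup.coe_one, Matrix.one_apply_ne (ne_of_gt hab)]

theorem upn_pow {A : GS m F} (hA : IsUpper A) (n : ℕ) : IsUpper (A ^ n) := by
  induction n with
  | zero => rw [pow_zero]; exact upn_one
  | succ n ih => rw [pow_succ]; exact upn_mul ih hA

theorem upn_inv {A : GS m F} (hA : IsUpper A) : IsUpper A⁻¹ := by
  have hfin : Finite (GS m F) := Subtype.finite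
  have h1 : A⁻¹ = A ^ (orderOf A - 1) := by
    rw [inv_eq_iff_mul_eq_one, ← pow_succ', Nat.sub_add_cancel (orderOf_pos A), pow_orderOf_eq_one]
  rw [h1]
  exact upn_pow hA _

/-- [UPN] upper triangular matrices normalise `U` -/
theorem upper_norm (b : GS m F) (hb : IsUpper b) : ∀ u ∈ UU m F, b * u * b⁻¹ ∈ UU m F := by
  intro u hu
  have hbi := upn_inv hb
  rw [Cfsg.Agent.Lib.Helper89.UT.mem_U_iff] at hu ⊢
  intro x y hxy
  have hdec : (b * u * b⁻¹).1 = 1 + b.1 * (u.1 - 1) * (b⁻¹).1 := by
    have h1 : b.1 * (b⁻¹).1 = 1 := by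
      rw [← Matrix.SpecialLinearGroup.coe_mul, mul_inv_cancel, Matrix.SpecialLinearGroup.coe_one]
    rw [Matrix.SpecialLinearGroup.coe_mul, Matrix.SpecialLinearGroup.coe_mul, mul_sub, sub_mul,
      mul_one, h1]
    abel
  rw [hdec, Matrix.add_apply]
  have hz : (b.1 * (u.1 - 1) * (b⁻¹).1) x y = 0 := by
    rw [Matrix.mul_apply]
    apply Finset.sum_eq_zero
    intro d _
    rcases lt_or_ge y d with h | h
    · rw [hbi d y h, mul_zero]
    · have : (b.1 * (u.1 - 1)) x d = 0 := by
        rw [Matrix.mul_apply]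
        apply Finset.sum_eq_zero
        intro c _
        rcases lt_or_ge c x with h' | h'
        · rw [hb x c h', zero_mul]
        · rw [Matrix.sub_apply, hu c d ((h.trans hxy).trans h'), sub_self, mul_zero]
      rw [this, zero_mul]
  rw [hz, add_zero]

end Cfsg.Agent.Lib.Helper78.DFZ
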