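import Cfsg.Agent.Lib.Helper78.DFZ.ENT
import Cfsg.Agent.Lib.Helper78.DFZ.N0
import Cfsg.Agent.Lib.Helper78.DFZ.MUM
import Cfsg.Agent.Lib.Helper78.DFZ.MUS
import Cfsg.Agent.Lib.Helper78.DFZ.FACT
import Cfsg.Agent.Lib.Helper78.DFZ.TN
import Cfsg.Agent.Lib.Helper78.DFZ.NRM
import Cfsg.Agent.Lib.Helper78.DFZ.OPP1
import Cfsg.Agent.Lib.Helper78.DFZ.OPP2
import Cfsg.Agent.Lib.Helper78.DFZ.UPN
import Cfsg.Agent.Lib.Helper78.DFZ.GEN

/-! Ladder DFZ: the split datum of `SL_{m+1}(F)`. -/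

set_option autoImplicit false

namespace Cfsg.Agent.Lib.Helper78.DFZ

open Matrix

variable {m : ℕ} {F : Type*} [Field F] [Fintype F] [DecidableEq F]

theorem slsd_opp (n0 : GS m F) (h0 : IsAnti n0) (g : GS m F) :
    (∃ u ∈ UU m F, u ≠ 1 ∧ g⁻¹ * u * g ∈ UU m F) ∨
    ∃ b b' : GS m F, (∀ u ∈ UU m F, b * u * b⁻¹ ∈ UU m F) ∧ (∀ u ∈ UU m F, b' * u * b'⁻¹ ∈ UU m F) ∧
      g = b * n0 * b' := by
  by_cases h : OppG g
  · right
    obtain ⟨b, b', hb, hb', hg⟩ := opp2 n0 h0 g h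
    exact ⟨b, b', fun u hu => (UU m F).mul_mem ((UU m F).mul_mem hb hu) ((UU m F).inv_mem hb),
      upper_norm b' hb', hg⟩
  · left
    exact opp1 g h

/-- the split datum of `SL_{m+1}(F)` -/
noncomputable def slSD (m : ℕ) (F : Type*) [Field F] [Fintype F] [DecidableEq F] (n0 : GS m F)
    (h0 : IsAnti n0) : SD (GS m F) (Fin m) F where
  U := UU m F
  Um := UM m F n0
  T := TT m F
  Us := US m F
  Ums := UMS m F n0
  φ := ph m F
  n0 := n0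
  up_mem := sl_up_mem
  lo_mem := sl_lo_mem n0 h0
  dg_mem := fun s c => Subgroup.subset_closure ⟨s, c, rfl⟩
  Us_le := fun _ => inf_le_left
  Ums_le := fun _ => inf_le_left
  U_fact := sl_U_fact
  Um_fact := sl_Um_fact n0 h0
  T_U := sl_T_U
  T_Um := sl_T_Um n0 h0
  T_Us := sl_T_Us
  T_lo := sl_T_lo
  lo_Us := sl_lo_Us
  wn_Us := sl_wn_Us
  up_Ums := sl_up_Ums n0 h0
  gen := sl_gen n0 h0
  T_gen := le_rfl
  T_comm := sl_T_comm
  n0_Um := sl_n0_Um n0 h0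
  n0_U := sl_n0_U n0 h0
  opp := slsd_opp n0 h0

end Cfsg.Agent.Lib.Helper78.DFZ
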